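import Cfsg.Agent.H15.AHDB

/-! AH tower: the job DA. -/

set_option autoImplicit false
set_option maxHeartbeats 400000

namespace H15.AHD

open Subgroup H91.AH Pointwise

variable {G : Type} [Group G] [Finite G] {S : Sylow 2 G} {s a : G}

theorem fuse_of_eight (h : S8 S s a) (hcs : cc s = 4) {e : G} (e2 : e * e = 1) (e1 : e ≠ 1)
    (h8 : 8 ∣ cc e) : IsConj e (s * s) := by
  obtain ⟨K, hK⟩ := Sylow.exists_subgroup_card_pow_prime 2 (n := 3)
    (G := centralizer ({e} : Set G)) h8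
  rw [← card_subtype] at hK
  obtain ⟨Q, hQ⟩ := (IsPGroup.of_card hK).exists_le_sylow
  have hTQ := eq_of_le_of_card_ge hQ (by
    rw [hK, Q.card_eq_multiplicity, ← S.card_eq_multiplicity, h.card]; norm_num)
  obtain ⟨g, hg⟩ := MulAction.exists_smul_eq G S Q
  have h1 : g * s * g⁻¹ ∈ (Q : Subgroup G) := by
    rw [← hg]
    exact smul_mem_pointwise_smul s (MulAut.conj g) (S : Subgroup G) (s_mem h)
  rw [← hTQ] at h1
  have h2 : Commute (g * s * g⁻¹) e := mem_cent.1 (map_subtype_le K h1)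
  have h3 : g⁻¹ * e * g ∈ centralizer ({s} : Set G) := mem_cent.2 (by
    change _ * _ = _ * _
    calc g⁻¹ * e * g * s = g⁻¹ * (e * (g * s * g⁻¹)) * g := by group
      _ = _ := by rw [← h2.eq]; group)
  have h4 : zpowers s = centralizer ({s} : Set G) := eq_of_le_of_card_ge
    (zpowers_le.2 (mem_cent.2 (Commute.refl s))) (by
      rw [Nat.card_zpowers, h.os]; exact hcs.le)
  rw [← h4, ← mem_powers_iff_mem_zpowers] at h3
  obtain ⟨i, hi⟩ := h3
  replace hi : s ^ i = g⁻¹ * e * g := hi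
  have h5 := pow_eq_j h i (fun x => e1 (by
      calc e = g * (g⁻¹ * e * g) * g⁻¹ := by group
        _ = 1 := by rw [← hi, x]; group)) (by
      calc _ = g⁻¹ * (e * e) * g := by rw [hi]; group
        _ = 1 := by rw [e2]; group)
  exact isConj_iff.2 ⟨g⁻¹, by rw [inv_inv, ← hi, h5]⟩

theorem not_fused (h : S8 S s a) {K : Subgroup G} (hK : K.index = 2) (hs : s ∈ K) (ha : a ∉ K) :
    ¬ IsConj a (s * a) := by
  intro hc
  haveI := normal_of_index_eq_two hK
  obtain ⟨g, hg, hgK⟩ : ∃ g : G, g * a * g⁻¹ = s * a ∧ g ∈ K := by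
    obtain ⟨g, hg⟩ := isConj_iff.1 hc
    by_cases hgK : g ∈ K
    · exact ⟨g, hg, hgK⟩
    · exact ⟨g * a, by rw [← hg]; group, (mul_mem_iff_of_index_two hK).2 (iff_of_false hgK ha)⟩
  have c4 : Nat.card (zpowers s) = 4 := by rw [Nat.card_zpowers, h.os]
  have hp : IsPGroup 2 (zpowers s) := IsPGroup.of_card (n := 2) c4
  obtain ⟨O, o1, o2⟩ := ncomp K (zpowers s) (zpowers_le.2 hs) hp inferInstance (by
    have e1 := relIndex_mul_index (zpowers_le.2 hs)
    have e2 := (zpowers s).card_mul_index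
    have e3 := (S : Subgroup G).card_mul_index
    have e4 := S.not_dvd_index
    rw [h.card] at e3
    rw [c4] at e2
    rw [hK] at e1
    omega) (by rw [c4]; norm_num)
  have hconj : ∀ t : G, ∀ x ∈ O, t * x * t⁻¹ ∈ O := fun t x hx =>
    (o1 _).2 ⟨Normal.conj_mem inferInstance x ((o1 x).1 hx).1 t, by
      rw [ord_conj]; exact ((o1 x).1 hx).2⟩
  obtain ⟨o, ho, _, ⟨k, rfl⟩, rfl⟩ := o2 g hgK
  have e1 : a * s ^ (-k) * a⁻¹ = s ^ k := by
    rw [← b_zpow h]; group
  have e2 : s ^ (1 - 2 * k) = (s ^ (-(2 * k)) * o * (s ^ (-(2 * k)))⁻¹) * (a * o⁻¹ * a⁻¹) := by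
    calc s ^ (1 - 2 * k) = s ^ (-(2 * k)) * (s * a) * a⁻¹ := by group
      _ = s ^ (-(2 * k)) * o * s ^ k * (a * s ^ (-k) * a⁻¹) * (a * o⁻¹ * a⁻¹) := by
        rw [← hg]; group
      _ = _ := by rw [e1]; group
  have e3 : s ^ (1 - 2 * k) ∈ O := by
    rw [e2]; exact O.mul_mem (hconj _ _ ho) (hconj _ _ (O.inv_mem ho))
  have e4 := eq_one_of_odd hp (zpow_mem (mem_zpowers s) _) ((o1 _).1 e3).2
  rw [← orderOf_dvd_iff_zpow_eq_one, h.os] at e4
  omega

omit [Finite G] in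
theorem s8_mul (h : S8 S s a) (a2 : a * a = 1) : S8 S s (s * a) where
  card := h.card
  mem y := by
    rw [h.mem]
    constructor
    · rintro ⟨i, rfl | rfl⟩
      · exact ⟨i, Or.inl rfl⟩
      · exact ⟨i + 3, Or.inr (by rw [← mul_assoc, ← pow_succ, add_assoc, pow_add, s4 h, mul_one])⟩
    · rintro ⟨i, rfl | rfl⟩
      · exact ⟨i, Or.inl rfl⟩
      · exact ⟨i + 1, Or.inr (by rw [← mul_assoc, ← pow_succ])⟩
  os := h.os
  inv := by
    calc s * a * s * (s * a)⁻¹ = s * (a * s * a⁻¹) * s⁻¹ := by group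
      _ = _ := by rw [h.inv]; group
  na e := h.na ((mul_mem_cancel_left (mem_zpowers s)).1 e)
  sq := Or.inl (by
    calc s * a * (s * a) = s * (a * s * a⁻¹) * (a * a) := by group
      _ = 1 := by rw [h.inv, a2]; group)

theorem jobDA : JobDA := by
  intro IDX CA CB G _ _ hsol hAH S s a h a2
  have hcs : cc s = 4 := CA G hsol hAH.rat S s a h s h.os
  have hjS : s * s ∈ (S : Subgroup G) := mul_mem (s_mem h) (s_mem h)
  have key : ∀ e : G, S8 S s e → e * e = 1 → IsConj e (s * s) ∨ (cc e = 12 ∧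
      ∀ y : G, Commute y e → Odd (orderOf y) → s * s * y * (s * s)⁻¹ = y⁻¹) := fun e he e2 => by
    have e1 : e ≠ 1 := fun x => he.na (x ▸ one_mem _)
    have ej : s * s ≠ e := fun x => he.na (x ▸ mul_mem (mem_zpowers s) (mem_zpowers s))
    by_cases h8 : 8 ∣ cc e
    · exact Or.inl (fuse_of_eight h hcs e2 e1 h8)
    obtain ⟨c1, c2⟩ := CB G hsol hAH e (orderOf_eq_prime (by rw [pow_two, e2]) e1)
      (four_dvd h _ ⟨hjS, mem_cent.2 (a_j he)⟩ ⟨a_mem he, mem_cent.2 (Commute.refl e)⟩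
        (j_ne h) e1 ej) h8
    refine Or.inr ⟨c1.resolve_left fun c4 => j_ne h ?_,
      fun y h1 h2 => c2 y _ h1 h2 (a_j he) (jj h) (j_ne h) ej⟩
    obtain ⟨g, hg⟩ := isConj_iff.1 (hAH e s (by rw [c4, hcs]))
    calc s * s = g * (e * e) * g⁻¹ := by rw [← hg]; group
      _ = 1 := by rw [e2]; group
  have hb := s8_mul h a2
  have b2 : s * a * (s * a) = 1 := by
    calc s * a * (s * a) = s * (a * s * a⁻¹) * (a * a) := by group
      _ = 1 := by rw [h.inv, a2]; group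
  obtain ⟨K, hK⟩ := IDX G hsol ⟨⟨s * s, 1, j_ne h⟩⟩ hAH.rat.real
  haveI hn := normal_of_index_eq_two hK
  have hcj : ∀ x y : G, IsConj x y → x ∈ K → y ∈ K := fun x y hxy hx => by
    obtain ⟨g, rfl⟩ := isConj_iff.1 hxy
    exact hn.conj_mem x hx g
  have hSK : a ∈ K → s * a ∈ K → False := fun h1 h2 =>
    S.not_dvd_index (hK.symm.dvd.trans
      (index_dvd_of_le (le_of h ((mul_mem_cancel_right h1).1 h2) h1)))
  have hjK := mul_self_mem_of_index_two hK s
  rcases key a h a2 with ha | ⟨ha, ha'⟩ <;> rcases key _ hb b2 with hb' | ⟨hb', hb''⟩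
  · exact (hSK (hcj _ _ ha.symm hjK) (hcj _ _ hb'.symm hjK)).elim
  · refine ⟨s * a, hb, b2, hb', hb'', IsConj.trans ?_ ha⟩
    exact (isConj_iff.2 ⟨s, by rw [s_a_s h, mul_assoc]⟩).symm
  · exact ⟨a, h, a2, ha, ha', hb'⟩
  · have hab := hAH a (s * a) (by rw [ha, hb'])
    have haK : a ∉ K := fun x => hSK x (hcj _ _ hab x)
    have hbK : s * a ∉ K := fun x => haK (hcj _ _ hab.symm x)
    have hsK : s ∈ K := by
      by_contra x
      exact hbK ((mul_mem_iff_of_index_two hK).2 (iff_of_false x haK))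
    exact (not_fused h hK hsK haK hab).elim

end H15.AHD
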