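import Cfsg.Agent.H15.AHNC

/-! AH tower: the job DB. -/

set_option autoImplicit false
set_option maxHeartbeats 400000

namespace H15.AHD

open Subgroup H91.AH

variable {G : Type} [Group G] [Finite G] {S : Sylow 2 G} {s a : G}

theorem ord_conj (g x : G) : orderOf (g * x * g⁻¹) = orderOf x :=
  (MulAut.conj g).orderOf_eq x

theorem four_dvd (h : S8 S s a) (H : Subgroup G) {e f : G} (he : e ∈ (S : Subgroup G) ⊓ H)
    (hf : f ∈ (S : Subgroup G) ⊓ H) (e1 : e ≠ 1) (f1 : f ≠ 1) (ef : e ≠ f) : 4 ∣ Nat.card H := by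
  have d1 : Nat.card ((S : Subgroup G) ⊓ H : Subgroup G) ∣ 8 := h.card ▸ card_dvd_of_le inf_le_left
  have d2 : Nat.card ((S : Subgroup G) ⊓ H : Subgroup G) ∣ Nat.card H := card_dvd_of_le inf_le_right
  have d3 : 2 < Nat.card ((S : Subgroup G) ⊓ H : Subgroup G) := by
    haveI := Fintype.ofFinite ((S : Subgroup G) ⊓ H : Subgroup G)
    rw [Nat.card_eq_fintype_card, Fintype.two_lt_card_iff]
    exact ⟨1, ⟨e, he⟩, ⟨f, hf⟩, fun x => e1 (congrArg Subtype.val x).symm,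
      fun x => f1 (congrArg Subtype.val x).symm, fun x => ef (congrArg Subtype.val x)⟩
  refine Dvd.dvd.trans ?_ d2
  have := Nat.le_of_dvd (by norm_num) d1
  generalize Nat.card ((S : Subgroup G) ⊓ H : Subgroup G) = n at d1 d3 this
  interval_cases n <;> omega

theorem b_zpow (h : S8 S s a) (n : ℤ) : a⁻¹ * s ^ n * a = s ^ (-n) := by
  have : a⁻¹ * s * a⁻¹⁻¹ = s⁻¹ := by
    nth_rewrite 1 [← a_si h]; group
  calc a⁻¹ * s ^ n * a = (a⁻¹ * s * a⁻¹⁻¹) ^ n := by rw [conj_zpow, inv_inv]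
    _ = _ := by rw [this]; group

theorem comm_mem (h : S8 S s a) : ∀ x ∈ (S : Subgroup G), ∀ y ∈ (S : Subgroup G),
    x⁻¹ * y⁻¹ * x * y ∈ zpowers (s * s) := by
  intro x hx y hy
  rw [← pow_two]
  obtain ⟨i, rfl | rfl⟩ := (h.mem x).1 hx <;> obtain ⟨k, rfl | rfl⟩ := (h.mem y).1 hy
  · exact ⟨0, by group⟩
  · refine ⟨-(i : ℤ), ?_⟩
    calc _ = (s ^ i)⁻¹ * s ^ (-(i : ℤ)) := by group
      _ = _ := by rw [← b_zpow h]; group
  · refine ⟨(k : ℤ), ?_⟩
    calc _ = s ^ (-(-(k : ℤ))) * s ^ k := by group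
      _ = _ := by rw [← b_zpow h]; group
  · refine ⟨(i : ℤ) - k, ?_⟩
    calc _ = s ^ (-(2 * (k : ℤ) - 2 * i)) := by group
      _ = a⁻¹ * ((s ^ i)⁻¹ * s ^ (-((i : ℤ) - k)) * s ^ k) * a := by rw [← b_zpow h]; group
      _ = _ := by rw [← b_zpow h]; group

theorem db_struct (h : S8 S s a) (hN : normalizer ((S : Subgroup G) : Set G) ≤ (S : Subgroup G)) :
    ∃ O : Subgroup G, (∀ x, x ∈ O ↔ Commute x (s * s) ∧ Odd (orderOf x)) ∧
      (∀ g, Commute g (s * s) → ∃ o ∈ O, ∃ p ∈ (S : Subgroup G), g = o * p) ∧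
      cc (s * s) = Nat.card O * 8 := by
  have hSD := le_cj h
  have hjS : s * s ∈ (S : Subgroup G) := mul_mem (s_mem h) (s_mem h)
  obtain ⟨O, o1, o2⟩ := ncomp2 (S.subtype hSD) ⟨s * s, hSD hjS⟩
    (fun g => Subtype.ext (mem_cent.1 g.2).symm.eq)
    (by rw [← orderOf_coe]; exact orderOf_eq_prime (by rw [pow_two]; exact jj h) (j_ne h)) hjS
    (by rw [Sylow.coe_subtype, ← subgroupOf_normalizer_eq hSD]; exact comap_mono hN)
    (fun x hx y hy => by
      obtain ⟨k, hk⟩ := mem_zpowers_iff.1 (comm_mem h x hx y hy)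
      exact mem_zpowers_iff.2 ⟨k, Subtype.ext (by simpa using hk)⟩)
  have hc : IsComplement' O (S.subtype hSD : Subgroup (centralizer ({s * s} : Set G))) :=
    isComplement'_of_disjoint_and_mul_eq_univ (disjoint_def.2 fun {x} h1 h2 =>
      eq_one_of_odd (S.subtype hSD).2 h2 ((o1 x).1 h1)) (Set.eq_univ_of_forall fun g => by
        obtain ⟨o, ho, p, hp, e⟩ := o2 g
        exact ⟨o, ho, p, hp, e.symm⟩)
  refine ⟨O.map (Subgroup.subtype _), fun x => ⟨?_, fun ⟨h1, h2⟩ =>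
    ⟨⟨x, mem_cent.2 h1⟩, (o1 _).2 (by rwa [← orderOf_coe]), rfl⟩⟩, fun g hg => ?_, ?_⟩
  · rintro ⟨y, hy, rfl⟩
    exact ⟨mem_cent.1 y.2, by rw [coe_subtype, orderOf_coe]; exact (o1 y).1 hy⟩
  · obtain ⟨o, ho, p, hp, e⟩ := o2 ⟨g, mem_cent.2 hg⟩
    exact ⟨o, ⟨o, ho, rfl⟩, p, hp, congrArg Subtype.val e⟩
  · rw [card_subtype, cc, ← hc.card_mul_card, Sylow.coe_subtype,
      Nat.card_congr (subgroupOfEquivOfLe hSD).toEquiv, h.card]

/-- `g` centralises or inverts `O`. -/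
def PM (O : Subgroup G) (g : G) : Prop :=
  (∀ x ∈ O, g * x * g⁻¹ = x) ∨ ∀ x ∈ O, g * x * g⁻¹ = x⁻¹

omit [Finite G] in
theorem PM.mul {O : Subgroup G} {g k : G} (h1 : PM O g) (h2 : PM O k) : PM O (g * k) := by
  have e : ∀ x, g * k * x * (g * k)⁻¹ = g * (k * x * k⁻¹) * g⁻¹ := fun x => by group
  rcases h1 with h1 | h1 <;> rcases h2 with h2 | h2
  · exact Or.inl fun x hx => by rw [e, h2 x hx, h1 x hx]
  · exact Or.inr fun x hx => by rw [e, h2 x hx, h1 _ (O.inv_mem hx)]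
  · exact Or.inr fun x hx => by rw [e, h2 x hx, h1 x hx]
  · exact Or.inl fun x hx => by rw [e, h2 x hx, h1 _ (O.inv_mem hx), inv_inv]

omit [Finite G] in
theorem PM.pow {O : Subgroup G} {g : G} (h : PM O g) (n : ℕ) : PM O (g ^ n) := by
  induction n with
  | zero => exact Or.inl fun x _ => by simp
  | succ n ih => rw [pow_succ]; exact ih.mul h

omit [Finite G] in
theorem jpow {j y : G} (hc : Commute y j) (hj : j * j = 1) {n : ℕ} (hn : Odd n) (hy : y ^ n = 1) :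
    (j * y) ^ n = j := by
  obtain ⟨k, rfl⟩ := hn
  rw [hc.symm.mul_pow, hy, mul_one, pow_succ, pow_mul, pow_two, hj, one_pow, one_mul]

omit [Finite G] in
theorem odd_inv {y : G} (ho : Odd (orderOf y)) (e : y⁻¹ = y) : y = 1 := by
  have d : orderOf y ∣ 2 := orderOf_dvd_of_pow_eq_one (by
    rw [pow_two]; nth_rewrite 1 [← e]; exact inv_mul_cancel y)
  exact orderOf_eq_one_iff.1 (Nat.eq_one_of_dvd_coprimes (Nat.coprime_two_left.2 ho) d dvd_rfl)

theorem jobDB : JobDB := by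
  intro SN CA G _ _ hsol hAH S s a h
  have h8 := h.s8
  have hcs : cc s = 4 := CA G hsol hAH.rat S s a h8 s h8.os
  obtain ⟨O, o1, o2, o3⟩ := db_struct h8 (SN G hsol hAH.rat.real S)
  have hconj : ∀ g, Commute g (s * s) → ∀ x ∈ O, g * x * g⁻¹ ∈ O := fun g hg x hx =>
    (o1 _).2 ⟨(hg.mul_left ((o1 x).1 hx).1).mul_left hg.inv_left, by
      rw [ord_conj]; exact ((o1 x).1 hx).2⟩
  have hs := inv_of_fpf O s (hconj s (s_j s).symm) (fun x hx => ((o1 x).1 hx).1.symm)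
    (fun x hx hc => by
      have d := orderOf_dvd_cc hc
      rw [hcs] at d
      exact orderOf_eq_one_iff.1 (Nat.eq_one_of_dvd_coprimes
        ((Nat.coprime_two_left.2 ((o1 x).1 hx).2).pow_left 2) d dvd_rfl))
  have ha := inv_of_fpf O a (hconj a (a_j h8).symm)
    (fun x _ => by rw [h.a2]; exact Commute.one_left x) (fun x hx hc => by
      have e := h.inv x hc ((o1 x).1 hx).2
      rw [← ((o1 x).1 hx).1.eq, mul_inv_cancel_right] at e
      exact odd_inv ((o1 x).1 hx).2 e.symm)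
  have hab : ∀ x ∈ O, ∀ y ∈ O, x * y * x⁻¹ = y := fun x hx y hy => by
    have e := hs _ (O.mul_mem hx hy)
    have e' : s * (x * y) * s⁻¹ = x⁻¹ * y⁻¹ := by rw [← hs x hx, ← hs y hy]; group
    rw [e', ← mul_inv_rev, inv_inj] at e
    rw [← e, mul_inv_cancel_right]
  have hpm : ∀ g, Commute g (s * s) → PM O g := fun g hg => by
    obtain ⟨o, ho, p, hp, rfl⟩ := o2 g hg
    refine PM.mul (Or.inl (hab o ho)) ?_
    obtain ⟨i, rfl | rfl⟩ := (h8.mem p).1 hp
    · exact PM.pow (Or.inr hs) i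
    · exact (PM.pow (Or.inr hs) i).mul (Or.inr ha)
  have hcent : ∀ y ∈ O, y ≠ 1 → ∀ g, Commute g (s * s * y) ↔
      Commute g (s * s) ∧ ∀ x ∈ O, g * x * g⁻¹ = x := fun y hy y1 g => by
    obtain ⟨c, ho⟩ := (o1 y).1 hy
    refine ⟨fun hg => ?_, fun ⟨h1, h2⟩ => h1.mul_right (mul_inv_eq_iff_eq_mul.1 (h2 y hy))⟩
    have h1 : Commute g (s * s) := jpow c (jj h8) ho (pow_orderOf_eq_one y) ▸ hg.pow_right _
    refine ⟨h1, (hpm g h1).resolve_right fun h2 => y1 (odd_inv ho ?_)⟩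
    have h3 : Commute g y := inv_mul_cancel_left (s * s) y ▸ h1.inv_right.mul_right hg
    rw [← h2 y hy, h3.eq, mul_inv_cancel_right]
  suffices hO : O = ⊥ by rw [o3, hO, card_bot]
  by_contra hO
  obtain ⟨⟨y, hy⟩, y1⟩ := ne_bot_iff_exists_ne_one.1 hO
  replace y1 : y ≠ 1 := fun e => y1 (Subtype.ext e)
  obtain ⟨c, ho⟩ := (o1 y).1 hy
  have hall : ∀ z ∈ O, z ≠ 1 → z = y ∨ z = y⁻¹ := fun z hz z1 => by
    obtain ⟨c', ho'⟩ := (o1 z).1 hz
    obtain ⟨g, hg⟩ := isConj_iff.1 (hAH (s * s * y) (s * s * z)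
      (cc_congr fun g => by rw [hcent y hy y1, hcent z hz z1]))
    have e1 := jpow c (jj h8) (ho.mul ho') (by rw [pow_mul, pow_orderOf_eq_one, one_pow])
    have e2 := jpow c' (jj h8) (ho.mul ho') (by rw [pow_mul', pow_orderOf_eq_one, one_pow])
    rw [← hg, conj_pow, e1] at e2
    have e3 : g * y * g⁻¹ = z := by
      refine mul_left_cancel (a := s * s) ?_
      rw [← hg]
      nth_rewrite 1 [← e2]
      group
    rcases hpm g (mul_inv_eq_iff_eq_mul.1 e2) with h2 | h2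
    · exact Or.inl (by rw [← e3, h2 y hy])
    · exact Or.inr (by rw [← e3, h2 y hy])
  haveI : Fact (Nat.Prime 3) := ⟨by norm_num⟩
  have y2 : y * y ≠ 1 := fun e => y1 (odd_inv ho (inv_eq_of_mul_eq_one_right e))
  have y3 : orderOf y = 3 := by
    refine orderOf_eq_prime ?_ y1
    rcases hall _ (O.mul_mem hy hy) y2 with e | e
    · exact absurd (mul_left_cancel (e.trans (mul_one y).symm)) y1
    · rw [pow_succ, pow_two, e, inv_mul_cancel]
  have hOy : O = zpowers y := le_antisymm (fun z hz => by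
    by_cases z1 : z = 1
    · rw [z1]; exact one_mem _
    · rcases hall z hz z1 with rfl | rfl
      · exact mem_zpowers _
      · exact inv_mem (mem_zpowers _)) (zpowers_le.2 hy)
  have c24 : cc (s * s) = 24 := by rw [o3, hOy, Nat.card_zpowers, y3]
  have hle : centralizer ({s * s * y} : Set G) ≤ centralizer ({s * s} : Set G) := fun g hg =>
    mem_cent.2 ((hcent y hy y1 g).1 (mem_cent.1 hg)).1
  have d24 : cc (s * s * y) ∣ 24 := c24 ▸ card_dvd_of_le hle
  have d3 : 3 ∣ cc (s * s * y) := y3 ▸ orderOf_dvd_cc (c.mul_right (Commute.refl y))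
  have hjS : s * s ∈ (S : Subgroup G) := mul_mem (s_mem h8) (s_mem h8)
  have d4 : 4 ∣ cc (s * s * y) := four_dvd h8 _ (e := s * s) (f := s * a)
    ⟨hjS, mem_cent.2 ((Commute.refl _).mul_right c.symm)⟩
    ⟨mul_mem (s_mem h8) (a_mem h8), mem_cent.2 ((hcent y hy y1 _).2
      ⟨((s_j s).mul_right (a_j h8)).symm, fun x hx => by
        calc _ = s * (a * x * a⁻¹) * s⁻¹ := by group
          _ = x := by rw [ha x hx, hs _ (O.inv_mem hx), inv_inv]⟩)⟩ (j_ne h8)
    (fun e => h8.na (by rw [← inv_eq_of_mul_eq_one_right e]; exact inv_mem (mem_zpowers s)))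
    (fun e => h8.na (by rw [← mul_left_cancel e]; exact mem_zpowers s))
  have n24 : cc (s * s * y) ≠ 24 := fun e => by
    have := eq_of_le_of_card_ge hle (by change cc _ ≤ cc _; rw [e, c24])
    have hs' : s ∈ centralizer ({s * s * y} : Set G) := this ▸ mem_cent.2 (s_j s).symm
    exact y1 (odd_inv ho (by rw [← hs y hy, ((hcent y hy y1 s).1 (mem_cent.1 hs')).2 y hy]))
  have c12 : cc (s * s * y) = 12 := by
    have := Nat.le_of_dvd (by norm_num) d24
    have := cc_pos (s * s * y)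
    omega
  obtain ⟨g, hg⟩ := isConj_iff.1 (hAH a (s * s * y) (by rw [c12, h.c12]))
  apply y2
  calc y * y = (s * s * y) ^ 2 := by rw [c.symm.mul_pow, pow_two, jj h8, one_mul, pow_two]
    _ = 1 := by rw [← hg, conj_pow, pow_two, h.a2]; group

end H15.AHD
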