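import Cfsg.Agent.H91.AHSpec

/-! AH tower: facts on the Sylow subgroup of order eight, and the job DC. -/

set_option autoImplicit false
set_option maxHeartbeats 400000

namespace H15.AHD

open Subgroup H91.AH

variable {G : Type} [Group G] {S : Sylow 2 G} {s a : G}

theorem s4 (h : S8 S s a) : s ^ 4 = 1 := h.os ▸ pow_orderOf_eq_one s

theorem jj (h : S8 S s a) : s * s * (s * s) = 1 := by
  rw [← s4 h]; simp only [pow_succ, pow_zero, one_mul, mul_assoc]

theorem j_ne (h : S8 S s a) : s * s ≠ 1 := fun e => by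
  have : orderOf s ∣ 2 := orderOf_dvd_of_pow_eq_one (by rw [pow_two, e])
  rw [h.os] at this
  omega

theorem j_inv (h : S8 S s a) : (s * s)⁻¹ = s * s := inv_eq_of_mul_eq_one_right (jj h)

theorem a_s (h : S8 S s a) : a * s = s⁻¹ * a := by rw [← h.inv]; group

theorem a_si (h : S8 S s a) : a * s⁻¹ * a⁻¹ = s := by
  calc a * s⁻¹ * a⁻¹ = (a * s * a⁻¹)⁻¹ := by group
    _ = s := by rw [h.inv, inv_inv]

theorem a_j (h : S8 S s a) : Commute (s * s) a := by
  have : a * (s * s) * a⁻¹ = s * s := by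
    calc a * (s * s) * a⁻¹ = (a * s * a⁻¹) * (a * s * a⁻¹) := by group
      _ = (s * s)⁻¹ := by rw [h.inv]; group
      _ = s * s := j_inv h
  exact (mul_inv_eq_iff_eq_mul.1 this).symm

theorem s_j (s : G) : Commute (s * s) s := (mul_assoc s s s)

theorem s_mem (h : S8 S s a) : s ∈ (S : Subgroup G) := (h.mem s).2 ⟨1, Or.inl (pow_one s).symm⟩

theorem a_mem (h : S8 S s a) : a ∈ (S : Subgroup G) := (h.mem a).2 ⟨0, Or.inr (by simp)⟩

theorem le_of (h : S8 S s a) {K : Subgroup G} (hs : s ∈ K) (ha : a ∈ K) : (S : Subgroup G) ≤ K := by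
  intro y hy
  obtain ⟨i, rfl | rfl⟩ := (h.mem y).1 hy
  · exact K.pow_mem hs i
  · exact K.mul_mem (K.pow_mem hs i) ha

theorem le_cj (h : S8 S s a) : (S : Subgroup G) ≤ centralizer ({s * s} : Set G) :=
  le_of h (mem_cent.2 (s_j s).symm) (mem_cent.2 (a_j h).symm)

/-- The involution among the powers of `s`. -/
theorem pow_eq_j (h : S8 S s a) (i : ℕ) (h1 : s ^ i ≠ 1) (h2 : s ^ i * s ^ i = 1) :
    s ^ i = s * s := by
  rw [← pow_add, ← orderOf_dvd_iff_pow_eq_one, h.os] at h2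
  rw [Ne, ← orderOf_dvd_iff_pow_eq_one, h.os] at h1
  rw [← pow_two, pow_eq_pow_iff_modEq, h.os]
  unfold Nat.ModEq
  omega

theorem s_a_s (h : S8 S s a) : s * a * s⁻¹ = s * s * a := by
  calc s * a * s⁻¹ = s * (a * s⁻¹ * a⁻¹) * a := by group
    _ = _ := by rw [a_si h]

theorem comm_pow_a (h : S8 S s a) (i : ℕ) :
    s * (s ^ i * a) * s⁻¹ * (s ^ i * a)⁻¹ = s * s := by
  calc s * (s ^ i * a) * s⁻¹ * (s ^ i * a)⁻¹ = s * s ^ i * (a * s⁻¹ * a⁻¹) * (s ^ i)⁻¹ := by group
    _ = s * s ^ i * s * (s ^ i)⁻¹ := by rw [a_si h]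
    _ = s * s := by rw [← pow_two]; group

theorem jobDC : JobDC := by
  intro G _ _ hsol S s a h hc
  have h8 := h.s8
  have hnt : (⊤ : Subgroup G) ≠ ⊥ := fun e => j_ne h8 (mem_bot.1 (e ▸ mem_top (s * s)))
  obtain ⟨M, q, hM, -, hne, hq, -, hp, hex, hab, -⟩ := exists_minN (⊤ : Subgroup G) inferInstance hnt
  obtain ⟨⟨m, hm⟩, hm1⟩ := ne_bot_iff_exists_ne_one.1 hne
  replace hm1 : m ≠ 1 := fun e => hm1 (Subtype.ext e)
  rcases hq.eq_two_or_odd' with rfl | hodd
  · have hMS : M ≤ S := hp.le_sylow_of_normal S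
    have hj : s * s ∈ M := by
      obtain ⟨i, rfl | rfl⟩ := (h8.mem m).1 (hMS hm)
      · rw [← pow_eq_j h8 i hm1 (by rw [← pow_two]; exact hex _ hm)]
        exact hm
      · rw [← comm_pow_a h8 i]
        exact M.mul_mem (hM.conj_mem _ hm s) (M.inv_mem hm)
    haveI : Fact (Nat.Prime 3) := ⟨by norm_num⟩
    obtain ⟨⟨u, hu⟩, hu3⟩ := exists_prime_orderOf_dvd_card' (G := centralizer ({a} : Set G)) 3
      (by have := h.c12; unfold cc at this; rw [this]; norm_num)
    replace hu3 : orderOf u = 3 := by rw [← hu3, ← orderOf_coe]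
    have e := h.inv u (mem_cent.1 hu) (by rw [hu3]; decide)
    have hmem : u⁻¹ * u⁻¹ ∈ M := by
      have : u⁻¹ * u⁻¹ = s * s * (u * (s * s)⁻¹ * u⁻¹) := by
        calc u⁻¹ * u⁻¹ = s * s * u * (s * s)⁻¹ * u⁻¹ := by rw [e]
          _ = _ := by group
      rw [this]
      exact M.mul_mem hj (hM.conj_mem _ (M.inv_mem hj) u)
    have h4 : u ^ 4 = 1 := by
      have := hex _ hmem
      calc u ^ 4 = ((u⁻¹ * u⁻¹) ^ 2)⁻¹ := by group
        _ = 1 := by rw [this, inv_one]
    have := orderOf_dvd_of_pow_eq_one h4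
    rw [hu3] at this
    omega
  · have hfix : ∀ x ∈ M, Commute x (s * s) → x = 1 := fun x hx hx' => by
      have d1 := orderOf_dvd_cc hx'
      have d2 := orderOf_dvd_of_pow_eq_one (hex x hx)
      rw [hc] at d1
      have cop : Nat.Coprime 8 q := by
        have : Nat.Coprime 2 q := (Nat.coprime_two_left).2 hodd
        exact this.pow_left 3
      exact orderOf_eq_one_iff.1 (Nat.eq_one_of_dvd_coprimes cop d1 d2)
    have hinv : ∀ x ∈ M, s * s * x * (s * s)⁻¹ = x⁻¹ := fun x hx => by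
      have hx' := hM.conj_mem x hx (s * s)
      have := hfix (x * (s * s * x * (s * s)⁻¹)) (M.mul_mem hx hx') (by
        have c := (hab _ hx _ hx').eq
        change _ * _ = _ * _
        calc x * (s * s * x * (s * s)⁻¹) * (s * s) = s * s * x * (s * s)⁻¹ * x * (s * s) := by rw [c]
          _ = s * s * (x * (s * s * x * (s * s)⁻¹)) := by rw [j_inv h8]; group)
      exact eq_inv_of_mul_eq_one_right this
    have hinv' : ∀ t : G, IsConj t (s * s) → ∀ x ∈ M, t * x * t⁻¹ = x⁻¹ := fun t ht x hx => by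
      obtain ⟨g, rfl⟩ := isConj_iff.1 ht.symm
      have := hinv _ (hM.conj_mem x hx g⁻¹)
      calc _ = g * (s * s * (g⁻¹ * x * g⁻¹⁻¹) * (s * s)⁻¹) * g⁻¹ := by group
        _ = _ := by rw [this]; group
    have e1 := hinv' _ h.fus
    have e2 := hinv' (s * (s * a) * s⁻¹) ((isConj_iff.2 ⟨s, rfl⟩).symm.trans h.fus) m hm
    have e3 : s * (s * a) * s⁻¹ = s * a * (s * s) := by
      calc s * (s * a) * s⁻¹ = s * (s * a * s⁻¹) := by group
        _ = s * (s * s * a) := by rw [s_a_s h8]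
        _ = _ := by rw [(a_j h8).eq]; group
    have e4 : m⁻¹ = m := by
      calc m⁻¹ = s * a * (s * s * m * (s * s)⁻¹) * (s * a)⁻¹ := by rw [← e2, e3]; group
        _ = (s * a * m * (s * a)⁻¹)⁻¹ := by rw [hinv m hm]; group
        _ = m := by rw [e1 m hm, inv_inv]
    have d1 : orderOf m ∣ 2 := orderOf_dvd_of_pow_eq_one (by
      rw [pow_two]; nth_rewrite 1 [← e4]; exact inv_mul_cancel m)
    have d2 := orderOf_dvd_of_pow_eq_one (hex m hm)
    exact hm1 (orderOf_eq_one_iff.1 (Nat.eq_one_of_dvd_coprimes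
      ((Nat.coprime_two_left).2 hodd) d1 d2))

end H15.AHD
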