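import Cfsg.Agent.H15.AHDC

/-! AH tower: normal 2-complements by Burnside transfer. -/

set_option autoImplicit false
set_option maxHeartbeats 400000

namespace H15.AHD

open Subgroup H91.AH

variable {G : Type} [Group G] [Finite G]

theorem eq_one_of_odd {P : Subgroup G} (hp : IsPGroup 2 P) {x : G} (hx : x ∈ P)
    (ho : Odd (orderOf x)) : x = 1 := by
  obtain ⟨k, hk⟩ := hp ⟨x, hx⟩
  have d : orderOf x ∣ 2 ^ k := orderOf_dvd_of_pow_eq_one (congrArg Subtype.val hk)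
  exact orderOf_eq_one_iff.1 (Nat.eq_one_of_dvd_coprimes
    ((Nat.coprime_two_left.2 ho).pow_left k) d dvd_rfl)

theorem of_compl (P : Sylow 2 G) (φ : G →* P) (h : IsComplement' φ.ker (P : Subgroup G)) :
    (∀ x, x ∈ φ.ker ↔ Odd (orderOf x)) ∧ ∀ g, ∃ o ∈ φ.ker, ∃ z ∈ (P : Subgroup G), g = o * z := by
  refine ⟨fun x => ⟨fun hx => ?_, fun hx => ?_⟩, fun g => ?_⟩
  · have d := φ.ker.orderOf_dvd_natCard hx
    rw [← h.index_eq_card] at d
    exact Nat.not_even_iff_odd.1 fun e => P.not_dvd_index ((even_iff_two_dvd.1 e).trans d)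
  · have : ((φ x : P) : G) = 1 := eq_one_of_odd P.2 (φ x).2 (by
      rw [orderOf_coe]; exact hx.of_dvd_nat (orderOf_map_dvd φ x))
    exact Subtype.ext this
  · obtain ⟨⟨o, z⟩, e, -⟩ := IsComplement.existsUnique h g
    exact ⟨o, o.2, z, z.2, e.symm⟩

theorem ncomp (L Z : Subgroup G) (hZL : Z ≤ L) (hp : IsPGroup 2 Z) (hc : IsCyclic Z)
    (hi : ¬ 2 ∣ Z.relIndex L) (h2 : 2 ∣ Nat.card Z) :
    ∃ O : Subgroup G, (∀ x, x ∈ O ↔ x ∈ L ∧ Odd (orderOf x)) ∧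
      ∀ g ∈ L, ∃ o ∈ O, ∃ z ∈ Z, g = o * z := by
  let P : Sylow 2 L := (hp.comap_subtype (K := L)).toSylow hi
  have hP : IsCyclic P := isCyclic_of_surjective (subgroupOfEquivOfLe hZL).symm
    (subgroupOfEquivOfLe hZL).symm.surjective
  have hm : (Nat.card L).minFac = 2 := (Nat.minFac_eq_two_iff _).2 (h2.trans (card_dvd_of_le hZL))
  obtain ⟨h1, h3⟩ := of_compl P _ (hP.isComplement' hm)
  refine ⟨Subgroup.map L.subtype _, fun x => ⟨?_, fun ⟨hx, ho⟩ => ⟨⟨x, hx⟩, (h1 _).2 (by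
    rwa [← orderOf_coe]), rfl⟩⟩, fun g hg => ?_⟩
  · rintro ⟨y, hy, rfl⟩
    exact ⟨y.2, by rw [coe_subtype, orderOf_coe]; exact (h1 y).1 hy⟩
  · obtain ⟨o, ho, z, hz, e⟩ := h3 ⟨g, hg⟩
    exact ⟨o, ⟨o, ho, rfl⟩, z, hz, congrArg Subtype.val e⟩

theorem ncomp2 (P : Sylow 2 G) (j : G) (hj : ∀ g, Commute j g) (hj2 : orderOf j = 2)
    (hjP : j ∈ (P : Subgroup G)) (hN : normalizer ((P : Subgroup G) : Set G) ≤ (P : Subgroup G))
    (hc : ∀ x ∈ (P : Subgroup G), ∀ y ∈ (P : Subgroup G), x⁻¹ * y⁻¹ * x * y ∈ zpowers j) :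
    ∃ O : Subgroup G, (∀ x, x ∈ O ↔ Odd (orderOf x)) ∧
      ∀ g, ∃ o ∈ O, ∃ p ∈ (P : Subgroup G), g = o * p := by
  haveI hn : (zpowers j).Normal := ⟨fun z hz g => by
    obtain ⟨k, rfl⟩ := mem_zpowers_iff.1 hz
    rw [← ((hj g).zpow_left k).eq, mul_inv_cancel_right]
    exact hz⟩
  have hZP : zpowers j ≤ (P : Subgroup G) := zpowers_le.2 hjP
  have hs := QuotientGroup.mk'_surjective (zpowers j)
  let Q := P.mapSurjective hs
  have hQ : normalizer (Q : Set (G ⧸ zpowers j)) ≤ centralizer (Q : Set (G ⧸ zpowers j)) := by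
    intro x hx
    obtain ⟨x, rfl⟩ := hs x
    have h1 : x ∈ (normalizer ((Q : Subgroup (G ⧸ zpowers j)) : Set (G ⧸ zpowers j))).comap
      (QuotientGroup.mk' (zpowers j)) := hx
    rw [comap_normalizer_eq_of_surjective _ hs, Sylow.coe_mapSurjective, comap_map_eq,
      QuotientGroup.ker_mk', sup_eq_left.2 hZP] at h1
    rintro y ⟨y, hy, rfl⟩
    rw [← map_mul, ← map_mul]
    refine QuotientGroup.eq.2 ?_
    have := hc x (hN h1) y hy
    rwa [mul_inv_rev, ← mul_assoc]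
  obtain ⟨h1, h3⟩ := of_compl Q _ (MonoidHom.ker_transferSylow_isComplement' Q hQ)
  have hodd := MonoidHom.not_dvd_card_ker_transferSylow Q hQ
  generalize (MonoidHom.transferSylow Q hQ).ker = K at h1 h3 hodd
  have hcard : Nat.card (zpowers j) = 2 := by rw [Nat.card_zpowers, hj2]
  obtain ⟨O, o1, o2⟩ := ncomp (K.comap (QuotientGroup.mk' (zpowers j))) (zpowers j)
    (fun z hz => by
      rw [mem_comap, QuotientGroup.mk'_apply, (QuotientGroup.eq_one_iff z).2 hz]; exact K.one_mem)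
    (IsPGroup.of_card (n := 1) (by rw [hcard, pow_one])) inferInstance
    (by
      nth_rewrite 1 [← QuotientGroup.ker_mk' (zpowers j)]
      rwa [relIndex_ker, map_comap_eq_self_of_surjective hs]) (by rw [hcard])
  refine ⟨O, fun x => ⟨fun hx => ((o1 x).1 hx).2, fun hx => (o1 x).2 ⟨?_, hx⟩⟩, fun g => ?_⟩
  · exact (h1 _).2 (hx.of_dvd_nat (orderOf_map_dvd _ x))
  · obtain ⟨k, hk, _, ⟨p, hp, rfl⟩, e⟩ := h3 (QuotientGroup.mk' (zpowers j) g)
    obtain ⟨o, ho, z, hz, e'⟩ := o2 (g * p⁻¹) (by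
      rw [mem_comap, map_mul, map_inv, e, mul_inv_cancel_right]; exact hk)
    exact ⟨o, ho, z * p, (P : Subgroup G).mul_mem (hZP hz) hp, by
      rw [← mul_assoc, ← e', inv_mul_cancel_right]⟩

/-- A fixed-point-free automorphism of order two inverts. -/
theorem inv_of_fpf (O : Subgroup G) (t : G) (hn : ∀ x ∈ O, t * x * t⁻¹ ∈ O)
    (h2 : ∀ x ∈ O, Commute (t * t) x) (hf : ∀ x ∈ O, Commute x t → x = 1) :
    ∀ x ∈ O, t * x * t⁻¹ = x⁻¹ := by
  let f : O → O := fun x => ⟨(x : G)⁻¹ * (t * x * t⁻¹), O.mul_mem (O.inv_mem x.2) (hn _ x.2)⟩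
  have hinj : Function.Injective f := fun x y e => by
    have e' : (x : G)⁻¹ * (t * x * t⁻¹) = (y : G)⁻¹ * (t * y * t⁻¹) := congrArg Subtype.val e
    have := hf ((y : G) * (x : G)⁻¹) (O.mul_mem y.2 (O.inv_mem x.2)) (by
      change _ * _ = _ * _
      calc (y : G) * (x : G)⁻¹ * t = y * ((x : G)⁻¹ * (t * x * t⁻¹)) * (t * (x : G)⁻¹) := by group
        _ = _ := by rw [e']; group)
    exact Subtype.ext (mul_inv_eq_one.1 this).symm
  intro z hz
  obtain ⟨x, e⟩ := Finite.injective_iff_surjective.1 hinj ⟨z, hz⟩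
  have e' : (x : G)⁻¹ * (t * x * t⁻¹) = z := congrArg Subtype.val e
  rw [← e']
  calc _ = t * (x : G)⁻¹ * t⁻¹ * (t * t * x * (t * t)⁻¹) := by group
    _ = _ := by rw [(h2 _ x.2).eq]; group

end H15.AHD
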