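import Cfsg.Agent.H20.C3Spec

/-! C3 tower (row S5227), slot Q8: the element of order four. -/

set_option autoImplicit false
set_option linter.unusedSectionVars false
set_option maxHeartbeats 400000

namespace H15.C3

open Subgroup H90.RF H20.C3

variable {YA : Subgroup (Equiv.Perm Co)} {β γ X D : Equiv.Perm Co} {f g : F3 × F3 → F3 × F3} {s t u w : Co}

theorem commA (hu : u ∈ sA) (hw : w ∈ sA) : u * w = w * u := by
  obtain ⟨a, b, c⟩ := hu
  obtain ⟨a', b', c'⟩ := hw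
  ext <;> simp [a, b, c, a', b', c'] <;> ring

theorem cjA (s : Co) (hu : u ∈ sA) : s * u * s⁻¹ ∈ sA := by
  obtain ⟨a, b, c⟩ := hu
  refine ⟨?_, ?_, ?_⟩ <;> simp [a, b, c]

theorem cmA (s : Co) (hu : u ∈ sA) : cm s u ∈ sA := mul_mem (inv_mem hu) (cjA s hu)

theorem cubeA (hu : u ∈ sA) : u * u * u = 1 := by
  obtain ⟨a, b, c⟩ := hu
  ext <;> simp [a, b, c] <;> grind

theorem pow_cj (l : Lg sA YA) (hX : X ∈ YA) (h : ∀ u ∈ sA, X u = cj s u) (i : ℕ) :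
    ∀ u ∈ sA, (X ^ i) u = cj (s ^ i) u := by
  induction i with
  | zero => intro u _; simp [cj]
  | succ i ih =>
    intro u hu
    rw [pow_succ, Equiv.Perm.mul_apply, ih _ ((l.au X hX).mem u hu), h u hu, pow_succ]
    simp only [cj]; group

theorem cube_cj (l : Lg sA YA) (hX : X ∈ YA) (h : ∀ u ∈ sA, X u = cj s u) (e : s ^ 3 = 1) : X ^ 3 = 1 :=
  l.ext (pow_mem hX 3) (one_mem _) fun u hu => by rw [pow_cj l hX h 3 u hu, e]; simp [cj]

theorem e4 (ht : t ∈ sE4 1 0) : ∃ i : ℕ, ∀ u ∈ sA, t * u * t⁻¹ = cj (xx ^ i) u := by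
  obtain ⟨i, hi⟩ : ∃ i : ℕ, (xx ^ i)⁻¹ * t ∈ sA := by
    obtain ⟨b, d⟩ := ht
    rcases tri t.a with e | e | e
    · exact ⟨0, by simp [mem_sA, b, d, e]⟩
    · exact ⟨1, by simp [mem_sA, b, d, e, xx, uu]⟩
    · exact ⟨2, by simp [mem_sA, b, d, e, xx, uu, pow_two]; decide⟩
  refine ⟨i, fun u hu => ?_⟩
  calc _ = xx ^ i * ((xx ^ i)⁻¹ * t * u) * t⁻¹ := by group
    _ = _ := by rw [commA hi hu, cj]; group

/-- the coordinates on `A / [A, x]` -/
def bar (u : Co) : F3 × F3 := (u.c, lam u)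

/-- `β` centralises `X` and induces `f` on `A / [A, x]` -/
structure Br (YA : Subgroup (Equiv.Perm Co)) (X β : Equiv.Perm Co) (f : F3 × F3 → F3 × F3) : Prop where
  mem : β ∈ YA
  com : Commute β X
  act : ∀ u ∈ sA, bar (β u) = f (bar u)

theorem Br.mul (l : Lg sA YA) (h : Br YA X β f) (k : Br YA X γ g) : Br YA X (β * γ) (f ∘ g) :=
  ⟨mul_mem h.mem k.mem, h.com.mul_left k.com, fun u hu => by
    rw [Equiv.Perm.mul_apply, h.act _ ((l.au γ k.mem).mem u hu), k.act u hu]; rfl⟩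

theorem Br.pow (l : Lg sA YA) (h : Br YA X β f) (i : ℕ) : Br YA X (β ^ i) f^[i] := by
  induction i with
  | zero => exact ⟨by simp, by simp, fun _ _ => rfl⟩
  | succ i ih => rw [pow_succ]; exact ih.mul l h

theorem Br.cx (l : Lg sA YA) (hx : ∀ u ∈ sA, X u = cj xx u) (h : Br YA X β f) (hu : u ∈ sA) :
    β (xx * u * xx⁻¹) = xx * β u * xx⁻¹ := by
  have := congrArg (· u) h.com.eq
  simp only [Equiv.Perm.mul_apply] at this
  rwa [hx u hu, hx _ ((l.au β h.mem).mem u hu)] at this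

theorem exN (hw : w ∈ sA) (e : bar w = 0) : ∃ v ∈ sA, cm xx v = w := by
  obtain ⟨a, b, d⟩ := hw
  obtain ⟨c, l⟩ := Prod.ext_iff.1 e
  simp only [bar, lam, Prod.fst_zero, Prod.snd_zero] at c l
  refine ⟨vv w.e w.f (w.h - w.f) 0 (-w.z) 0, ⟨rfl, rfl, rfl⟩, ?_⟩
  ext <;> simp [cm_d, cm_e, cm_f, cm_g, cm_h, cm_z, vv, xx, uu, a, b, c, d] <;> grind

theorem NNN (hu : u ∈ sA) : cm xx (cm xx (cm xx u)) = 1 := by
  obtain ⟨a, b, d⟩ := hu
  ext <;> simp [cm_d, cm_e, cm_f, cm_g, cm_h, cm_z, xx, uu, a, b, d] <;> grind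

theorem bar_mul (hu : u ∈ sA) (w : Co) : bar (u * w) = bar u + bar w := by
  obtain ⟨a, b, d⟩ := hu
  ext <;> simp [bar, lam, a, b, d]; ring

/-- an involution that inverts the quotient inverts `A` -/
theorem inv_of (l : Lg sA YA) (hx : ∀ u ∈ sA, X u = cj xx u) (h : Br YA X β f) (hf : ∀ p, f p = -p)
    (e : β * β = 1) (hu : u ∈ sA) : β u = u⁻¹ := by
  have a := l.au β h.mem
  have m : ∀ u ∈ sA, u * β u ∈ sA := fun u hu => mul_mem hu (a.mem u hu)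
  have ex : ∀ u ∈ sA, ∃ v ∈ sA, cm xx v = u * β u := fun u hu =>
    exN (m u hu) (by rw [bar_mul hu, h.act u hu, hf, add_neg_cancel])
  have cN : ∀ v ∈ sA, cm xx v * β (cm xx v) = cm xx (v * β v) := fun v hv => by
    have q := a.mem v hv
    rw [cm, a.mul _ (inv_mem hv) _ (cjA _ hv), a.inv hv, h.cx l hx hv, cm, mul_inv_rev,
      ← commA (inv_mem hv) (inv_mem q), ← conj_mul, mul_assoc v⁻¹, ← mul_assoc _ (β v)⁻¹,
      commA (cjA xx hv) (inv_mem q)]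
    simp only [mul_assoc]
  have sq : ∀ u ∈ sA, β (u * β u) = u * β u := fun u hu => by
    rw [a.mul _ hu _ (a.mem u hu), ← Equiv.Perm.mul_apply, e, commA hu (a.mem u hu)]; rfl
  obtain ⟨v, hv, e1⟩ := ex u hu
  obtain ⟨v', hv', e2⟩ := ex v hv
  obtain ⟨v'', hv'', e3⟩ := ex v' hv'
  have k1 := cN v hv
  have k2 := cN _ (cmA xx hv')
  rw [cN v' hv', ← e3, NNN hv'', e2, ← k1, e1, a.mul _ (m u hu) _ (a.mem _ (m u hu)), sq u hu, sq u hu,
    ← mul_assoc, cubeA (m u hu), one_mul] at k2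
  exact eq_inv_of_mul_eq_one_right k2

/-- the action of `d` -/
def fD (p : F3 × F3) : F3 × F3 := (p.1, p.2 + p.1)
/-- the action of a conjugate of `d` -/
def fE (ε n s : F3) (p : F3 × F3) : F3 × F3 :=
  (p.1 + ε * (s * p.1 - n * p.2) * n, p.2 + ε * (s * p.1 - n * p.2) * s)
/-- the action of the element of order four -/
def fN (p : F3 × F3) : F3 × F3 := (p.2, -p.1)

theorem word : ∀ ε n s : F3, ε ≠ 0 → n ≠ 0 → ∃ i k : Fin 3,
    ∀ p, fD^[i] ((fE ε n s)^[k] (fD^[2 * i] (fD p))) = fN p := by decide +kernel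

theorem jobQ8 : JobQ8 := by
  rintro a4 YA ce k4 ⟨α, hα, nm, mv⟩
  have l := ce.lA
  obtain ⟨X, hX, hx⟩ := ce.inn xx
  obtain ⟨D, hD, hd⟩ := ce.inn (xd 1)
  have X3 := cube_cj l hX hx (by decide)
  have D3 := cube_cj l hD hd (by decide)
  have zp : ∀ β ∈ YA, ∀ t ∈ sE4 1 0, (∀ u ∈ sA, β u = t * u * t⁻¹) → ∃ i : ℕ, β = X ^ i := fun β hβ t ht e =>
    let ⟨i, hi⟩ := e4 ht
    ⟨i, l.ext hβ (pow_mem hX i) fun u hu => by rw [e u hu, hi u hu, pow_cj l hX hx i u hu]⟩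
  have bD : Br YA X D fD := ⟨hD, l.ext (mul_mem hD hX) (mul_mem hX hD) fun u hu => by
      simp only [Equiv.Perm.mul_apply]
      rw [hx u hu, hd u hu, hd (cj xx u) (cjA _ hu), hx (cj (xd 1) u) (cjA _ hu)]
      calc _ = (xd 1 * xx) * u * (xd 1 * xx)⁻¹ := by simp only [cj]; group
        _ = _ := by rw [show xd 1 * xx = xx * xd 1 by decide]; simp only [cj]; group, fun u hu => by
    obtain ⟨a, b, d⟩ := hu
    rw [hd u ⟨a, b, d⟩]
    ext <;> simp [bar, lam, fD, cj, xd, a, b, d]; ring⟩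
  have aα := l.au α hα
  have iα := (l.au _ (inv_mem hα)).mem
  obtain ⟨m, n, r, s, hm⟩ := a4 α aα nm
  have n0 : n ≠ 0 := fun e => mv fun u hu =>
    have q : u ∈ sA := ⟨hu.1, hu.2.1, hu.2.2.1⟩
    ⟨(aα.mem u q).1, (aα.mem u q).2.1, (aα.mem u q).2.2, by rw [(hm u q).1, e, hu.2.2.2]; simp⟩
  have ε0 : m * s - n * r ≠ 0 := fun e => n0 (by
    obtain ⟨w, hw, q⟩ := aα.sur (xf 1) ⟨rfl, rfl, rfl⟩
    obtain ⟨a, b⟩ := hm w hw
    rw [q] at a b
    change (0 : F3) = _ at a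
    change (1 : F3) = _ at b
    linear_combination n * b - s * a - w.c * e)
  have bE : Br YA X (α * D * α⁻¹) (fE (m * s - n * r) n s) := by
    refine ⟨mul_mem (mul_mem hα hD) (inv_mem hα), ?_, fun u hu => ?_⟩
    · obtain ⟨t, ht, e⟩ := nm xx ⟨by decide, by decide⟩
      obtain ⟨i, hi⟩ := zp (α * X * α⁻¹) (mul_mem (mul_mem hα hX) (inv_mem hα)) t ht fun u hu => by
        simp only [Equiv.Perm.mul_apply]
        rw [hx _ (iα u hu), cj, e _ (iα u hu), Equiv.Perm.coe_inv, Equiv.apply_symm_apply]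
      have c : Commute (α * D * α⁻¹) (α * X * α⁻¹) := bD.com.conj α
      rw [pow_eq_pow_mod i X3] at hi
      rcases show i % 3 = 0 ∨ i % 3 = 1 ∨ i % 3 = 2 by omega with q | q | q <;> rw [q] at hi
      · rw [conj_eq_one_iff.1 (hi.trans (pow_zero X))]; exact Commute.one_right _
      · rwa [hi, pow_one] at c
      · have := c.pow_right 2
        rwa [hi, ← pow_mul, show 2 * 2 = 3 + 1 from rfl, pow_succ, X3, one_mul] at this
    · obtain ⟨w, hw, rfl⟩ := aα.sur u hu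
      obtain ⟨a, b⟩ := Prod.ext_iff.1 (bD.act w hw)
      obtain ⟨a1, b1⟩ := hm w hw
      obtain ⟨a2, b2⟩ := hm _ ((l.au D hD).mem w hw)
      simp only [Equiv.Perm.mul_apply, Equiv.Perm.coe_inv, Equiv.symm_apply_apply, bar, fD, fE] at a b ⊢
      rw [a1, b1, a2, b2, a, b]
      ext
      · linear_combination (-n * w.c) * sq_one ε0
      · linear_combination (-s * w.c) * sq_one ε0
  obtain ⟨i, k, hw⟩ := word _ n s ε0 n0
  obtain ⟨y, hy⟩ : ∃ y, y = D ^ (i : ℕ) * ((α * D * α⁻¹) ^ (k : ℕ) * D ^ (2 * (i : ℕ))) := ⟨_, rfl⟩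
  have y3 : y ^ 3 = 1 := by
    rw [hy, ← inv_eq_of_mul_eq_one_right (show D ^ (i : ℕ) * D ^ (2 * (i : ℕ)) = 1 by
      rw [← pow_add, show (i : ℕ) + 2 * i = 3 * i by ring, pow_mul, D3, one_pow]), ← mul_assoc, conj_pow,
      ← pow_mul, mul_comm (k : ℕ), pow_mul, conj_pow, D3]
    simp
  have by' := (bD.pow l i).mul l ((bE.pow l k).mul l (bD.pow l (2 * i)))
  rw [← hy] at by'
  have b0 : Br YA X (y * D) fN := by
    have := by'.mul l bD
    exact ⟨this.mem, this.com, fun u hu => (this.act u hu).trans (hw _)⟩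
  obtain ⟨t, ht, e⟩ := k4 _ (b0.pow l 4).mem (fun u hu => (b0.pow l 4).cx l hx hu) fun u hu =>
    Prod.ext_iff.1 (((b0.pow l 4).act u hu).trans (show _ = bar u by simp [fN]))
  obtain ⟨j, hj⟩ := zp _ (b0.pow l 4).mem t ht e
  have o : (y * D) ^ 12 = 1 := by
    rw [show 12 = 4 * 3 from rfl, pow_mul, hj, ← pow_mul, mul_comm j, pow_mul, X3, one_pow]
  have b9 := b0.pow l 9
  refine ⟨_, b9.mem, fun u hu => b9.cx l hx hu, fun u hu => Prod.ext_iff.1 ((b9.act u hu).trans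
    (show _ = fN (bar u) by simp [fN])), fun u hu => ?_, fun u hu => ?_⟩
  · rw [← Equiv.Perm.mul_apply, ← pow_add, show 9 + 9 = 12 + 6 from rfl, pow_add, o, one_mul]
    exact inv_of l hx (b0.pow l 6) (fun p => by ext <;> simp [fN]) (by rw [← pow_add, o]) hu
  · have di : ∀ u ∈ sA, cj (xd 1)⁻¹ u = D⁻¹ u := fun u hu => by
      rw [eq_comm, Equiv.Perm.inv_eq_iff_eq, hd (cj _ u) (cjA _ hu)]; simp only [cj]; group
    have q : ∀ u ∈ sA, ((y * D) ^ 9) (cj (xd 1)⁻¹ u) = ((y * D) ^ 9 * D⁻¹) u := fun u hu => by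
      rw [di u hu]; rfl
    have mm := (l.au _ (mul_mem b9.mem (inv_mem hD))).mem
    rw [q u hu, q _ (mm u hu), q _ (mm _ (mm u hu)), ← Equiv.Perm.mul_apply, ← Equiv.Perm.mul_apply, ← pow_three',
      show (y * D) ^ 9 * D⁻¹ = ((y * D) ^ 4) ^ 2 * y by rw [← pow_mul, pow_succ _ 8]; group, hj,
      ((by'.com.pow_right j).pow_right 2).symm.mul_pow, y3, ← pow_mul, ← pow_mul, ← mul_assoc, mul_comm _ 3,
      pow_mul, X3]
    simp

end H15.C3
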