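import Cfsg.Agent.H48.DP3Kit

/-! DP3 tower (row S3275), slot C1: the critical pair in the case of two parabolics. -/

set_option autoImplicit false
set_option linter.unusedSectionVars false
set_option maxHeartbeats 400000

namespace H15.DP

open Subgroup Cfsg H98 H97 H48.DP
open scoped commutatorElement

universe u

variable {G : Type u} [Group G] [Finite G] {T P R L A W : Subgroup G} {x x' : G}

theorem rel_pow (h : IsPGroup 2 W) (A : Subgroup G) : ∃ k, A.relIndex W = 2 ^ k := by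
  have : Fact (Nat.Prime 2) := ⟨Nat.prime_two⟩
  obtain ⟨n, hn⟩ := IsPGroup.iff_card.1 h
  obtain ⟨k, -, e⟩ := (Nat.dvd_prime_pow Nat.prime_two).1 (hn ▸ relIndex_dvd_card A W)
  exact ⟨k, e⟩

theorem syl3 (lt : LT T P R L) (hx : x ∈ L) (o : orderOf x = 3) : IsSyl 3 (zpowers x) L := by
  have : Fact (Nat.Prime 2) := ⟨Nat.prime_two⟩
  have : Fact (Nat.Prime 3) := ⟨Nat.prime_three⟩
  have c : ∀ A : Subgroup G, A ≤ L → Nat.card A * A.relIndex L = Nat.card L := fun A h => by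
    rw [← Nat.card_congr (subgroupOfEquivOfLe h).toEquiv, relIndex, card_mul_index]
  refine isSyl_of_not_dvd_relIndex (zpowers_le.2 hx)
    (isPGroup_zpowers (k := 1) (by rw [pow_one, pow_three_of o])) fun d => ?_
  obtain ⟨n, hn⟩ := IsPGroup.iff_card.1 lt.h1.s3.two
  have e1 := c _ (zpowers_le.2 hx)
  rw [← c T lt.le, Nat.card_zpowers, o, hn, lt.idx] at e1
  have : 3 ∣ 2 ^ n * 7 := (show (zpowers x).relIndex L = 2 ^ n * 7 by omega) ▸ d
  rcases (Nat.prime_three.dvd_mul).1 this with q | q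
  · exact absurd (Nat.prime_three.dvd_of_dvd_pow q) (by decide)
  · exact absurd q (by decide)

theorem rel_three (lt : LT T P R L) (hW : L ≤ No W) (hx : x ∈ L) (o : orderOf x = 3) (hx' : x' ∈ L)
    (o' : orderOf x' = 3) : (C1 x).relIndex W ≤ (C1 x').relIndex W := by
  have : Fact (Nat.Prime 3) := ⟨Nat.prime_three⟩
  obtain ⟨l, hl, e⟩ := (syl3 lt hx' o').exists_cj_eq (syl3 lt hx o)
  rw [← relIndex_cj l (C1 x'), cj_eq_self (hW hl)]
  refine relIndex_le_of_le_left (fun w hw => ?_) (relIndex_ne_zero' _ _)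
  obtain ⟨k, hk⟩ := mem_cj.1 (e.ge (mem_zpowers x))
  have := ((show Commute x' _ from mem_C1.1 (mem_cj.1 hw)).zpow_left k).conj l
  simp only at hk
  rw [hk] at this
  simpa [mul_assoc, mem_C1] using this.eq

theorem jobC1 : JobC1.{u} := by
  intro off m9 G _ _ T P R L y a lt ch oy ny xP bot
  have : Fact (Nat.Prime 2) := ⟨Nat.prime_two⟩
  have ox : orderOf (y ^ 3 ^ (a + 1)) = 3 := by
    rw [orderOf_pow_of_dvd (by positivity) (oy ▸ pow_dvd_pow 3 (by omega)), oy, pow_succ 3 (a + 1),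
      Nat.mul_div_cancel_left _ (by positivity)]
  have yZ := normalizer_le_normalizer_oZ (p := 2) _ ny
  have m := m9 G (Zq P) y a (isPGroup_Zq P) oy yZ
  generalize y ^ 3 ^ (a + 1) = x at xP ox m ⊢
  have ZW := lt.h1.Zq_le ch
  have Z0 : Zq P ≠ ⊥ := oZ_ne_bot (isPGroup_pCoreOf P) fun e => lt.h1.not_le (e.le.trans bot_le)
  have nc : L ⊓ Ce (Zq L) = O2 L := lt.nc_or.resolve_right fun c => Z0 (bot _ (isPGroup_Zq P)
    ((c.trans (centralizer_anti ZW)).trans (centralizer_le_normalizer _)) yZ)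
  obtain ⟨g, -, nle, le1, le2⟩ := crit L (zpowers y) (fun g => cj g (Zq L) ≤ O2 L) (fun g => cj g (Zq L) ≤ O2 P)
    (by rw [cj_one]; exact (Zq_le L).trans lt.h1.le)
    (fun g p s hs => by
      rw [← cj_cj]
      exact hs.elim (fun c => (cj_le_of_le p (self_le_normalizer_pCoreOf L c)).trans lt.h1.le)
        fun c => cj_le_of_le (p.trans lt.h1.le) (zpowers_le.2 ny c))
    (by
      by_contra! c
      have n := le_normalizer_ncl (L ⊔ zpowers y) (Zq L)
      exact Z0 (eq_bot_iff.2 (ZW.trans ((le_ncl _ _).trans (bot _ ((isPGroup_pCoreOf L).to_le (ncl_le_iff.2 c))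
        (le_sup_left.trans n) (n (mem_sup_right (mem_zpowers y)))).le))))
  have i4 : (Zq P).relIndex (Zq L) ≤ 4 := (off G T P R R L L g lt.h1 lt.h1 le1 nle le2).elim id id
  have xL := lt.h1.leL xP
  have xc : x ∈ Ce (Zq P) := by
    obtain ⟨y', hy', oy'⟩ := lt.h2.s3.exists_three
    obtain ⟨x', h1, h2, o'⟩ := lt.h2.s3.three_mem_sup lt.h1.s3.o2_le lt.not_le hy' (lt.h2.s3.not_mem oy')
    have l : Zq P ⊓ cj y' (Zq P) ≤ C1 x' := fun w hw => mem_C1.2 (mem_C1.1 ((sup_le
      (fun q hq => mem_C1.2 (oZ_le_centralizer _ hw.1 q hq).symm) fun q hq => mem_C1.2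
        (((cj_mono y' (oZ_le_centralizer _)).trans (cj_centralizer _ _).le) hw.2 q hq).symm : _ ≤ C1 w) h1)).symm
    have e1 : (C1 x').relIndex (Zq L) ≤ 16 := by
      refine (relIndex_le_of_le_left l (relIndex_ne_zero' _ _)).trans (relIndex_inf_le.trans ?_)
      nth_rewrite 2 [← cj_eq_self (le_No_Zq L (lt.h2.leL hy'))]
      rw [relIndex_cj]
      exact Nat.mul_le_mul i4 i4
    have e2 := (relIndex_le_of_le_right ZW (relIndex_ne_zero' _ _)).trans
      ((rel_three lt (le_No_Zq L) xL ox (lt.h2.leL h2) o').trans e1)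
    obtain ⟨k, hk⟩ := rel_pow (isPGroup_Zq P) (C1 x)
    rw [hk] at m e2
    have : k ≤ 4 := (Nat.pow_le_pow_iff_right (a := 2) (by decide)).1 e2
    have : k = 0 := by interval_cases k <;> simp at m ⊢
    exact fun w hw => (mem_C1.1 (relIndex_eq_one.1 (by rw [hk, this, pow_zero]) hw)).symm
  have nx : x ∉ Ce (Zq L) := fun c => not_mem_of_three (isPGroup_pCoreOf L) ox (nc.le ⟨xL, c⟩)
  have xW := le_No_Zq L xL
  have xZ := le_No_Zq P xP
  have two : ∀ Y : Subgroup G, Y ≤ Zq L → x ∈ No Y → (Zq P).relIndex Y ≤ 2 → ¬ Y.relIndex (Zq L) ≤ 2 :=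
    fun Y h1 h2 h3 h4 => nx (cent_of_chain ((isPGroup_Zq L).to_le h1) ox (mem_stab_of_idx h4 xW h2).2
      (cent_of_chain (isPGroup_Zq P) ox (mem_stab_of_idx h3 h2 xZ).2 xc))
  have i4 : (Zq P).relIndex (Zq L) = 4 := by
    obtain ⟨k, hk⟩ := rel_pow (isPGroup_Zq L) (Zq P)
    have := mt (two _ le_rfl xW) (not_not.2 (by simp))
    rw [hk] at i4 this ⊢
    have : k ≤ 2 := (Nat.pow_le_pow_iff_right (a := 2) (by decide)).1 i4
    interval_cases k <;> simp at *
  have irr : ∀ Y : Subgroup G, Zq P ≤ Y → Y ≤ Zq L → x ∈ No Y → ¬ Zq L ≤ Y → Y ≤ Zq P := fun Y h0 h1 h2 h3 => by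
    have e := relIndex_mul_relIndex _ _ _ h0 h1
    have e1 := mt relIndex_eq_one.1 h3
    have e2 := two Y h1 h2
    rw [i4] at e
    refine relIndex_eq_one.1 ?_
    have := Nat.le_of_dvd (by decide) (Dvd.intro _ e)
    have := relIndex_ne_zero' (Zq P) Y
    generalize (Zq P).relIndex Y = i at *
    interval_cases i <;> omega
  have QW : O2 P ≤ No (Zq L) := ((pCoreOf_le P).trans lt.h1.leL).trans (le_No_Zq L)
  have comZ : ⁅Zq L, O2 P⁆ ≤ Zq P := le_sup_right.trans (irr (Zq P ⊔ ⁅Zq L, O2 P⁆) le_sup_left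
    (sup_le ZW (commutator_le_left' QW))
    (le_normalizer_sup (le_No_Zq P) (le_normalizer_commutator (lt.h1.leL.trans (le_No_Zq L))
      (self_le_normalizer_pCoreOf P)) xP) fun c => by
    have := le_of_le_sup_commutator (isPGroup_pCoreOf P) ((Zq_le L).trans lt.h1.le) (Zq_le P)
      ((pCoreOf_le P).trans (le_No_Zq P)) c
    rw [relIndex_eq_one.2 this] at i4
    omega)
  refine ⟨g, nc, le1, nle, le2, i4, xc, irr _ (le_inf ZW fun w hw => mem_C1.2 (xc w hw).symm) inf_le_left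
    (le_normalizer_inf (zpowers_le.2 xW) (zpowers_le.2 (le_normalizer (mem_C1.2 rfl))) (mem_zpowers x))
    fun c => nx fun w hw => (mem_C1.1 (c hw).2).symm, fun b hb nb => ?_, comZ⟩
  have l := commutator_mono (le_refl (Zq L)) (zpowers_le.2 hb)
  have n : O2 P ≤ No ⁅Zq L, zpowers b⁆ :=
    ((le_centralizer_oZ _).trans (centralizer_anti (l.trans comZ))).trans (centralizer_le_normalizer _)
  refine le_antisymm l (commutator_le.2 fun w hw q hq => (lt.h1.le_of (K := stab (Zq L) ⁅Zq L, zpowers b⁆)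
    (fun q hq => ⟨n (lt.h1.le hq), fun w hw => ?_⟩) xP ox hb nb
    ⟨n hb, fun w hw => commutator_mem_commutator hw (mem_zpowers b)⟩
    ⟨n (conj_mem_of_mem_normalizer (self_le_normalizer_pCoreOf P xP) hb), fun w hw => ?_⟩ hq).2 w hw)
  · rw [commutatorElement_eq_one_iff_mul_comm.2 (le_centralizer_oZ _ hq w hw)]; exact one_mem _
  · have := commutator_mem_commutator (conj_mem_of_mem_normalizer' xW hw) (mem_zpowers b)
    rw [show ⁅w, x * b * x⁻¹⁆ = x * ⁅x⁻¹ * w * x, b⁆ * x⁻¹ by group, ← xc _ (comZ (l this)), mul_inv_cancel_right]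
    exact this

end H15.DP
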