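import Cfsg.Agent.H48.DP3Spec

/-! DP3 tower (row S3275), slot Free: a free `F₂[T / O₂(L)]`-submodule. -/

set_option autoImplicit false
set_option linter.unusedSectionVars false
set_option maxHeartbeats 400000

namespace H15.DP

open Subgroup Cfsg H98 H97 H48.DP
open scoped commutatorElement

universe u

section Module

variable {A V : Type*} [Group A] [Fintype A] [CommGroup V] [Finite V]

/-- the vectors fixed by `B` -/
def fx (ρ : A →* MulAut V) (B : Subgroup A) : Subgroup V where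
  carrier := {w | ∀ b ∈ B, ρ b w = w}
  one_mem' := fun _ _ => map_one _
  mul_mem' := fun ha hb b h => by rw [map_mul, ha b h, hb b h]
  inv_mem' := fun ha b h => by rw [map_inv, ha b h]

theorem z2 : ∀ a : ZMod 2, a = 0 ∨ a = 1 := by decide

theorem pow_val {w : V} (h : w * w = 1) (a b : ZMod 2) : w ^ (a + b).val = w ^ a.val * w ^ b.val := by
  rcases z2 a with rfl | rfl <;> rcases z2 b with rfl | rfl <;>
    simp [h, ZMod.val_one, CharTwo.add_self_eq_zero]

/-- a vector with non-trivial norm generates a free module -/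
theorem core (ρ : A →* MulAut V) (sq : ∀ w : V, w * w = 1) (hA : IsPGroup 2 A) (g : V)
    (hg : ∏ i : A, ρ i g ≠ 1) (B : Subgroup A) : 2 ^ Nat.card A ≤ 2 ^ B.index * (fx ρ B).index := by
  classical
  have : Fact (Nat.Prime 2) := ⟨Nat.prime_two⟩
  let Φ : Multiplicative (A → ZMod 2) →* V := MonoidHom.mk' (fun c => ∏ i, ρ i⁻¹ g ^ (c.toAdd i).val)
    fun c c' => by rw [← Finset.prod_mul_distrib]; exact Finset.prod_congr rfl fun i _ => pow_val (sq _) _ _
  let sh : A → Multiplicative (A → ZMod 2) → Multiplicative (A → ZMod 2) :=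
    fun j c => Multiplicative.ofAdd fun i => c.toAdd (i * j)
  have eqv : ∀ j c, Φ (sh j c) = ρ j (Φ c) := fun j c => by
    change ∏ i, ρ i⁻¹ g ^ (c.toAdd (i * j)).val = ρ j (∏ i, ρ i⁻¹ g ^ (c.toAdd i).val)
    rw [map_prod]
    exact Fintype.prod_equiv (Equiv.mulRight j) _ _ fun i => by simp [← MulAut.mul_apply, ← map_mul]
  have inj : Function.Injective Φ := (MonoidHom.ker_eq_bot_iff Φ).1 (by
    by_contra n
    letI : MulAction A Φ.ker :=
      { smul := fun j c => ⟨sh j c, by rw [MonoidHom.mem_ker, eqv, MonoidHom.mem_ker.1 c.2, map_one]⟩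
        one_smul := fun c => Subtype.ext (by change sh 1 c = c; simp [sh])
        mul_smul := fun a b c => Subtype.ext (by change sh (a * b) c = sh a (sh b c); simp [sh, mul_assoc]) }
    have p : IsPGroup 2 Φ.ker := fun c => ⟨1, Subtype.ext (by
      change Multiplicative.ofAdd ((2 ^ 1 : ℕ) • c.1.toAdd) = 1
      rw [pow_one, two_nsmul]
      exact congrArg Multiplicative.ofAdd (funext fun i => CharTwo.add_self_eq_zero _))⟩
    obtain ⟨b, hb, ne⟩ := hA.exists_fixed_point_of_prime_dvd_card_of_fixed_point Φ.ker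
      (p.card_eq_or_dvd.resolve_left fun e => n (card_eq_one.1 e)) (a := 1) fun _ => rfl
    have cst : ∀ i, b.1.toAdd i = b.1.toAdd 1 := fun i => by
      simpa [sh] using congrFun (congrArg Multiplicative.toAdd
        (show sh i b = b from congrArg Subtype.val (hb i))) 1
    have e : b.1.toAdd 1 = 1 := (z2 _).resolve_left fun e =>
      ne (Subtype.ext (funext fun i => ((cst i).trans e).symm))
    have := MonoidHom.mem_ker.1 b.2
    change ∏ i, ρ i⁻¹ g ^ (b.1.toAdd i).val = 1 at this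
    simp only [cst, e, ZMod.val_one, pow_one] at this
    exact hg ((Fintype.prod_equiv (Equiv.inv A) _ _ fun _ => by simp).trans this))
  have c1 : Nat.card ((fx ρ B).comap Φ) ≤ 2 ^ B.index := by
    have := Nat.card_le_card_of_injective (fun (c : (fx ρ B).comap Φ) (q : A ⧸ B) => c.1.toAdd q.out)
      fun c c' e => by
        have k : ∀ c : (fx ρ B).comap Φ, ∀ i : A, c.1.toAdd i = c.1.toAdd (i : A ⧸ B).out := fun c i => by
          obtain ⟨b, hb⟩ := QuotientGroup.mk_out_eq_mul B i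
          rw [hb]
          exact (congrFun (congrArg Multiplicative.toAdd (inj ((eqv b c).trans (c.2 b b.2)))) i).symm
        exact Subtype.ext (funext fun i => (k c i).trans ((congrFun e _).trans (k c' i).symm))
    rwa [Nat.card_fun, Nat.card_zmod] at this
  have c2 : ((fx ρ B).comap Φ).index ≤ (fx ρ B).index := by
    rw [index_comap, ← relIndex_top_right]
    exact relIndex_le_of_le_right le_top (by rw [relIndex_top_right]; exact index_ne_zero_of_finite)
  calc _ = Nat.card (Multiplicative (A → ZMod 2)) := by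
        rw [Nat.card_congr Multiplicative.toAdd, Nat.card_fun, Nat.card_zmod]
    _ = _ := (card_mul_index _).symm
    _ ≤ _ := Nat.mul_le_mul c1 c2

end Module

variable {G : Type u} [Group G] [Finite G] {T P R L X Z : Subgroup G} {a b p r s v : G}

theorem cover3 (h : S3 T P) (ha : a ∈ P) (hb : b ∈ P) (na : a ∉ T) (nb : b ∉ T) (ab : a⁻¹ * b ∉ T)
    (hp : p ∈ P) : p ∈ T ∨ a⁻¹ * p ∈ T ∨ b⁻¹ * p ∈ T := by
  classical
  have := Fintype.ofFinite (P ⧸ T.subgroupOf P)
  have e : ∀ x y : P, (x : P ⧸ T.subgroupOf P) = y ↔ (x : G)⁻¹ * y ∈ T := fun x y => QuotientGroup.eq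
  have u : ({((1 : P) : P ⧸ T.subgroupOf P), ((⟨a, ha⟩ : P) : P ⧸ T.subgroupOf P),
      ((⟨b, hb⟩ : P) : P ⧸ T.subgroupOf P)} : Finset _) = Finset.univ := Finset.eq_univ_of_card _ (by
    rw [← Nat.card_eq_fintype_card, show Nat.card (P ⧸ T.subgroupOf P) = 3 from h.idx]
    exact Finset.card_eq_three.2 ⟨_, _, _, by simpa [e] using na, by simpa [e] using nb, by simpa [e] using ab, rfl⟩)
  have := u.ge (Finset.mem_univ ((⟨p, hp⟩ : P) : P ⧸ T.subgroupOf P))
  simpa only [Finset.mem_insert, Finset.mem_singleton, eq_comm (a := ((⟨p, hp⟩ : P) : P ⧸ T.subgroupOf P)), e,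
    OneMemClass.coe_one, inv_one, one_mul] using this

theorem mem_o2 (h : S3 T P) (hr : r ∈ P) (nr : r ∉ T) (hs : s ∈ T) (c : r⁻¹ * s * r ∈ T) : s ∈ O2 P := by
  have l : T ⊓ ⨅ p : P, cj p T ≤ O2 P := le_pCoreOf (h.two.to_le inf_le_left) (inf_le_left.trans h.le)
    fun g hg => mem_normalizer_fintype fun x hx => by
      have k : ∀ p ∈ P, p⁻¹ * (g * x * g⁻¹) * p ∈ T := fun p hp => by
        have := mem_cj.1 (mem_iInf.1 hx.2 ⟨g⁻¹ * p, mul_mem (inv_mem hg) hp⟩)
        convert this using 1; simp [mul_assoc]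
      exact ⟨by simpa using k 1 (one_mem _), mem_iInf.2 fun p => mem_cj.2 (k p p.2)⟩
  refine l ⟨hs, mem_iInf.2 fun ⟨p, hp⟩ => mem_cj.2 ?_⟩
  by_cases c1 : p ∈ T
  · exact mul_mem (mul_mem (inv_mem c1) hs) c1
  by_cases c2 : r⁻¹ * p ∈ T
  · convert mul_mem (mul_mem (inv_mem c2) c) c2 using 1; simp [mul_assoc]
  rcases cover3 h hr hp nr c1 c2 (mul_mem (h.le hs) hp) with q | q | q
  · exact absurd ((mul_mem_cancel_left hs).1 q) c1
  · exact absurd (by convert mul_mem (inv_mem c) q using 1; group) c2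
  · rwa [mul_assoc]

theorem exists_sec (hX : L ≤ No X) (hZ : L ≤ No Z) (cm : ∀ a ∈ X, ∀ b ∈ X, ⁅a, b⁆ ∈ Z) (sq : ∀ a ∈ X, a * a ∈ Z) :
    ∃ (V : Type u) (_ : CommGroup V) (_ : Finite V) (π : X →* V) (ρ : L →* MulAut V), Function.Surjective π ∧
      (∀ x : X, π x = 1 ↔ (x : G) ∈ Z) ∧ (∀ w : V, w * w = 1) ∧
      ∀ (l : L) (x y : X), (y : G) = l * x * (l : G)⁻¹ → ρ l (π x) = π y := by
  haveI : (Z.subgroupOf X).Normal := ⟨fun n hn g => by
    have := mul_mem (cm g g.2 n n.2) hn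
    rw [mem_subgroupOf]
    convert this using 1; simp [commutatorElement_def]⟩
  let ρ := X.normalizerMonoidHom.comp (inclusion hX)
  let r : L → X ⧸ Z.subgroupOf X →* X ⧸ Z.subgroupOf X := fun g =>
    QuotientGroup.map _ _ (ρ g).toMonoidHom fun u hu => (mem_normalizer_iff.1 (hZ g.2) u).1 hu
  have hr : ∀ (g : L) (w : X), r g w = (ρ g w : X) := fun _ _ => rfl
  have k : ∀ (g g' : L) w, r g (r g' w) = r (g * g') w := fun g g' w => by
    induction w using QuotientGroup.induction_on with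
    | H w => rw [hr, hr, hr, map_mul, MulAut.mul_apply]
  have o : ∀ w, r 1 w = w := fun w => by
    induction w using QuotientGroup.induction_on with
    | H w => rw [hr, map_one, MulAut.one_apply]
  refine ⟨X ⧸ Z.subgroupOf X, { QuotientGroup.Quotient.group _ with mul_comm := fun a b => ?_ }, inferInstance,
    QuotientGroup.mk' _, MonoidHom.mk' (fun g => ⟨⟨r g, r g⁻¹, fun w => by rw [k, inv_mul_cancel, o],
      fun w => by rw [k, mul_inv_cancel, o]⟩, map_mul (r g)⟩) fun g g' => MulEquiv.ext fun w => (k g g' w).symm,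
    QuotientGroup.mk'_surjective _, fun x => QuotientGroup.eq_one_iff x, fun w => ?_, fun l x y e =>
      (hr l x).trans (congrArg _ (Subtype.ext e.symm))⟩
  · obtain ⟨a, rfl⟩ := QuotientGroup.mk_surjective a
    obtain ⟨b, rfl⟩ := QuotientGroup.mk_surjective b
    refine QuotientGroup.eq.2 (mem_subgroupOf.2 ?_)
    convert cm _ (inv_mem b.2) _ (inv_mem a.2) using 1; simp [commutatorElement_def, mul_assoc]
  · obtain ⟨a, rfl⟩ := QuotientGroup.mk_surjective w
    exact (QuotientGroup.eq_one_iff (a * a)).2 (sq a a.2)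

theorem line {V : Type*} [CommGroup V] (ρ : L →* MulAut V) (sq : ∀ w : V, w * w = 1) {f : V} (h : S3 T P)
    (fT : ∀ t : L, (t : G) ∈ T → ρ t f = f) {x : L} (hx : (x : G) ∈ P) (o : orderOf (x : G) = 3)
    (ln : f * ρ x f * ρ (x ^ 2) f = 1) {r s : L} (hr : (r : G) ∈ P) (nr : (r : G) ∉ T) (hs : (s : G) ∈ T)
    (ns : (s : G) ∉ O2 P) : ρ r f * ρ s (ρ r f) = f := by
  have n2 : (x : G) ^ 2 ∉ T := fun c => by
    obtain ⟨k, hk⟩ := h.two ⟨_, c⟩
    have : (x : G) ^ (2 * 2 ^ k) = 1 := by rw [pow_mul]; exact congrArg Subtype.val hk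
    have := orderOf_dvd_of_pow_eq_one this
    rw [o, ← pow_succ'] at this
    exact absurd (Nat.prime_three.dvd_of_dvd_pow this) (by decide)
  have n1 : (x : G) ∉ T := fun c => n2 (pow_mem c 2)
  have mv : ∀ a b : L, (a : G)⁻¹ * b ∈ T → ρ b f = ρ a f := fun a b c => by
    rw [← mul_inv_cancel_left a b, map_mul, MulAut.mul_apply, fT _ c]
  have cv := fun p => cover3 (p := p) h hx (pow_mem hx 2) n1 n2 (by rwa [pow_two, inv_mul_cancel_left])
  have key : ∀ a : G, a⁻¹ * r ∈ T → a⁻¹ * (s * r) ∉ T := fun a c d => ns (mem_o2 h hr nr hs (by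
    convert mul_mem (inv_mem c) d using 1; group))
  have e : ρ x f * ρ (x ^ 2) f = f := by
    rw [mul_assoc] at ln
    rw [eq_inv_of_mul_eq_one_right ln, inv_eq_of_mul_eq_one_right (sq f)]
  rw [← MulAut.mul_apply, ← map_mul]
  rcases (cv _ hr).resolve_left nr with c | c <;>
    rcases (cv _ (mul_mem (h.le hs) hr)).resolve_left (mt (mul_mem_cancel_left hs).1 nr) with d | d
  · exact absurd d (key _ c)
  · rw [mv x r c, mv (x ^ 2) (s * r) d, e]
  · rw [mv (x ^ 2) r c, mv x (s * r) d, mul_comm, e]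
  · exact absurd d (key _ c)

theorem jobFree : JobFree.{u} := by
  intro G _ _ T P R L X Z v lt ZX hX hZ cm sq hQ hv nv vT lP lR B hB
  classical
  have : Fact (Nat.Prime 2) := ⟨Nat.prime_two⟩
  obtain ⟨V, _, _, π, ρ, sur, ker, sqV, act⟩ := exists_sec hX hZ cm sq
  have TL : T ≤ L := lt.h1.s3.le.trans lt.h1.leL
  have m : ∀ (l : L) (x : X), (l : G) * x * (l : G)⁻¹ ∈ X := fun l x => (mem_normalizer_iff.1 (hX l.2) x).1 x.2
  have fixi : ∀ (l : L) (x : X), ρ l (π x) = π x ↔ ⁅(l : G), (x : G)⁆ ∈ Z := fun l x => by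
    rw [act l x ⟨_, m l x⟩ rfl, ← mul_inv_eq_one, ← map_inv, ← map_mul, ker]; rfl
  obtain ⟨f, hf⟩ : ∃ f, f = π ⟨v, hv⟩ := ⟨_, rfl⟩
  have fT : ∀ t : L, (t : G) ∈ T → ρ t f = f := fun t ht => by
    rw [hf, fixi, ← commutatorElement_inv]; exact inv_mem (vT t ht)
  have ln : ∀ P : Subgroup G, S3 T P → P ≤ L → Ln P Z v → ∀ r s : L, (r : G) ∈ P → (r : G) ∉ T → (s : G) ∈ T →
      (s : G) ∉ O2 P → ρ r f * ρ s (ρ r f) = f := fun P h l ⟨x, hx, o, e⟩ r s a b c d =>
    line ρ sqV h fT (x := ⟨x, l hx⟩) hx o (by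
      rw [hf, act _ _ ⟨_, m _ _⟩ rfl, act _ _ ⟨_, m _ _⟩ rfl, ← map_mul, ← map_mul, ker]; exact e) a b c d
  haveI : ((O2 L).subgroupOf T).Normal := normal_subgroupOf_of_le_normalizer (le_normalizer_pCoreOf_of_le TL)
  have := Fintype.ofFinite (T ⧸ (O2 L).subgroupOf T)
  let ρ' : T ⧸ (O2 L).subgroupOf T →* MulAut V := QuotientGroup.lift _ (ρ.comp (inclusion TL)) fun q hq =>
    MulEquiv.ext fun w => by
      obtain ⟨x, rfl⟩ := sur w
      exact (fixi _ x).2 (hQ q hq x x.2)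
  obtain ⟨r₁, a1, r₂, a2, s₁, b1, s₂, b2, n1, n2, m1, m2, c1, c2, all⟩ := lt.h1.nrm
  let φ : Fin 2 × Fin 2 × Fin 2 → T ⧸ (O2 L).subgroupOf T := fun i =>
    ((⟨s₁, b1⟩ ^ i.1.val * ⟨_, c1⟩ ^ i.2.1.val * ⟨_, c2⟩ ^ i.2.2.val : T) : T ⧸ (O2 L).subgroupOf T)
  have φs : Function.Surjective φ := fun q => by
    obtain ⟨u, rfl⟩ := QuotientGroup.mk_surjective q
    obtain ⟨a, b, c, e⟩ := all u u.2
    exact ⟨(a, b, c), QuotientGroup.eq.2 e⟩
  have c8 : Nat.card (T ⧸ (O2 L).subgroupOf T) = 8 := by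
    have e1 := Nat.card_le_card_of_surjective φ φs
    have e2 := relIndex_mul_relIndex _ _ _ lt.h1.le (isSyl_of_not_dvd_relIndex lt.h1.s3.le lt.h1.s3.two
      (by rw [lt.h1.s3.idx]; decide)).pCoreOf_le
    have e3 : (O2 P).relIndex T ≠ 1 := fun c => m1 (relIndex_eq_one.1 c b1)
    have e4 : (O2 P).relIndex T ≠ 0 := index_ne_zero_of_finite
    rw [lt.h1.idx] at e2
    simp only [Nat.card_prod, Nat.card_fin] at e1
    change (O2 L).relIndex T ≤ _ at e1
    change (O2 L).relIndex T = _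
    change _ * (O2 P).relIndex T = _ at e2
    omega
  have φb : Function.Bijective φ := (Fintype.bijective_iff_surjective_and_card φ).2
    ⟨φs, by rw [← Nat.card_eq_fintype_card (α := _ ⧸ _), c8]; rfl⟩
  let R₁ : L := ⟨r₁, lt.h1.leL a1⟩
  let R₂ : L := ⟨r₂, lt.h2.leL a2⟩
  let S₁ : L := ⟨s₁, TL b1⟩
  let S₂ : L := ⟨s₂, TL b2⟩
  have k1 := ln P lt.h1.s3 lt.h1.leL lP R₁ S₁ a1 n1 b1 m1
  have k2 := ln R lt.h2.s3 lt.h2.leL lR R₂ S₂ a2 n2 b2 m2
  have N : ∏ i, ρ' i (ρ R₁ (ρ R₂ (ρ R₁ f))) = f := by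
    rw [← φb.prod_comp]
    have e : ∀ i w, ρ' (φ i) w = ρ (S₁ ^ i.1.val) (ρ ((R₁ * S₂ * R₁⁻¹) ^ i.2.1.val)
        (ρ ((R₁ * R₂ * S₁ * (R₁ * R₂)⁻¹) ^ i.2.2.val) w)) := fun i w => by
      rw [← MulAut.mul_apply, ← MulAut.mul_apply, ← map_mul, ← map_mul]; rfl
    have iv : ∀ (l : L) w, ρ l⁻¹ (ρ l w) = w := fun l w => by
      rw [← MulAut.mul_apply, ← map_mul, inv_mul_cancel, map_one, MulAut.one_apply]
    simp only [e, Fintype.prod_prod_type, ← map_prod]
    simp only [Fin.prod_univ_two, Fin.val_zero, Fin.val_one, pow_zero, pow_one, map_one, MulAut.one_apply,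
      mul_inv_rev, map_mul ρ, MulAut.mul_apply, iv]
    simp only [← map_mul (ρ R₁), ← map_mul (ρ R₂), k1, k2, iv]
  have := core ρ' sqV (lt.h1.s3.two.to_quotient _) _ (by rw [N, hf]; exact mt (ker _).1 nv)
    ((B.subgroupOf T).map (QuotientGroup.mk' _))
  rw [c8, ← index_comap_of_surjective _ sur, show (fx ρ' _).comap π = (stab B Z).subgroupOf X from
    Subgroup.ext fun x => ⟨fun h => ⟨mem_normalizer_fintype fun z hz => by
        convert mul_mem (cm x x.2 z (ZX hz)) hz using 1; simp [commutatorElement_def],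
      fun b hb => (fixi ⟨b, TL (hB hb)⟩ x).1 (h _ (mem_map_of_mem _ (show (⟨b, hB hb⟩ : T) ∈ B.subgroupOf T from hb)))⟩, fun h => by
      rintro _ ⟨b, hb, rfl⟩
      exact (fixi ⟨b, TL b.2⟩ x).2 (h.2 b hb)⟩] at this
  have e := card_mul_index ((B.subgroupOf T).map (QuotientGroup.mk' ((O2 L).subgroupOf T)))
  rw [c8, ← relIndex_ker, QuotientGroup.ker_mk', relIndex_subgroupOf hB] at e
  change _ ≤ _ * (stab B Z).relIndex X at this
  generalize ((B.subgroupOf T).map (QuotientGroup.mk' ((O2 L).subgroupOf T))).index = j at this e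
  refine ⟨fun c => ?_, fun c => ?_⟩
  · have e3 : (O2 L).relIndex B ≠ 1 := fun d => c (relIndex_eq_one.1 d)
    have e4 : (O2 L).relIndex B ≠ 0 := index_ne_zero_of_finite
    have : j ≤ 4 := by
      have : 2 ≤ (O2 L).relIndex B := by omega
      nlinarith
    have : 2 ^ j ≤ 2 ^ 4 := Nat.pow_le_pow_right two_pos this
    nlinarith
  · rw [c] at e
    obtain rfl : j = 2 := by omega
    omega

end H15.DP
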