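/- E7MAX (S5934), job FORM. -/
import Cfsg.Agent.H36.E7MSpec

set_option autoImplicit false
set_option maxHeartbeats 400000

namespace H15.E7M
open H36.E7M
open scoped commutatorElement

theorem sm_top : ∀ i < 32, ∀ j < 32, (Sm (93 + i) (93 + j) 125 ↔ i + j = 31) := by
  decide +kernel

/-- `z ^ t` -/
noncomputable def ez (t : F) : G := if t = 0 then 1 else z

theorem ez_add (hz : z * z = 1) (s t : F) : ez (s + t) = ez s * ez t := by
  have h : ∀ u : F, u = 0 ∨ u = 1 := by decide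
  have h2 : (1 + 1 : F) = 0 := by decide
  rcases h s with rfl | rfl <;> rcases h t with rfl | rfl <;> simp [ez, h2, hz]

theorem ez_zero : ez 0 = 1 := if_pos rfl
theorem ez_one : ez 1 = z := if_neg (by decide)

theorem bf_add_left (u u' v : V) : Bf (u + u') v = Bf u v + Bf u' v := by
  simp [Bf, add_mul, Finset.sum_add_distrib]
theorem bf_add_right (u v v' : V) : Bf u (v + v') = Bf u v + Bf u v' := by
  simp [Bf, mul_add, Finset.sum_add_distrib]
theorem bf_zero_left (v : V) : Bf 0 v = 0 := by simp [Bf]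
theorem bf_zero_right (v : V) : Bf v 0 = 0 := by simp [Bf]
theorem bf_single (i j : Fin 32) :
    Bf (Pi.single i 1) (Pi.single j 1) = if (i : ℕ) + j = 31 then 1 else 0 := by
  rw [Bf, Finset.sum_eq_single i (fun k _ hk => by simp [hk]) (by simp), Pi.single_eq_same, one_mul,
    Pi.single_apply]
  refine if_congr ?_ rfl rfl
  rw [Fin.ext_iff, Fin.val_rev]
  omega

theorem cm_mul_left {H : Type*} [Group H] {a b c : H} (h : Commute a ⁅b, c⁆) :
    ⁅a * b, c⁆ = ⁅b, c⁆ * ⁅a, c⁆ := by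
  have : ⁅a * b, c⁆ = a * ⁅b, c⁆ * a⁻¹ * ⁅a, c⁆ := by
    simp only [commutatorElement_def]; group
  rw [this, h.eq, mul_inv_cancel_right]

theorem cm_mul_right {H : Type*} [Group H] {a b c : H} (h : Commute b ⁅a, c⁆) :
    ⁅a, b * c⁆ = ⁅a, b⁆ * ⁅a, c⁆ := by
  have : ⁅a, b * c⁆ = ⁅a, b⁆ * (b * ⁅a, c⁆ * b⁻¹) := by
    simp only [commutatorElement_def]; group
  rw [this, h.eq, mul_inv_cancel_right]

theorem abs_form {H : Type*} [Group H] (S : Set H) (f : H → V) (e : F → H)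
    (he : ∀ s t, e (s + t) = e s * e t)
    (hc : ∀ a ∈ Subgroup.closure S, ∀ b ∈ Subgroup.closure S, ∀ c ∈ Subgroup.closure S,
      Commute a ⁅b, c⁆)
    (p1 : ∀ a ∈ Subgroup.closure S, ∀ b ∈ Subgroup.closure S, f (a * b) = f a + f b)
    (base : ∀ a ∈ S, ∀ b ∈ S, ⁅a, b⁆ = e (Bf (f a) (f b))) :
    ∀ a ∈ Subgroup.closure S, ∀ b ∈ Subgroup.closure S, ⁅a, b⁆ = e (Bf (f a) (f b)) := by
  have e0 : e 0 = 1 := by simpa using he 0 0
  have f1 : f 1 = 0 := by simpa using p1 1 (one_mem _) 1 (one_mem _)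
  have mr : ∀ a ∈ Subgroup.closure S, ∀ b ∈ Subgroup.closure S, ∀ c ∈ Subgroup.closure S,
      ⁅a, b * c⁆ = ⁅a, b⁆ * ⁅a, c⁆ ∧
      e (Bf (f a) (f (b * c))) = e (Bf (f a) (f b)) * e (Bf (f a) (f c)) :=
    fun a ha b hb c hc' => ⟨cm_mul_right (hc b hb a ha c hc'), by
      rw [p1 b hb c hc', bf_add_right, he]⟩
  have ml : ∀ a ∈ Subgroup.closure S, ∀ b ∈ Subgroup.closure S, ∀ c ∈ Subgroup.closure S,
      ⁅a * b, c⁆ = ⁅b, c⁆ * ⁅a, c⁆ ∧
      e (Bf (f (a * b)) (f c)) = e (Bf (f b) (f c)) * e (Bf (f a) (f c)) :=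
    fun a ha b hb c hc' => ⟨cm_mul_left (hc a ha b hb c hc'), by
      rw [p1 a ha b hb, add_comm, bf_add_left, he]⟩
  have step : ∀ a ∈ S, ∀ q' ∈ Subgroup.closure S, ⁅a, q'⁆ = e (Bf (f a) (f q')) := by
    intro a ha' q' hq'
    have ha := Subgroup.subset_closure ha'
    induction hq' using Subgroup.closure_induction with
    | mem w hw => exact base a ha' w hw
    | one => rw [f1, bf_zero_right, e0, commutatorElement_one_right]
    | mul b c hb hc' e1 e2 =>
      obtain ⟨m1, m2⟩ := mr _ ha b hb c hc'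
      rw [m1, m2, e1, e2]
    | inv b hb e1 =>
      obtain ⟨m1, m2⟩ := mr _ ha b hb b⁻¹ (inv_mem hb)
      rw [mul_inv_cancel] at m1 m2
      rw [commutatorElement_one_right, e1] at m1
      rw [f1, bf_zero_right, e0] at m2
      exact mul_left_cancel (m1.symm.trans m2)
  intro q hq q' hq'
  induction hq using Subgroup.closure_induction with
  | mem w hw => exact step w hw q' hq'
  | one => rw [f1, bf_zero_left, e0, commutatorElement_one_left]
  | mul a b ha hb e1 e2 =>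
    obtain ⟨m1, m2⟩ := ml a ha b hb q' hq'
    rw [m1, m2, e1, e2]
  | inv b hb e1 =>
    obtain ⟨m1, m2⟩ := ml b⁻¹ (inv_mem hb) b hb q' hq'
    rw [inv_mul_cancel] at m1 m2
    rw [commutatorElement_one_left, e1] at m1
    rw [f1, bf_zero_left, e0] at m2
    exact mul_left_cancel (m1.symm.trans m2)

theorem form_eq (phi : JobPHI) (lq : JobLQ) (cm : JobCM) (sq : JobSQ) :
    ∀ q ∈ Q, ∀ q' ∈ Q, ⁅q, q'⁆ = ez (Bf (φ q) (φ q')) := by
  obtain ⟨p1, p2, -, p4, -⟩ := phi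
  obtain ⟨-, -, l3, l4⟩ := lq
  obtain ⟨s1, s2, s3, -⟩ := sq
  have hz : z * z = 1 := s1 125
  have hc : ∀ a ∈ Q, ∀ b ∈ Q, ∀ c ∈ Q, Commute a ⁅b, c⁆ := by
    intro a ha b hb c hc
    rcases l4 b hb c hc with e | e <;> rw [e]
    · exact Commute.one_right a
    · exact l3 a ha
  have φz : φ z = 0 := (p2 z z_mem_Q).2 (Or.inr rfl)
  have base : ∀ r, 93 ≤ r → r < 126 → ∀ s, 93 ≤ s → s < 126 →
      ⁅x r, x s⁆ = ez (Bf (φ (x r)) (φ (x s))) := by
    intro r r1 r2 s t1 t2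
    by_cases hr : r = 125
    · subst hr
      change ⁅z, _⁆ = ez (Bf (φ z) _)
      rw [φz, bf_zero_left, ez_zero, commutatorElement_eq_one_iff_commute]
      exact (l3 _ (x_mem_Q t1 t2)).symm
    by_cases hs : s = 125
    · subst hs
      change ⁅_, z⁆ = ez (Bf _ (φ z))
      rw [φz, bf_zero_right, ez_zero, commutatorElement_eq_one_iff_commute]
      exact l3 _ (x_mem_Q r1 r2)
    obtain ⟨i, rfl⟩ : ∃ i : Fin 32, r = 93 + i := ⟨⟨r - 93, by omega⟩, by simp; omega⟩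
    obtain ⟨j, rfl⟩ : ∃ j : Fin 32, s = 93 + j := ⟨⟨s - 93, by omega⟩, by simp; omega⟩
    rw [p4, p4, bf_single]
    have hS := sm_top i i.2 j j.2
    obtain ⟨c1, c2⟩ := cm _ r2 _ t2
    split_ifs with h
    · rw [ez_one]
      exact c1 125 (by omega) (hS.2 h)
    · rw [ez_zero]
      refine (l4 _ (x_mem_Q r1 r2) _ (x_mem_Q t1 t2)).resolve_right fun e => ?_
      by_cases ht : ∀ t < 126, ¬ Sm (93 + i) (93 + j) t
      · have := (commutatorElement_eq_one_iff_commute (G := G)).2 (c2 (by omega) ht)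
        exact s3 125 (by omega) (e.symm.trans this)
      · push Not at ht
        obtain ⟨t, h1, h2⟩ := ht
        have h3 : t = 125 := s2 t h1 125 (by omega) ((c1 t h1 h2).symm.trans e)
        exact h (hS.1 (h3 ▸ h2))
  refine abs_form (H := G) _ φ ez (ez_add hz) hc p1 ?_
  rintro _ ⟨r, r1, r2, rfl⟩ _ ⟨s, t1, t2, rfl⟩
  exact base r r1 r2 s t1 t2

theorem jobFORM : JobPHI → JobLQ → JobCM → JobSQ → JobFORM := by
  intro phi lq cm sq q hq q' hq' h
  rw [form_eq phi lq cm sq q hq q' hq', h, ez_one]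

end H15.E7M
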