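import Cfsg.Agent.H11.FBSpec

/-!
# FB-B7: `θ = 7` is impossible for the smallest prime (tower FB, S3404)
-/

set_option autoImplicit false
set_option maxHeartbeats 400000

namespace H15.FBB7

open MulAction Subgroup H11.FB

universe u v

variable {G : Type u} {Ω : Type v} [Group G] [MulAction G Ω]

/-- the setwise stabiliser, element form -/
def St (G : Type u) [Group G] [MulAction G Ω] (E : Set Ω) : Subgroup G where
  carrier := {g | ∀ x, g • x ∈ E ↔ x ∈ E}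
  one_mem' := fun x => by rw [one_smul]
  mul_mem' := fun {g g'} hg hg' x => by rw [mul_smul, hg, hg']
  inv_mem' := fun {g} hg x => by rw [← hg, smul_inv_smul]

theorem exists_phi {E : Set Ω} (hE : E.ncard = 3) :
    ∃ φ : St G E →* Equiv.Perm (Fin 3), ∀ g, φ g = 1 ↔ ∀ ω ∈ E, (g : G) • ω = ω := by
  have hfin : E.Finite := Set.finite_of_ncard_ne_zero (by omega)
  have : Finite E := hfin
  have e : E ≃ Fin 3 := Finite.equivFinOfCardEq (by rw [Nat.card_coe_set_eq, hE])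
  let ψ : St G E →* Equiv.Perm E := MonoidHom.mk'
    (fun g => (MulAction.toPerm (g : G)).subtypePerm (fun x => g.2 x))
    (fun g g' => by
      ext x
      exact mul_smul (g : G) (g' : G) (x : Ω))
  refine ⟨(Equiv.permCongrHom e).toMonoidHom.comp ψ, fun g => ?_⟩
  have h1 : ((Equiv.permCongrHom e).toMonoidHom.comp ψ) g = 1 ↔ ψ g = 1 :=
    (Equiv.permCongrHom e).map_eq_one_iff
  rw [h1]
  constructor
  · intro h ω hω
    have := congrArg (fun σ : Equiv.Perm E => ((σ ⟨ω, hω⟩ : E) : Ω)) h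
    exact this
  · intro h
    ext x
    exact h x x.2

theorem dec1 : ∀ σ : Equiv.Perm (Fin 3), σ ^ 3 = 1 ∨ σ ^ 2 = 1 := by decide

theorem dec2 : ∀ σ ρ s : Equiv.Perm (Fin 3), σ ≠ 1 → σ ^ 3 = 1 → ρ ^ 3 = 1 → s ≠ 1 → s * s = 1 →
    ρ * s * σ ≠ σ * (ρ * s) := by decide

theorem exists_syl [Finite G] {H U : Subgroup G} {p : ℕ} (hp : p.Prime) (hU : U ≤ H)
    (pU : IsPGroup p U) : ∃ R : Subgroup G, R ≤ H ∧ IsPGroup p R ∧ U ≤ R ∧
      ∀ V : Subgroup G, V ≤ H → IsPGroup p V → ∃ y ∈ H, ∀ w ∈ V, y * w * y⁻¹ ∈ R := by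
  have : Fact p.Prime := ⟨hp⟩
  obtain ⟨R, hR⟩ := (pU.comap_subtype (K := H)).exists_le_sylow
  refine ⟨(R : Subgroup H).map H.subtype, map_subtype_le _, R.isPGroup'.map _, ?_, ?_⟩
  · intro x hx
    exact ⟨⟨x, hU hx⟩, hR hx, rfl⟩
  · intro V hV pV
    obtain ⟨R2, hR2⟩ := (pV.comap_subtype (K := H)).exists_le_sylow
    obtain ⟨y, hy⟩ := exists_smul_eq H R2 R
    refine ⟨y, y.2, fun w hw => ?_⟩
    have m : (⟨w, hV hw⟩ : H) ∈ (R2 : Subgroup H) := hR2 hw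
    refine ⟨y * ⟨w, hV hw⟩ * y⁻¹, ?_, rfl⟩
    rw [← hy]
    exact ⟨_, m, rfl⟩

theorem jobB7 : JobB7.{u, v} := by
  intro G Ω _ _ _ _ _ _ a b c d K H P h cx hh ho h7
  have fr := cx.hy.fr
  obtain ⟨nab, nac, nad, nbc, nbd, ncd⟩ := cx.hy.ne
  have hH1 : Nat.card H ≠ 1 := fun e => fr.Hne (Subgroup.card_eq_one.1 e)
  have hp : (orderOf h).Prime := ho ▸ Nat.minFac_prime hH1
  have t1 := cx.th1 h hh hp
  have t2 := cx.th2 h hh hp
  have cen : ∀ x ∈ H, x * h = h * x := cx.fh.cen h hh ho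
  have perf := t2.perf (Or.inr (Or.inl h7)) cen
  have hN : ∀ x ∈ H, x ∈ normalizer (zpowers h : Set G) := fun x hx => (t1.nl x (fr.Hle hx)).2 hx
  obtain ⟨ha, hb, hc, hd⟩ := mem_L4.1 (fr.Hle hh)
  set E : Set Ω := fixedBy Ω h \ {a, b, c, d} with hEd
  have hE : E.ncard = 3 := by
    have sub : ({a, b, c, d} : Set Ω) ⊆ fixedBy Ω h := by
      rintro x (rfl | rfl | rfl | rfl) <;> assumption
    have c4 : ({a, b, c, d} : Set Ω).ncard = 4 := by
      rw [Set.ncard_insert_of_notMem (by simp [nab, nac, nad]),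
        Set.ncard_insert_of_notMem (by simp [nbc, nbd]), Set.ncard_pair ncd]
    rw [hEd, Set.ncard_diff sub, h7, c4]
  obtain ⟨φ, hφ⟩ := exists_phi (G := G) hE
  have memS : ∀ g : G, g * h = h * g →
      (∀ x, g • x ∈ ({a, b, c, d} : Set Ω) ↔ x ∈ ({a, b, c, d} : Set Ω)) → g ∈ St G E := by
    intro g hg h4 x
    have : g • x ∈ fixedBy Ω h ↔ x ∈ fixedBy Ω h := by
      rw [mem_fixedBy, mem_fixedBy, ← mul_smul, ← hg, mul_smul, smul_left_cancel_iff]
    simp only [hEd, Set.mem_diff, this, h4]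
  have HS : H ≤ St G E := by
    intro g hg
    obtain ⟨ga, gb, gc, gd⟩ := mem_L4.1 (fr.Hle hg)
    refine memS g (cen g hg) fun x => ?_
    simp only [Set.mem_insert_iff, Set.mem_singleton_iff]
    conv_lhs => rw [← ga, ← gb, ← gc, ← gd]
    simp only [smul_left_cancel_iff]
  have cube : ∀ y (hy : y ∈ H), φ ⟨y, HS hy⟩ ^ 3 = 1 := by
    intro y hy
    rcases dec1 (φ ⟨y, HS hy⟩) with e | e
    · exact e
    · obtain ⟨k, hk⟩ := cx.odd
      have e1 : y ^ Nat.card H = 1 := orderOf_dvd_iff_pow_eq_one.1 (orderOf_dvd_natCard H hy)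
      have e2 : (⟨y, HS hy⟩ : St G E) ^ Nat.card H = 1 := Subtype.ext e1
      have e3 := congrArg φ e2
      rw [map_pow, map_one, hk, pow_succ, pow_mul, e, one_pow, one_mul] at e3
      rw [e3, one_pow]
  obtain ⟨e, f, g, nef, neg, nfg, hefg⟩ := Set.ncard_eq_three.1 hE
  have eE : e ∈ E := by rw [hefg]; simp
  have fE : f ∈ E := by rw [hefg]; simp
  obtain ⟨x0, hx0, mv⟩ := t1.seven h7
  have x01 : φ ⟨x0, HS hx0⟩ ≠ 1 := fun e1 => eE.2 (mv e eE.1 ((hφ _).1 e1 e eE))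
  have o3 : orderOf (φ ⟨x0, HS hx0⟩) = 3 :=
    haveI : Fact (Nat.Prime 3) := ⟨Nat.prime_three⟩
    orderOf_eq_prime (cube x0 hx0) x01
  have d3 : 3 ∣ Nat.card H := by
    rw [← o3]
    refine (orderOf_map_dvd φ _).trans ?_
    rw [← orderOf_coe]
    exact orderOf_dvd_natCard H hx0
  have h3 : orderOf h = 3 := by
    have l1 : orderOf h ≤ 3 := ho ▸ Nat.minFac_le_of_dvd (by norm_num) d3
    have l2 := hp.two_le
    have l3 : orderOf h ≠ 2 := fun e2 => by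
      have := orderOf_dvd_natCard H hh
      rw [e2] at this
      exact (Nat.not_even_iff_odd.2 cx.odd) (even_iff_two_dvd.2 this)
    omega
  obtain ⟨k, m, hm3, hkm⟩ := Nat.exists_eq_pow_mul_and_not_dvd (orderOf_pos x0).ne' 3 (by norm_num)
  have p1 : IsPGroup 3 (zpowers (x0 ^ m)) := by
    refine IsPGroup.of_card (n := k) ?_
    have m0 : m ≠ 0 := by rintro rfl; exact hm3 (dvd_zero 3)
    rw [Nat.card_zpowers, orderOf_pow_of_dvd m0 ⟨3 ^ k, by rw [hkm, mul_comm]⟩, hkm,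
      Nat.mul_div_cancel _ (Nat.pos_of_ne_zero m0)]
  obtain ⟨R, RH, pR, le1, cjR⟩ := exists_syl Nat.prime_three
    ((zpowers_le).2 (H.pow_mem hx0 m)) p1
  obtain ⟨⟨x, hxR⟩, hx⟩ := (cx.fh.cyc 3 Nat.prime_three R RH pR).exists_generator
  have gen : ∀ r ∈ R, ∃ i : ℤ, x ^ i = r := fun r hr => by
    obtain ⟨i, hi⟩ := hx ⟨r, hr⟩
    exact ⟨i, congrArg Subtype.val hi⟩
  have xH := RH hxR
  have x1 : φ ⟨x, HS xH⟩ ≠ 1 := by
    intro e1
    obtain ⟨i, hi⟩ := gen _ (le1 (mem_zpowers _))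
    have e2 : (⟨x, HS xH⟩ : St G E) ^ i = ⟨x0, HS hx0⟩ ^ m := Subtype.ext hi
    have e3 := congrArg φ e2
    rw [map_zpow, map_pow, e1, one_zpow] at e3
    exact hm3 (o3 ▸ orderOf_dvd_of_pow_eq_one e3.symm)
  have hR : h ∈ R := by
    obtain ⟨y, hy, hyR⟩ := cjR (zpowers h) (zpowers_le.2 hh)
      (IsPGroup.of_card (n := 1) (by rw [Nat.card_zpowers, h3, pow_one]))
    have := hyR h (mem_zpowers h)
    rwa [cen y hy, mul_inv_cancel_right] at this
  have ea : e ≠ a := fun q => eE.2 (by simp [q])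
  have eb : e ≠ b := fun q => eE.2 (by simp [q])
  have ec : e ≠ c := fun q => eE.2 (by simp [q])
  have ed : e ≠ d := fun q => eE.2 (by simp [q])
  have fa : f ≠ a := fun q => fE.2 (by simp [q])
  have fb : f ≠ b := fun q => fE.2 (by simp [q])
  have fc : f ≠ c := fun q => fE.2 (by simp [q])
  have fd : f ≠ d := fun q => fE.2 (by simp [q])
  obtain ⟨t0, t0N, ht0⟩ := t2.alt (Or.inr h7) (Equiv.swap a b * Equiv.swap e f)
    (by rw [map_mul, Equiv.Perm.sign_swap nab, Equiv.Perm.sign_swap nef]; simp)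
    (fun ω hω => by
      have q1 : ω ≠ a := fun q => hω (q ▸ ha)
      have q2 : ω ≠ b := fun q => hω (q ▸ hb)
      have q3 : ω ≠ e := fun q => hω (q ▸ eE.1)
      have q4 : ω ≠ f := fun q => hω (q ▸ fE.1)
      rw [Equiv.Perm.mul_apply, Equiv.swap_apply_of_ne_of_ne q3 q4,
        Equiv.swap_apply_of_ne_of_ne q1 q2])
  have ta : t0 • a = b := by
    rw [ht0 a ha, Equiv.Perm.mul_apply, Equiv.swap_apply_of_ne_of_ne ea.symm fa.symm,
      Equiv.swap_apply_left]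
  have tb : t0 • b = a := by
    rw [ht0 b hb, Equiv.Perm.mul_apply, Equiv.swap_apply_of_ne_of_ne eb.symm fb.symm,
      Equiv.swap_apply_right]
  have tc : t0 • c = c := by
    rw [ht0 c hc, Equiv.Perm.mul_apply, Equiv.swap_apply_of_ne_of_ne ec.symm fc.symm,
      Equiv.swap_apply_of_ne_of_ne nac.symm nbc.symm]
  have td : t0 • d = d := by
    rw [ht0 d hd, Equiv.Perm.mul_apply, Equiv.swap_apply_of_ne_of_ne ed.symm fd.symm,
      Equiv.swap_apply_of_ne_of_ne nad.symm nbd.symm]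
  have te : t0 • e = f := by
    rw [ht0 e eE.1, Equiv.Perm.mul_apply, Equiv.swap_apply_left,
      Equiv.swap_apply_of_ne_of_ne fa fb]
  have tf : t0 • f = e := by
    rw [ht0 f fE.1, Equiv.Perm.mul_apply, Equiv.swap_apply_right,
      Equiv.swap_apply_of_ne_of_ne ea eb]
  have gE : g ∈ E := by rw [hefg]; simp
  have tg : t0 • g = g := by
    rw [ht0 g gE.1, Equiv.Perm.mul_apply, Equiv.swap_apply_of_ne_of_ne neg.symm nfg.symm,
      Equiv.swap_apply_of_ne_of_ne (fun q => gE.2 (by simp [q])) (fun q => gE.2 (by simp [q]))]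
  have tS : t0 ∈ St G E := by
    refine memS t0 (perf t0 t0N) fun ω => ?_
    simp only [Set.mem_insert_iff, Set.mem_singleton_iff]
    have q1 : t0 • ω = a ↔ ω = b := by rw [← smul_left_cancel_iff t0 (x := ω), tb]
    have q2 : t0 • ω = b ↔ ω = a := by rw [← smul_left_cancel_iff t0 (x := ω), ta]
    have q3 : t0 • ω = c ↔ ω = c := by rw [← smul_left_cancel_iff t0 (x := ω) (y := c), tc]
    have q4 : t0 • ω = d ↔ ω = d := by rw [← smul_left_cancel_iff t0 (x := ω) (y := d), td]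
    rw [q1, q2, q3, q4]
    exact or_left_comm
  have s1 : φ ⟨t0, tS⟩ ≠ 1 := fun e1 => nef (((hφ _).1 e1 e eE).symm.trans te)
  have s2 : φ ⟨t0, tS⟩ * φ ⟨t0, tS⟩ = 1 := by
    rw [← map_mul, hφ]
    intro ω hω
    rw [hefg] at hω
    show (t0 * t0) • ω = ω
    rcases hω with rfl | rfl | rfl
    · rw [mul_smul, te, tf]
    · rw [mul_smul, tf, te]
    · rw [mul_smul, tg, tg]
  have tH : cj t0 R ≤ H := by
    rintro _ ⟨y, hy, rfl⟩
    have yH := RH hy
    obtain ⟨ya, yb, yc, yd⟩ := mem_L4.1 (fr.Hle yH)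
    show t0 * y * t0⁻¹ ∈ H
    refine (t1.nl _ (mem_L4.2 ⟨?_, ?_, ?_, ?_⟩)).1
      (mul_mem (mul_mem t0N (hN y yH)) (inv_mem t0N))
    · rw [mul_smul, mul_smul, inv_smul_eq_iff.2 tb.symm, yb, tb]
    · rw [mul_smul, mul_smul, inv_smul_eq_iff.2 ta.symm, ya, ta]
    · rw [mul_smul, mul_smul, inv_smul_eq_iff.2 tc.symm, yc, tc]
    · rw [mul_smul, mul_smul, inv_smul_eq_iff.2 td.symm, yd, td]
  obtain ⟨y, yH, hy⟩ := cjR (cj t0 R) tH (pR.map _)
  obtain ⟨i, hi⟩ := gen _ (hy _ (conj_mem_cj hxR))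
  obtain ⟨j, hj⟩ := gen _ hR
  have hi' : x ^ i = (y * t0) * x * (y * t0)⁻¹ := by rw [hi]; group
  have hhi : h ^ (i - 1) = 1 := by
    have c1 : (y * t0) * h * (y * t0)⁻¹ = h := by
      rw [mul_assoc y, perf t0 t0N, ← mul_assoc, cen y yH]; group
    have c2 : h ^ i = h := by
      calc h ^ i = (x ^ i) ^ j := by rw [← hj, ← zpow_mul, ← zpow_mul, mul_comm]
        _ = (y * t0) * x ^ j * (y * t0)⁻¹ := by rw [hi', conj_zpow]
        _ = h := by rw [hj, c1]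
    rw [zpow_sub_one, c2, mul_inv_cancel]
  obtain ⟨l, hl⟩ : ((3 : ℕ) : ℤ) ∣ i - 1 := h3 ▸ orderOf_dvd_iff_zpow_eq_one.2 hhi
  have e2 : (⟨x, HS xH⟩ : St G E) ^ i * (⟨y, HS yH⟩ * ⟨t0, tS⟩) =
      ⟨y, HS yH⟩ * ⟨t0, tS⟩ * ⟨x, HS xH⟩ := by
    apply Subtype.ext
    show x ^ i * (y * t0) = y * t0 * x
    rw [hi']; group
  have e3 := congrArg φ e2
  rw [map_mul, map_mul, map_mul, map_mul, map_zpow, show i = ((3 : ℕ) : ℤ) * l + 1 by omega,
    zpow_add_one, zpow_mul, zpow_natCast, cube x xH, one_zpow, one_mul] at e3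
  exact dec2 _ _ _ x1 (cube x xH) (cube y yH) s1 s2 e3.symm

end H15.FBB7
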