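import Cfsg.Agent.H34.K6Spec

/-! K64 tower: slot V4b. -/

set_option autoImplicit false

namespace H15.K6

open Subgroup H34.K6

universe u

theorem mem4 {P : Type*} [Group P] {u t : P} (h : u ^ 4 = 1) (ht : t ∈ zpowers u) :
    t = 1 ∨ t = u ∨ t = u * u ∨ t = u⁻¹ := by
  obtain ⟨k, rfl⟩ := mem_zpowers_iff.1 ht
  rw [zpow_eq_zpow_emod k (n := 4) (by exact_mod_cast h)]
  obtain e | e | e | e : k % 4 = 0 ∨ k % 4 = 1 ∨ k % 4 = 2 ∨ k % 4 = 3 := by omega
  all_goals rw [e]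
  exacts [.inl (zpow_zero u), .inr (.inl (zpow_one u)), .inr (.inr (.inl (zpow_two u))),
    .inr (.inr (.inr (eq_inv_of_mul_eq_one_left (by rw [← h, ← zpow_add_one]; norm_cast))))]

theorem mof {P : Type*} [Group P] {H : Subgroup P} {a b : P} (h : a ∈ H) (e : a = b) : b ∈ H :=
  e ▸ h

theorem jobV4b : JobV4b.{u} := fun P _ _ Q C s i u w G k w1 hC => by
  have wi : w⁻¹ = w := inv_eq_of_mul_eq_one_left k.w2
  have u4 : u ^ 4 = 1 := by rw [← k.w2, ← k.u2]; simp only [pow_succ, pow_zero, one_mul, mul_assoc]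
  have uw : u * w = u⁻¹ := eq_inv_of_mul_eq_one_left (by
    rw [← u4, ← k.u2]; simp only [pow_succ, pow_zero, one_mul, mul_assoc])
  have uu : u⁻¹ * u⁻¹ = w := by rw [← mul_inv_rev, k.u2, wi]
  have une : u ≠ u⁻¹ := fun e => w1 (by rw [← k.u2]; nth_rw 1 [e]; exact inv_mul_cancel u)
  have mW : ∀ t ∈ zpowers w, t = 1 ∨ t = w := fun t ht => by
    rcases mem4 (by rw [show 4 = 2 * 2 from rfl, pow_mul, sq w, k.w2, one_pow]) ht with e | e | e | e
    exacts [.inl e, .inr e, .inl (e.trans k.w2), .inr (e.trans wi)]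
  have uU := mem_zpowers u
  have WU : zpowers w ≤ zpowers u := zpowers_le.2 (k.u2 ▸ mul_mem uU uU)
  have WC : zpowers w ≤ C := zpowers_le.2 k.wC
  have iW : ((zpowers w).subgroupOf C).index = 2 := by
    have := ((zpowers w).subgroupOf C).index_mul_card
    rw [Nat.card_congr (subgroupOfEquivOfLe WC).toEquiv, Nat.card_zpowers, hC,
      orderOf_eq_prime (p := 2) (by rw [sq, k.w2]) w1] at this
    omega
  have hW : ∀ c ∈ C, ∀ d ∈ C, c * d ∈ zpowers w ↔ (c ∈ zpowers w ↔ d ∈ zpowers w) :=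
    fun c hc d hd => mul_mem_iff_of_index_two iW (a := ⟨c, hc⟩) (b := ⟨d, hd⟩)
  -- the normalizer
  set N := normalizer (Q : Set P) with hN
  have iN : N.index = 2 := by
    have := N.index_mul_card
    rw [k.cardN, k.card, hC, G.card] at this
    omega
  have nN := normal_of_index_eq_two iN
  have QN : Q ≤ N := le_normalizer
  have sN : s ∈ N := k.memN.2 (.inr (by simp))
  have cu : ∀ c ∈ C, c * u * c⁻¹ = u := fun c hc => by rw [k.cu c hc, mul_inv_cancel_right]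
  have ci : ∀ c ∈ C, c * i * c⁻¹ = i := fun c hc => by rw [k.ci c hc, mul_inv_cancel_right]
  have pm : ∀ a b : P, (a * u * a⁻¹ = u ∨ a * u * a⁻¹ = u⁻¹) → (b * u * b⁻¹ = u ∨ b * u * b⁻¹ = u⁻¹) →
      a * b * u * (a * b)⁻¹ = u ∨ a * b * u * (a * b)⁻¹ = u⁻¹ := fun a b ha hb => by
    rw [show a * b * u * (a * b)⁻¹ = a * (b * u * b⁻¹) * a⁻¹ by group]
    rcases hb with e | e <;> rw [e]
    · exact ha
    · rw [show a * u⁻¹ * a⁻¹ = (a * u * a⁻¹)⁻¹ by group]
      rcases ha with e | e <;> simp [e]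
  have Nu : ∀ n ∈ N, n * u * n⁻¹ = u ∨ n * u * n⁻¹ = u⁻¹ := by
    have : ∀ q ∈ Q, q * u * q⁻¹ = u ∨ q * u * q⁻¹ = u⁻¹ := fun q hq => by
      have a : u * u * u⁻¹ = u ∨ u * u * u⁻¹ = u⁻¹ := .inl (by group)
      obtain ⟨c, hc, rfl | rfl | rfl | rfl⟩ := k.mem q hq
      exacts [.inl (cu _ hc), pm _ _ a (.inl (cu c hc)), pm _ _ (.inr k.iu) (.inl (cu c hc)),
        pm _ _ (pm _ _ (.inr k.iu) a) (.inl (cu c hc))]
    intro n hn
    rcases k.memN.1 hn with e | e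
    exacts [this n e, by simpa only [mul_inv_cancel_left] using pm _ _ k.su (this _ e)]
  have hU : ∀ n ∈ N, ∀ t ∈ zpowers u, n * t * n⁻¹ ∈ zpowers u := fun n hn t ht =>
    (zpowers_le (H := (zpowers u).comap (MulAut.conj n).toMonoidHom)).2 (by
      show n * u * n⁻¹ ∈ zpowers u
      rcases Nu n hn with e | e <;> rw [e]
      exacts [uU, inv_mem uU]) ht
  have sw : s * w * s⁻¹ = w := by
    rw [← k.u2, ← conj_mul]
    rcases k.su with e | e <;> rw [e, k.u2]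
    exact uu
  have cw : ∀ c ∈ C, c * w = w * c := fun c hc => by
    rw [← k.u2, ← mul_assoc, k.cu c hc, mul_assoc, k.cu c hc, mul_assoc]
  -- commutators of `N`
  have Rm : ∀ a a' b, a' ∈ N → a⁻¹ * b * a * b⁻¹ ∈ zpowers u → a'⁻¹ * b * a' * b⁻¹ ∈ zpowers u →
      (a * a')⁻¹ * b * (a * a') * b⁻¹ ∈ zpowers u := fun a a' b h h1 h2 =>
    mof (mul_mem (hU _ (inv_mem h) _ h1) h2) (by group)
  have Rs : ∀ a ∈ N, ∀ b ∈ N, a⁻¹ * b * a * b⁻¹ ∈ zpowers u → b⁻¹ * a * b * a⁻¹ ∈ zpowers u :=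
    fun a ha b hb h => mof (hU _ (mul_mem (inv_mem hb) ha) _ (inv_mem h)) (by group)
  have iN' := QN k.iQ
  have CN : ∀ c ∈ C, c ∈ N := fun c hc => QN (k.le hc)
  have gen : ∀ b ∈ N, i⁻¹ * b * i * b⁻¹ ∈ zpowers u → s⁻¹ * b * s * b⁻¹ ∈ zpowers u →
      (∀ c ∈ C, c⁻¹ * b * c * b⁻¹ ∈ zpowers u) → ∀ a ∈ N, a⁻¹ * b * a * b⁻¹ ∈ zpowers u :=
    fun b hb h1 h2 h3 => by
      have h4 : u⁻¹ * b * u * b⁻¹ ∈ zpowers u := by
        simpa only [mul_assoc] using mul_mem (inv_mem uU) (hU b hb u uU)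
      have : ∀ q ∈ Q, q⁻¹ * b * q * b⁻¹ ∈ zpowers u := fun q hq => by
        obtain ⟨c, hc, rfl | rfl | rfl | rfl⟩ := k.mem q hq
        exacts [h3 _ hc, Rm _ _ _ (CN c hc) h4 (h3 c hc), Rm _ _ _ (CN c hc) h1 (h3 c hc),
          Rm _ _ _ (CN c hc) (Rm _ _ _ (QN k.uQ) h1 h4) (h3 c hc)]
      intro a ha
      rcases k.memN.1 ha with e | e
      exacts [this a e, by simpa only [mul_inv_cancel_left] using Rm _ _ _ (QN e) h2 (this _ e)]
  have r1 : i⁻¹ * s * i * s⁻¹ ∈ zpowers u := by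
    rw [show i⁻¹ * s * i * s⁻¹ = i⁻¹ * (s * i * s⁻¹) by group, k.si, inv_mul_cancel_left]; exact uU
  have r2 : ∀ c ∈ C, c⁻¹ * s * c * s⁻¹ ∈ zpowers u := fun c hc => by
    refine WU (show c⁻¹ * (s * c * s⁻¹) = c⁻¹ * s * c * s⁻¹ by group ▸
      (hW _ (inv_mem hc) _ (k.sC c hc)).2 ⟨fun h => ?_, fun h => ?_⟩)
    · rcases mW _ (inv_mem_iff.1 h) with rfl | rfl
      exacts [by simp, sw.symm ▸ mem_zpowers _]
    · rcases mW _ h with e | e
      · rw [conj_eq_one_iff.1 e]; simp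
      · rw [(MulAut.conj s).injective (e.trans sw.symm)]; simp
  have r3 : ∀ c ∈ C, i⁻¹ * c * i * c⁻¹ ∈ zpowers u := fun c hc => by
    rw [show i⁻¹ * c * i * c⁻¹ = i⁻¹ * (c * i * c⁻¹) by group, ci c hc]; simp
  have cc : ∀ c ∈ C, ∀ d ∈ C, c * d = d * c := fun c hc d hd => by
    have a : ∀ c ∈ zpowers w, ∀ d ∈ C, c * d = d * c := fun c hc d hd => by
      rcases mW c hc with rfl | rfl
      exacts [by simp, (cw d hd).symm]
    by_cases h : c ∈ zpowers w
    · exact a c h d hd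
    by_cases h' : d ∈ zpowers w
    · exact (a d h' c hc).symm
    have := a _ ((hW _ (inv_mem hc) _ hd).2 (iff_of_false (mt inv_mem_iff.1 h) h')) c hc
    calc c * d = c * (c * (c⁻¹ * d)) := by group
      _ = d * c := by rw [← this]; group
  have R : ∀ b ∈ N, ∀ a ∈ N, a⁻¹ * b * a * b⁻¹ ∈ zpowers u := fun b hb =>
    gen b hb (Rs _ hb _ iN' (gen i iN' (by simp) (Rs _ iN' _ sN r1)
      (fun c hc => Rs _ iN' _ (CN c hc) (r3 c hc)) b hb)) (Rs _ hb _ sN (gen s sN r1 (by simp) r2 b hb))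
      fun c hc => Rs _ hb _ (CN c hc) (gen c (CN c hc) (r3 c hc) (Rs _ (CN c hc) _ sN (r2 c hc))
        (fun d hd => by rw [mul_assoc d⁻¹, cc c hc d hd]; simp) b hb)
  have Pu : ∀ g, g * u * g⁻¹ = u ∨ g * u * g⁻¹ = u⁻¹ := fun g => by
    have : g * (i⁻¹ * (s * i * s⁻¹)) * g⁻¹ ∈ _ :=
      mof (R _ (nN.conj_mem _ sN g) _ (nN.conj_mem _ iN' g)) (by group)
    rw [k.si, inv_mul_cancel_left] at this
    have z : g * u * g⁻¹ * (g * u * g⁻¹) ≠ 1 := by rwa [conj_mul, k.u2, Ne, conj_eq_one_iff]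
    rcases mem4 u4 this with e | e | e | e
    exacts [absurd (by rw [e, one_mul]) z, .inl e, absurd (by rw [e, k.u2, k.w2]) z, .inr e]
  have Pw : ∀ g, g * w * g⁻¹ = w := fun g => by
    rw [← k.u2, ← conj_mul]
    rcases Pu g with e | e <;> rw [e, k.u2]
    exact uu
  have gw : ∀ g, w * g = g * w := fun g => by nth_rw 1 [← Pw g]; group
  have ui : u * i = i * u * w := by
    rw [mul_assoc, uw, ← k.iu]
    have : i * i * u = u * (i * i) := by rw [k.i2, gw]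
    calc u * i = u * (i * i) * i⁻¹ := by group
      _ = _ := by rw [← this]; group
  -- squares
  have sQ : ∀ q ∈ Q, q * q ∈ zpowers w := fun q hq => by
    have a : ∀ v, v * v = w → ∀ c ∈ C, c * v = v * c → v * c * (v * c) ∈ zpowers w :=
      fun v hv c hc e => by
        rw [show v * c * (v * c) = v * (c * v) * c by group, e,
          show v * (v * c) * c = v * v * (c * c) by group, hv]
        exact mul_mem (mem_zpowers w) ((hW c hc c hc).2 Iff.rfl)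
    obtain ⟨c, hc, rfl | rfl | rfl | rfl⟩ := k.mem q hq
    exacts [(hW _ hc _ hc).2 Iff.rfl, a u k.u2 c hc (k.cu c hc), a i k.i2 c hc (k.ci c hc),
      a _ (by rw [show i * u * (i * u) = i * u * i⁻¹ * (i * i) * u by group, k.iu, k.i2, ← gw]; group)
        c hc (by rw [← mul_assoc, k.ci c hc, mul_assoc, k.cu c hc, mul_assoc])]
  obtain ⟨g, hg⟩ : ∃ g, g ∉ N := by
    by_contra! z
    rw [(eq_top_iff' N).2 z, index_top] at iN
    omega
  obtain ⟨q, hq, hq'⟩ : ∃ q ∈ Q, g * q * g⁻¹ ∉ Q := by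
    by_contra! z
    exact hg (k.memN.2 (k.nor g z))
  have sN2 : ∀ a ∈ N, a ∉ Q → a * a ∈ zpowers u := fun a ha ha' => by
    have m := nN.conj_mem _ (QN hq) g
    have m1 := mul_mem (inv_mem ((k.memN.1 m).resolve_left hq')) ((k.memN.1 ha).resolve_left ha')
    have m2 : g * q * g⁻¹ * (g * q * g⁻¹) ∈ zpowers u := by
      rw [conj_mul]
      rcases mW _ (sQ q hq) with e | e <;> rw [e]
      exacts [by simp, (Pw g).symm ▸ WU (mem_zpowers w)]
    exact mof (mul_mem (mul_mem m2 (R _ (QN m1) _ m)) (WU (sQ _ m1))) (by group)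
  have Qi : ∀ q ∈ Q, q * i * q⁻¹ = i ∨ q * i * q⁻¹ = i * w := fun q hq => by
    have a : ∀ v c, c ∈ C → v * c * i * (v * c)⁻¹ = v * i * v⁻¹ := fun v c hc => by
      rw [show v * c * i * (v * c)⁻¹ = v * (c * i * c⁻¹) * v⁻¹ by group, ci c hc]
    have b : u * i * u⁻¹ = i * w := by rw [ui, mul_assoc, mul_assoc, gw]; group
    obtain ⟨c, hc, rfl | rfl | rfl | rfl⟩ := k.mem q hq
    exacts [.inl (ci _ hc), .inr ((a _ c hc).trans b), .inl ((a _ c hc).trans (by group)),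
      .inr ((a _ c hc).trans (by
        rw [show i * u * i * (i * u)⁻¹ = i * (u * i * u⁻¹) * i⁻¹ by group, b, mul_assoc, mul_assoc,
          gw]; group))]
  have Ni : ∀ a ∈ N, a ∉ Q → a * i * a⁻¹ = i * u ∨ a * i * a⁻¹ = i * u⁻¹ := fun a ha ha' => by
    rw [show a * i * a⁻¹ = s * (s⁻¹ * a * i * (s⁻¹ * a)⁻¹) * s⁻¹ by group]
    rcases Qi _ ((k.memN.1 ha).resolve_left ha') with e | e <;> rw [e]
    exacts [.inl k.si, .inr (by rw [← conj_mul, k.si, sw, mul_assoc, uw])]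
  have two : ∀ a ∈ N, a ∉ Q → a * u * a⁻¹ = u → a * a = u ∨ a * a = u⁻¹ := fun a ha ha' e => by
    have z : a * a * i * (a * a)⁻¹ = i * w := by
      rw [show a * a * i * (a * a)⁻¹ = a * (a * i * a⁻¹) * a⁻¹ by group]
      rcases Ni a ha ha' with f | f <;> rw [f, ← conj_mul, f]
      · rw [e, mul_assoc, k.u2]
      · rw [← conj_inv, e, mul_assoc, uu]
    rcases mem4 u4 (sN2 a ha ha') with f | f | f | f
    · exact absurd (by simpa [f] using z) w1
    · exact .inl f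
    · rw [f, k.u2, gw, mul_inv_cancel_right] at z
      exact absurd (by simpa using z) w1
    · exact .inr f
  obtain ⟨x, hx, xu⟩ : ∃ x ∉ N, x * u * x⁻¹ = u := by
    rcases Pu g with e | e
    exacts [⟨g, hg, e⟩, ⟨g * i, mt (mul_mem_cancel_right iN').1 hg, by
      rw [show g * i * u * (g * i)⁻¹ = g * (i * u * i⁻¹) * g⁻¹ by group, k.iu, ← conj_inv, e,
        inv_inv]⟩]
  have xx : x * x ∈ N := (mul_mem_iff_of_index_two iN).2 Iff.rfl
  obtain ⟨a, ha⟩ : ∃ a, x * i * x⁻¹ = i * a := ⟨_, (mul_inv_cancel_left i _).symm⟩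
  have aN : a ∈ N := (mul_mem_cancel_left iN').1 (ha ▸ nN.conj_mem _ iN' x)
  have au : a * u * a⁻¹ = u := (MulAut.conj i).injective (by
    show i * (a * u * a⁻¹) * i⁻¹ = i * u * i⁻¹
    rw [show i * (a * u * a⁻¹) * i⁻¹ = i * a * u * (i * a)⁻¹ by group, ← ha, k.iu]
    nth_rw 1 [← xu]
    refine Eq.trans (b := x * (i * u * i⁻¹) * x⁻¹) (by group) ?_
    rw [k.iu, ← conj_inv, xu])
  have e2 : x * x * i * (x * x)⁻¹ = i * a * (x * a * x⁻¹) := by
    rw [show x * x * i * (x * x)⁻¹ = x * (x * i * x⁻¹) * x⁻¹ by group, ha, ← conj_mul, ha]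
  have aQ : a ∉ Q := fun aQ => hx (k.memN.2 (k.nor x fun y hy => ?_))
  · have aa := two a aN aQ au
    by_cases h : x * x ∈ Q
    · have z : x * a * x⁻¹ * (x * a * x⁻¹) = (a * a)⁻¹ := by
        rcases Qi _ h with e | e <;> rw [e2, mul_assoc] at e
        · rw [eq_inv_of_mul_eq_one_right (mul_eq_left.1 e), mul_inv_rev]
        · rw [eq_inv_mul_of_mul_eq (mul_left_cancel e), mul_assoc, ← mul_assoc w, gw, mul_assoc,
            k.w2, mul_one, mul_inv_rev]
      rw [conj_mul] at z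
      rcases aa with e | e <;> rw [e] at z
      exacts [une (xu.symm.trans z), une (by rw [← conj_inv, xu, inv_inv] at z; exact z.symm)]
    · have z := two _ xx h (by
        rw [show x * x * u * (x * x)⁻¹ = x * (x * u * x⁻¹) * x⁻¹ by group, xu, xu])
      refine w1 ((?_ : w = x * x * (x * x) * (x * x * (x * x))).trans (by
        rw [← G.exp x]; simp only [pow_succ, pow_zero, one_mul, mul_assoc]))
      rcases z with e | e <;> rw [e]
      exacts [k.u2.symm, uu.symm]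
  have xi : x * i * x⁻¹ ∈ Q := ha ▸ mul_mem k.iQ aQ
  have xu' : x * u * x⁻¹ ∈ Q := xu.symm ▸ k.uQ
  suffices H : ∀ c ∈ C, x * c * x⁻¹ ∈ Q by
    obtain ⟨c, hc, rfl | rfl | rfl | rfl⟩ := k.mem y hy
    exacts [H _ hc, mof (mul_mem xu' (H c hc)) conj_mul, mof (mul_mem xi (H c hc)) conj_mul,
      mof (mul_mem (mof (mul_mem xi xu') conj_mul) (H c hc)) conj_mul]
  obtain ⟨c, hc, v, hv, rfl⟩ : ∃ c ∈ C, ∃ v, (v = 1 ∨ v = u) ∧ a = v * c := by
    have n : ∀ v c, c ∈ C → v * u * v⁻¹ = u⁻¹ → a ≠ v * c := fun v c hc e f => une (by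
      rw [← e]; nth_rw 1 [← au]
      rw [f, show v * c * u * (v * c)⁻¹ = v * (c * u * c⁻¹) * v⁻¹ by group, cu c hc])
    obtain ⟨c, hc, e | e | e | e⟩ := k.mem a aQ
    exacts [⟨c, hc, 1, .inl rfl, by rwa [one_mul]⟩, ⟨c, hc, u, .inr rfl, e⟩,
      absurd e (n _ c hc k.iu), absurd e (n _ c hc (by rw [← k.iu]; group))]
  intro d hd
  by_cases h : c ∈ zpowers w
  · by_contra z
    have y1 : x * d * x⁻¹ * u * (x * d * x⁻¹)⁻¹ = u := by
      nth_rw 1 [← xu]
      refine Eq.trans (b := x * (d * u * d⁻¹) * x⁻¹) (by group) ?_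
      rw [cu d hd, xu]
    have y2 : x * d * x⁻¹ * (i * (v * c)) * (x * d * x⁻¹)⁻¹ = i * (v * c) := by
      rw [← ha]
      refine Eq.trans (b := x * (d * i * d⁻¹) * x⁻¹) (by group) ?_
      rw [ci d hd]
    have y3 : x * d * x⁻¹ * (v * c) * (x * d * x⁻¹)⁻¹ = v * c := by
      rw [← conj_mul]
      congr 1
      · rcases hv with rfl | rfl
        exacts [by simp, y1]
      · rcases mW c h with rfl | rfl
        exacts [by simp, Pw _]
    rw [← conj_mul, y3, mul_left_inj] at y2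
    rcases Ni _ (nN.conj_mem _ (CN d hd) x) z with e | e <;> rw [y2, left_eq_mul] at e
    exacts [k.uC (e ▸ one_mem C), k.uC (inv_mem_iff.1 (e ▸ one_mem C))]
  have xW : ∀ t ∈ zpowers w, x * t * x⁻¹ ∈ Q := fun t ht => by
    rcases mW t ht with rfl | rfl
    exacts [by simp, (Pw x).symm ▸ k.le k.wC]
  have xc : x * c * x⁻¹ ∈ Q := by
    have m := (mul_mem_cancel_left (mul_mem k.iQ aQ)).1
      (e2 ▸ (mem_normalizer_iff.1 xx i).1 k.iQ)
    rw [← conj_mul] at m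
    rcases hv with rfl | rfl
    exacts [by simpa using m, (mul_mem_cancel_left xu').1 m]
  by_cases h' : d ∈ zpowers w
  · exact xW d h'
  · have := mul_mem xc (xW _ ((hW _ (inv_mem hc) _ hd).2 (iff_of_false (mt inv_mem_iff.1 h) h')))
    rwa [conj_mul, mul_inv_cancel_left] at this

end H15.K6
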