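import Cfsg.Agent.Base

/-! Tower KG: the class equation search (kernel friendly definitions). -/

set_option autoImplicit false

namespace H15.KG

noncomputable section

/-- Strict evaluation. -/
def frc {β : Type} (x : ℕ) (f : ℕ → β) : β :=
  Nat.rec (motive := fun _ => β) (f 0) (fun n _ => f (Nat.succ n)) x

theorem frc_eq {β : Type} (x : ℕ) (f : ℕ → β) : frc x f = f x := by cases x <;> rfl

local notation "[" b " ¿ " x " : " y "]" => Bool.rec (motive := fun _ => _) y x b
local infixl:65 " +' " => Nat.add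
local infixl:65 " -' " => Nat.sub
local infixl:70 " *' " => Nat.mul
local infixl:70 " /' " => Nat.div
local infixl:70 " %' " => Nat.mod
local infix:50 " ≤' " => Nat.ble
local infix:50 " =' " => Nat.beq

variable {α : Type}

def allL (l : List α) (f : α → Bool) : Bool := List.rec true (fun a _ ih => [f a ¿ ih : false]) l

def anyL (l : List α) (f : α → Bool) : Bool := List.rec false (fun a _ ih => [f a ¿ true : ih]) l

def sumL (l : List α) (f : α → ℕ) : ℕ := List.rec 0 (fun a _ ih => f a +' ih) l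

def prodL (l : List α) (f : α → ℕ) : ℕ := List.rec 1 (fun a _ ih => f a *' ih) l

def lcmL (l : List α) (f : α → ℕ) : ℕ :=
  List.rec 1 (fun a _ ih => frc ih fun x => frc (f a) fun y => x /' Nat.gcd x y *' y) l

def rapp (pre t : List α) (k : List α → Bool) : Bool :=
  List.rec (motive := fun _ => List α → Bool) k (fun x _ ih acc => ih (x :: acc)) pre t

/-- `f a l'` for every `a` in the list not skipped, `l'` the other members. -/
def pick (l : List α) (sk : α → List α → Bool) (f : α → List α → Bool) : Bool :=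
  List.rec (motive := fun _ => List α → Bool) (fun _ => true)
    (fun a t ih pre => [[sk a pre ¿ true : rapp pre t (f a)] ¿ ih (a :: pre) : false]) l []

/-- `f` on all `c * p ^ e ≤ hi`. -/
def pows (p hi : ℕ) (f : ℕ → Bool) (c : ℕ) : Bool :=
  Nat.rec (motive := fun _ => ℕ → Bool) (fun _ => false)
    (fun _ ih c => frc c fun c => [c ≤' hi ¿ [f c ¿ ih (c *' p) : false] : true]) 80 c

/-- A lower bound for the `l * p ^ e ≥ lc`. -/
def upw (p lc l : ℕ) : ℕ :=
  Nat.rec (motive := fun _ => ℕ → ℕ) (fun l => l)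
    (fun _ ih l => frc l fun l => [lc ≤' l ¿ l : ih (l *' p)]) 40 l

/-- A lower bound for the multiples of `l` that are `≥ lc`. -/
def upm (lc l : ℕ) : ℕ := frc l fun l => [lc ≤' l ¿ l : (lc +' l -' 1) /' l *' l]

structure Ty where
  p : ℕ
  q : ℕ
  a : ℕ
  lb : ℕ

structure Sl where
  p : ℕ
  a : ℕ
  b : ℕ
  kids : List (ℕ × ℕ)

structure Dn where
  p : ℕ
  q : ℕ
  c : ℕ
  must : Bool

def mx (a b : ℕ) : ℕ := frc a fun a => [a ≤' b ¿ b : a]

def nx (W p lc l : ℕ) : ℕ := [W %' p =' 0 ¿ upm lc l : upw p lc l]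

def rc (l : ℕ) : ℕ := 1099511627776 /' l +' 1

def mass (W lc : ℕ) (U : List Ty) (N : List Sl) : ℕ :=
  sumL U (fun t => rc [t.q =' 1 ¿ mx (nx W t.p lc t.a) t.lb : upm lc (t.p *' t.q)]) +'
    sumL N (fun s => rc (nx W s.p lc (s.a *' s.b))) +' rc 5616

def kidOK (s : Sl) (r c : ℕ) : Bool :=
  [c %' (r *' r) =' 0 ¿ allL s.kids fun k => [k.1 =' r ¿ k.2 %' (r *' r) =' 0 : true] :
    [allL s.kids (fun k => [k.1 =' r ¿ k.2 =' c : true]) ¿
      sumL s.kids (fun k => [k.1 =' r ¿ 1 : 0]) +' 2 ≤' r : false]]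

def addKid (s : Sl) (r x y c : ℕ) (k : Sl → Bool) : Bool :=
  frc (mx s.a x) fun a => frc (s.b /' Nat.gcd s.b y *' y) fun b => k ⟨s.p, a, b, (r, c) :: s.kids⟩

def same (a : Ty) (pre : List Ty) : Bool :=
  List.rec false (fun b _ _ => [a.p =' b.p ¿ a.q =' b.q : false]) pre

/-- Attach a kid with centraliser order `c = x * y` through the prime `r` to a class of type `p`. -/
def att (p r x y c : ℕ) (U : List Ty) (N : List Sl) (k : List Ty → List Sl → Bool) : Bool :=
  [pick N (fun s _ => [s.p =' p ¿ [kidOK s r c ¿ false : true] : true])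
      (fun s N' => addKid s r x y c fun s' => k U (s' :: N')) ¿
    pick U (fun t pre => [t.p =' p ¿ [t.q =' 1 ¿ same t pre : true] : true])
      (fun t U' => addKid ⟨p, t.a, 1, []⟩ r x y c fun s' => k U' (s' :: N)) : false]

def cntD (D : List Dn) (p : ℕ) : ℕ := sumL D fun d => [d.p =' p ¿ [d.q =' 1 ¿ 1 : 0] : 0]

def bsD (g s : ℕ) (D : List Dn) : Bool :=
  anyL D fun e => [e.q =' 1 ¿ [3 ≤' e.p ¿ s +' e.p *' (g /' e.c) ≤' s *' s : false] : false]

/-- The accepted end states: `ni` is the number of involution classes, `I` the centraliser orders of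
the other classes of `2`-elements. -/
def acc (K g ni : ℕ) (I : List ℕ) (D : List Dn) : Bool :=
  g == 5760 || g == 7920 || (g == 6048 && I.isEmpty) ||
    (D.all (fun d => !(d.p == 2 && d.q == 3)) && (g == 6048 ||
      (g == 20160 && (K == 10 || I.any fun c => c != 16)) ||
      (g == 29120 && (K == 11 || I.any fun c => c == 8)))) ||
    (ni == 1 && D.any (fun d => d.p == 2 && d.q == 3 && d.c == 6) &&
      (g == 14520 || g == 15600 || g == 37056))

/-- Run through the choices of the involution classes. -/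
def flags (K g lo : ℕ) (D : List Dn) : Bool :=
  List.rec (motive := fun _ => ℕ → ℕ → Bool → List ℕ → Bool)
    (fun m ni top I => [top ¿ [m *' m ≤' m +' (K -' 1) *' g ¿ [m +' lo ≤' m *' m ¿
      acc K g ni I D : true] : true] : true])
    (fun d _ ih m ni top I => [[d.p =' 2 ¿ d.q =' 1 : false] ¿
      [[d.must ¿ true : ih m ni top (d.c :: I)] ¿ frc (g /' d.c) fun s => [bsD g s D ¿
        frc (m +' s) fun m' => ih m' (ni +' 1) [s %' 2 =' 1 ¿ true : top] I : true] : false] :
      ih m ni top I]) D 0 0 false []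

def fin (K g : ℕ) (D : List Dn) : Bool :=
  [5616 ≤' g ¿ [lcmL D Dn.c =' g ¿ frc (g *' sumL D fun d =>
    [d.c =' d.p ¿ [(d.p -' 1) /' cntD D d.p %' 2 =' 0 ¿ 1 : 0] : 0]) fun lo => flags K g lo D :
    true] : true]

def go (ih : ℕ → ℕ → ℕ → ℕ → List Ty → List Sl → List Dn → Bool) (rn rd c fp : ℕ) (U : List Ty)
    (N : List Sl) (D : List Dn) : Bool :=
  frc (rn *' c) fun u => [u ≤' rd ¿ true : frc (u -' rd) fun u => frc (rd *' c) fun d =>
    frc (Nat.gcd u d) fun g => frc (u /' g) fun u => frc (d /' g) fun d => ih u d c fp U N D]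

def fpr (p c : ℕ) : ℕ := [c %' (p *' p) =' 0 ¿ 0 : p]

def skp (W V fp p : ℕ) : Bool :=
  [fp =' 0 ¿ [W %' p =' 0 ¿ [V %' (p *' p) =' 0 ¿ false : true] : false] :
    [fp =' p ¿ false : true]]

def moves (ih : ℕ → ℕ → ℕ → ℕ → List Ty → List Sl → List Dn → Bool) (rn rd W V fp lo hi : ℕ)
    (U : List Ty) (N : List Sl) (D : List Dn) : Bool :=
  [pick N (fun s _ => skp W V fp s.p) (fun s N' => pows s.p hi (fun c => [lo ≤' c ¿
      [(sumL s.kids (fun k => c /' k.2) +' 1) %' s.b =' 0 ¿ frc (fpr s.p c) fun f =>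
        go ih rn rd c f U N'
          (⟨s.p, 1, c, anyL s.kids fun k => [k.2 %' 4 =' 0 ¿ false : true]⟩ :: D) : true] : true])
      (s.a *' s.b)) ¿
    pick U (fun t pre => [same t pre ¿ true : [t.q =' 1 ¿ skp W V fp t.p : [fp =' 0 ¿ false : true]]])
      (fun t U' => [t.q =' 1 ¿ pows t.p hi (fun c => [lo ≤' c ¿ frc (fpr t.p c) fun f =>
          go ih rn rd c f U' N (⟨t.p, 1, c, false⟩ :: D) : true]) t.a :
        pows t.p (hi /' t.q) (fun x => pows t.q (hi /' x) (fun y => frc (x *' y) fun c =>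
          [lo ≤' c ¿ att t.p t.q x y c U' N fun U N => att t.q t.p y x c U N fun U N =>
            go ih rn rd c 0 U N (⟨t.p, t.q, c, false⟩ :: D) : true]) t.q) t.p]) : false]

def hiB (n rn rd : ℕ) : ℕ :=
  frc (rd *' (n +' 2) /' rn) fun h => [rn *' 5616 ≤' rd ¿ h :
    frc (rd *' (n +' 1) *' 5616 /' (rn *' 5616 -' rd)) fun h' => [h ≤' h' ¿ h : h']]

def node (ih : ℕ → ℕ → ℕ → ℕ → List Ty → List Sl → List Dn → Bool) (n rn rd lc fp : ℕ)
    (U : List Ty) (N : List Sl) (D : List Dn) : Bool :=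
  frc (prodL U fun t => [t.q =' 1 ¿ 1 : t.p *' t.q]) fun W =>
  frc (prodL U (fun t => [t.q =' 1 ¿ t.p : 1]) *' prodL N Sl.p) fun V =>
  [V %' fp =' 0 ¿ moves ih rn rd W V fp lc lc U N D :
    [1099511627776 *' rn ≤' mass W lc U N *' rd ¿ frc (hiB n rn rd) fun hi =>
      frc (mx (rd /' rn +' 1) lc) fun lo => moves ih rn rd W V 0 lo hi U N D : true]]

/-- The second stage: `n` classes are still to be placed. -/
def srch (K n : ℕ) : ℕ → ℕ → ℕ → ℕ → List Ty → List Sl → List Dn → Bool :=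
  Nat.rec (fun rn rd _ _ _ _ D => frc (rd /' rn) fun g => fin K g D) (fun n ih => node ih n) n

/-! First stage: the list of types `(p, q)`, in decreasing order. -/

def cntT (T : List (ℕ × ℕ)) (p : ℕ) : ℕ := sumL T fun t => [t.1 =' p ¿ [t.2 =' 1 ¿ 1 : 0] : 0]

/-- `f` on `c * p ^ e`, `e ≤ n`. -/
def upto (n p : ℕ) (f : ℕ → List ℕ → List ℕ) (c : ℕ) (l : List ℕ) : List ℕ :=
  Nat.rec (motive := fun _ => ℕ → List ℕ) (fun c => f c l)
    (fun _ ih c => frc c fun c => f c (ih (c *' p))) n c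

def memL (x : ℕ) (l : List ℕ) : Bool := anyL l fun y => x =' y

def frcL (l : List ℕ) : (List ℕ → Bool) → Bool :=
  List.rec (fun k => k []) (fun a _ ih k => frc a fun a => ih fun l =>
    [memL a l ¿ k l : k (a :: l)]) l

def avs (T : List (ℕ × ℕ)) : List ℕ :=
  List.rec [1] (fun t _ ih => upto (cntT T t.1) t.1 (upto (cntT T t.2) t.2 List.cons) 1 ih) T

def sylOK (T : List (ℕ × ℕ)) (A : List ℕ) (p : ℕ) : Bool :=
  frc (cntT T p) fun n => anyL A fun a => [2 ≤' a ¿ n *' a +' 1 =' p : false]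

def comp (T : List (ℕ × ℕ)) (p : ℕ) : ℕ :=
  lcmL T fun t => [t.2 =' 1 ¿ 1 : [t.1 =' p ¿ t.2 : [t.2 =' p ¿ t.1 : 1]]]

def lbd (T : List (ℕ × ℕ)) (p : ℕ) : ℕ := frc (comp T p) fun c => p *' [c ≤' p ¿ c : p]

def mkTy (T : List (ℕ × ℕ)) (A : List ℕ) (t : ℕ × ℕ) (k : Ty → Bool) : Bool :=
  [t.2 =' 1 ¿ frc [sylOK T A t.1 ¿ t.1 : t.1 *' t.1] fun a => frc (lbd T t.1) fun b =>
    k ⟨t.1, 1, a, b⟩ : k ⟨t.1, t.2, 0, 0⟩]

def stage2 (K : ℕ) (T : List (ℕ × ℕ)) : Bool :=
  [anyL T (fun t => [t.2 =' 1 ¿ anyL T fun u => [u.2 =' 1 ¿ [3 ≤' u.1 ¿ u.1 +' 1 ≤' t.1 : false] :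
      false] : false]) ¿ frcL (avs T) fun A =>
    List.rec (motive := fun _ => List Ty → Bool) (fun U => srch K (K -' 1) 1 1 5 0 U [] [])
      (fun t _ ih U => mkTy T A t fun y => ih (y :: U)) T [] : true]

def isPr (n : ℕ) : Bool :=
  allL [2, 3, 5, 7, 11, 13, 17, 19, 23, 29, 31, 37, 41, 43, 47] fun d =>
    [n %' d =' 0 ¿ n =' d : true]

/-- Lower bound for the centraliser order of a class of type `t` when the next type is `≥ o`. -/
def cmin (T : List (ℕ × ℕ)) (A : List ℕ) (o : ℕ) (t : ℕ × ℕ) : ℕ :=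
  [t.2 =' 1 ¿ [t.1 =' 2 ¿ 8 : [[o ≤' t.1 ¿ true : sylOK T A t.1] ¿
    frc (lbd T t.1) fun b => [b =' 3 ¿ [o ≤' 6 ¿ 6 : 9] : b] : t.1 *' t.1]] : t.1 *' t.2]

def tryT (ih : List (ℕ × ℕ) → Bool) (n : ℕ) (T : List (ℕ × ℕ)) (A : List ℕ) (p q : ℕ) : Bool :=
  frc (p *' q) fun o => [1099511627776 ≤' sumL T (fun t => rc (cmin T A o t)) +'
    (n +' 1) *' rc (mx o 5) +' rc 5616 ¿ ih ((p, q) :: T) : true]

def node1 (ih : List (ℕ × ℕ) → Bool) (n : ℕ) (T : List (ℕ × ℕ)) : Bool :=
  List.rec false (fun l _ _ => frc (l.1 *' l.2) fun o => frcL (avs T) fun A =>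
    [tryT ih n T A l.1 l.2 ¿ [frcL (List.rec [] (fun t _ r => [t.2 =' 1 ¿ t.1 :: r : r]) T) fun S =>
      allL S fun p => allL S fun q => [q ≤' p ¿ true : [p *' q ≤' o ¿ true : tryT ih n T A p q]] ¿
    frcL (List.rec [] (fun a _ r => Nat.rec r (fun m r => ((m +' 1) *' a +' 1) :: r) (n +' 1)) A)
      fun S => allL S fun p => [p ≤' o ¿ true : [isPr p ¿ tryT ih n T A p 1 : true]] :
      false] : false]) T

/-- The first stage: `n + r` more types are to be chosen; `f` is applied after `n` of them. -/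
def stage1 (f : List (ℕ × ℕ) → Bool) (r n : ℕ) : List (ℕ × ℕ) → Bool :=
  Nat.rec f (fun n ih T => frc (n +' r) fun m => node1 ih m T) n

def enc (T : List (ℕ × ℕ)) : ℕ := List.rec 0 (fun t _ r => (r *' 1024 +' t.1) *' 1024 +' t.2) T

def dec (n c : ℕ) (k : List (ℕ × ℕ) → Bool) : Bool :=
  Nat.rec (motive := fun _ => ℕ → (List (ℕ × ℕ) → Bool) → Bool) (fun _ k => k [])
    (fun _ ih c k => frc (c %' 1024) fun q => frc (c /' 1024 %' 1024) fun p =>
      frc (c /' 1048576) fun c => ih c fun T => k ((p, q) :: T)) n c k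

/-- `T` is coded by a member of `S`. -/
def coded (n : ℕ) (S : List ℕ) (T : List (ℕ × ℕ)) : Bool :=
  frc (enc T) fun c => [memL c S ¿ dec n c fun T' => T' == T : false]

end

/-! Specifications of the primitives. -/

variable {α : Type}

theorem br {β : Type} (b : Bool) (x y : β) :
    Bool.rec (motive := fun _ => β) y x b = if b = true then x else y := by cases b <;> rfl

theorem nadd (a b : ℕ) : Nat.add a b = a + b := rfl
theorem nsub (a b : ℕ) : Nat.sub a b = a - b := rfl
theorem nmul (a b : ℕ) : Nat.mul a b = a * b := rfl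
theorem ndiv (a b : ℕ) : Nat.div a b = a / b := rfl
theorem nmod (a b : ℕ) : Nat.mod a b = a % b := rfl

theorem allL_iff {l : List α} {f : α → Bool} : allL l f = true ↔ ∀ a ∈ l, f a = true := by
  induction l with
  | nil => simp [allL]
  | cons a t ih =>
    show (Bool.rec (motive := fun _ => Bool) false (allL t f) (f a)) = true ↔ _
    rw [br]; split_ifs with h <;> simp [h, ih]

theorem anyL_iff {l : List α} {f : α → Bool} : anyL l f = true ↔ ∃ a ∈ l, f a = true := by
  induction l with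
  | nil => simp [anyL]
  | cons a t ih =>
    show (Bool.rec (motive := fun _ => Bool) (anyL t f) true (f a)) = true ↔ _
    rw [br]; split_ifs with h <;> simp [h, ih]

theorem sumL_eq (l : List α) (f : α → ℕ) : sumL l f = (l.map f).sum := by
  induction l with
  | nil => rfl
  | cons a t ih => exact congrArg (f a + ·) ih

theorem prodL_eq (l : List α) (f : α → ℕ) : prodL l f = (l.map f).prod := by
  induction l with
  | nil => rfl
  | cons a t ih => exact congrArg (f a * ·) ih

theorem lcm_eq (x y : ℕ) : x / x.gcd y * y = x.lcm y := by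
  rw [Nat.lcm, Nat.div_mul_right_comm (Nat.gcd_dvd_left x y)]

theorem lcmL_cons (a : α) (t : List α) (f : α → ℕ) : lcmL (a :: t) f = (lcmL t f).lcm (f a) := by
  unfold lcmL
  simp only [frc_eq]
  exact lcm_eq _ _

theorem dvd_lcmL {l : List α} (f : α → ℕ) {a : α} (h : a ∈ l) : f a ∣ lcmL l f := by
  induction l with
  | nil => cases h
  | cons b t ih =>
    rw [lcmL_cons]
    rcases List.mem_cons.1 h with rfl | h
    exacts [Nat.dvd_lcm_right _ _, (ih h).trans (Nat.dvd_lcm_left _ _)]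

theorem lcmL_dvd {l : List α} {f : α → ℕ} {n : ℕ} (h : ∀ a ∈ l, f a ∣ n) : lcmL l f ∣ n := by
  induction l with
  | nil => exact one_dvd n
  | cons b t ih =>
    rw [lcmL_cons]
    exact Nat.lcm_dvd (ih fun a ha => h a (.tail _ ha)) (h b (.head _))

theorem rapp_eq (pre t : List α) (k : List α → Bool) : rapp pre t k = k (pre.reverse ++ t) := by
  induction pre generalizing t with
  | nil => rfl
  | cons x s ih => exact (ih (x :: t)).trans (by simp)

theorem pick_spec {l : List α} {sk f : α → List α → Bool} (h : pick l sk f = true) {a : α}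
    (ha : a ∈ l) (hs : ∀ pre : List α, (∀ b ∈ pre, b ∈ l) → a ∉ pre → sk a pre = false) :
    ∃ l', l.Perm (a :: l') ∧ f a l' = true := by
  obtain ⟨s, t, rfl, hn⟩ := List.eq_append_cons_of_mem ha
  have key : ∀ (s pre : List α), List.rec (motive := fun _ => List α → Bool) (fun _ => true)
      (fun a t ih pre => Bool.rec (motive := fun _ => Bool) false (ih (a :: pre))
        (Bool.rec (motive := fun _ => Bool) (rapp pre t (f a)) true (sk a pre))) (s ++ a :: t) pre =
      true → sk a (s.reverse ++ pre) = false → f a ((s.reverse ++ pre).reverse ++ t) = true := by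
    intro s
    induction s with
    | nil =>
      intro pre h1 h2
      simp only [List.nil_append, br, List.reverse_nil] at h1 h2 ⊢
      rw [h2, rapp_eq] at h1
      by_contra k
      simp [k] at h1
    | cons b s ih =>
      intro pre h1 h2
      simp only [List.cons_append, br] at h1
      have := ih (b :: pre) (by
        simp only [br]; split_ifs at h1 <;> first | exact h1 | cases h1) (by simpa using h2)
      simpa using this
  refine ⟨_, ?_, key s [] h (hs _ (fun b hb => by simp at hb; simp [hb]) (by simpa using hn))⟩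
  simp

theorem pows_spec {p hi c : ℕ} {f : ℕ → Bool} (h : pows p hi f c = true) (hp : 0 < p) (e : ℕ)
    (he : c * p ^ e ≤ hi) : f (c * p ^ e) = true := by
  unfold pows at h
  generalize 80 = n at h
  induction n generalizing c e with
  | zero => cases h
  | succ n ih =>
    simp only [frc_eq, br, Nat.ble_eq, nmul] at h ih
    rw [if_pos (le_trans (Nat.le_mul_of_pos_right c (pow_pos hp e)) he)] at h
    split_ifs at h with k
    cases e with
    | zero => simpa using k
    | succ e =>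
      rw [pow_succ', ← mul_assoc] at he ⊢
      exact ih e he h

theorem upw_le {p lc l : ℕ} (hp : 0 < p) (e : ℕ) (h : lc ≤ l * p ^ e) : upw p lc l ≤ l * p ^ e := by
  unfold upw
  generalize 40 = n
  induction n generalizing l e with
  | zero => exact Nat.le_mul_of_pos_right l (pow_pos hp e)
  | succ n ih =>
    simp only [frc_eq, br, Nat.ble_eq, nmul] at ih ⊢
    split_ifs with k
    · exact Nat.le_mul_of_pos_right l (pow_pos hp e)
    cases e with
    | zero => exact absurd (by simpa using h) k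
    | succ e =>
      rw [pow_succ', ← mul_assoc] at h ⊢
      exact ih e h

theorem upm_le {lc l c : ℕ} (hd : l ∣ c) (h : lc ≤ c) (h0 : 0 < c) : upm lc l ≤ c := by
  simp only [upm, frc_eq, br, Nat.ble_eq, nmul, ndiv, nsub, nadd]
  split_ifs with k
  · exact Nat.le_of_dvd h0 hd
  obtain ⟨m, rfl⟩ := hd
  have hl : 0 < l := Nat.pos_of_mul_pos_right h0
  rw [mul_comm l m] at h ⊢
  refine Nat.mul_le_mul_right _ (Nat.lt_succ_iff.1 ((Nat.div_lt_iff_lt_mul hl).2 ?_))
  rw [Nat.succ_mul]; omega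

theorem mx_eq (a b : ℕ) : mx a b = max a b := by
  simp only [mx, frc_eq, br, Nat.ble_eq]; split_ifs <;> omega

theorem memL_iff {x : ℕ} {l : List ℕ} : memL x l = true ↔ x ∈ l := by simp [memL, anyL_iff]

theorem frcL_spec {l : List ℕ} {k : List ℕ → Bool} (h : frcL l k = true) :
    ∃ l', (∀ a, a ∈ l' ↔ a ∈ l) ∧ k l' = true := by
  induction l generalizing k with
  | nil => exact ⟨[], fun _ => Iff.rfl, h⟩
  | cons a t ih =>
    unfold frcL at h ih
    simp only [frc_eq] at h ih
    obtain ⟨l', h1, h2⟩ := ih h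
    rw [br] at h2
    split_ifs at h2 with m
    · exact ⟨l', fun b => by
        rw [List.mem_cons, ← h1]; exact ⟨.inr, fun k => k.elim (· ▸ memL_iff.1 m) id⟩, h2⟩
    · exact ⟨a :: l', fun b => by simp [h1], h2⟩

theorem coded_spec {n : ℕ} {S : List ℕ} {T : List (ℕ × ℕ)} {f : List (ℕ × ℕ) → Bool}
    (h : coded n S T = true) (hS : ∀ c ∈ S, dec n c f = true) : f T = true := by
  have key : ∀ (n c : ℕ), ∃ T', ∀ k, dec n c k = k T' := fun n => by
    induction n with
    | zero => exact fun c => ⟨[], fun _ => rfl⟩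
    | succ n ih =>
      intro c
      obtain ⟨T', h⟩ := ih (c / 1048576)
      refine ⟨(c / 1024 % 1024, c % 1024) :: T', fun k => ?_⟩
      unfold dec at h ⊢
      simp only [frc_eq] at h ⊢
      exact h _
  simp only [coded, frc_eq, br] at h
  split_ifs at h with m
  obtain ⟨T', e⟩ := key n (enc T)
  have := hS _ (memL_iff.1 m)
  rw [e] at h this
  rwa [← eq_of_beq h]

end H15.KG
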