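import Cfsg.Agent.H15.KGSpec
import Cfsg.Agent.H23.Frobenius

/-! Tower KG: the kit (parts of elements, representatives, kids, class sums). -/

set_option autoImplicit false

namespace H15.KG

open Classical Finset

universe u

variable {G : Type u} [Group G]

theorem cc_conj {x y : G} (h : IsConj x y) : cc x = cc y := by
  obtain ⟨g, rfl⟩ := isConj_iff.1 h
  refine Nat.card_congr ⟨fun z => ⟨g * z * g⁻¹, ?_⟩, fun z => ⟨g⁻¹ * z * g, ?_⟩, fun z => ?_, fun z => ?_⟩
  · have := Subgroup.mem_centralizer_singleton_iff.1 z.2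
    rw [Subgroup.mem_centralizer_singleton_iff]
    calc g * z * g⁻¹ * (g * x * g⁻¹) = g * (z * x) * g⁻¹ := by group
      _ = _ := by rw [this]; group
  · have := Subgroup.mem_centralizer_singleton_iff.1 z.2
    rw [Subgroup.mem_centralizer_singleton_iff]
    calc g⁻¹ * z * g * x = g⁻¹ * (z * (g * x * g⁻¹)) * g := by group
      _ = _ := by rw [this]; group
  · ext; simp [mul_assoc]
  · ext; simp [mul_assoc]

theorem ord_conj {x y : G} (h : IsConj x y) : orderOf x = orderOf y := by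
  obtain ⟨g, rfl⟩ := isConj_iff.1 h
  exact ((MulAut.conj g).orderOf_eq x).symm

theorem p1_conj {x y : G} (h : IsConj x y) : p1 x = p1 y := by rw [p1, p1, ord_conj h]

theorem p2_conj {x y : G} (h : IsConj x y) : p2 x = p2 y := by
  rw [p2, p2, ord_conj h, p1_conj h]

theorem mk_rep (i : Cl G) : ConjClasses.mk (rep i) = i.1 := Quotient.out_eq _

theorem mk_eq_one {x : G} : ConjClasses.mk x = 1 ↔ x = 1 := by
  rw [ConjClasses.one_eq_mk_one, ConjClasses.mk_eq_mk_iff_isConj, isConj_one_left]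

theorem rep_ne (i : Cl G) : rep i ≠ 1 := fun h => i.2 (by rw [← mk_rep, mk_eq_one]; exact h)

theorem rep_inj {i j : Cl G} (h : IsConj (rep i) (rep j)) : i = j :=
  Subtype.ext (by rw [← mk_rep, ← mk_rep, ConjClasses.mk_eq_mk_iff_isConj]; exact h)

theorem cls_eq_iff {x : G} (hx : x ≠ 1) {d i : Cl G} : cls x d = i ↔ IsConj x (rep i) := by
  rw [cls, dif_neg (mt mk_eq_one.1 hx), Subtype.ext_iff, ← mk_rep i]
  exact ConjClasses.mk_eq_mk_iff_isConj

theorem conj_cls {x : G} (hx : x ≠ 1) (d : Cl G) : IsConj x (rep (cls x d)) :=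
  (cls_eq_iff hx).1 rfl

theorem exists_rep {x : G} (hx : x ≠ 1) : ∃ i : Cl G, IsConj x (rep i) :=
  ⟨⟨ConjClasses.mk x, mt mk_eq_one.1 hx⟩, by
    rw [← ConjClasses.mk_eq_mk_iff_isConj, mk_rep]⟩

theorem part_conj (s : ℕ) (g x : G) : part s (g * x * g⁻¹) = g * part s x * g⁻¹ := by
  rw [part, part, conj_pow, ← ord_conj (isConj_iff.2 ⟨g, rfl⟩)]

theorem part_isConj (s : ℕ) {x y : G} (h : IsConj x y) : IsConj (part s x) (part s y) := by
  obtain ⟨g, rfl⟩ := isConj_iff.1 h
  exact isConj_iff.2 ⟨g, (part_conj s g x).symm⟩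

theorem part_mem (s : ℕ) (x : G) : part s x ∈ Subgroup.zpowers x :=
  Subgroup.pow_mem _ (Subgroup.mem_zpowers x) _

variable [Finite G]

theorem ord_dvd_cc (x : G) : orderOf x ∣ cc x := by
  rw [← Nat.card_zpowers]
  exact Subgroup.card_dvd_of_le (Subgroup.zpowers_le.2
    (Subgroup.mem_centralizer_singleton_iff.2 rfl))

theorem cc_dvd_pow (x : G) (n : ℕ) : cc x ∣ cc (x ^ n) :=
  Subgroup.card_dvd_of_le fun y hy => Subgroup.mem_centralizer_singleton_iff.2
    (Commute.pow_right (Subgroup.mem_centralizer_singleton_iff.1 hy) n)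

/-- The `s`-part of a commuting product of an `s`-element and an `s'`-element. -/
theorem part_mul {s e : ℕ} (hs : s.Prime) {u v : G} (h : Commute u v) (hu : orderOf u = s ^ e)
    (hv : ¬ s ∣ orderOf v) : part s (u * v) = u := by
  have co : (s ^ e).Coprime (orderOf v) := (hs.coprime_iff_not_dvd.2 hv).pow_left e
  have ho : orderOf (u * v) = s ^ e * orderOf v := by
    rw [h.orderOf_mul_eq_mul_orderOf_of_coprime (hu ▸ co), hu]
  have hf : (orderOf (u * v)).factorization s = e := by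
    rw [ho, Nat.factorization_mul (pow_ne_zero _ hs.ne_zero) (orderOf_pos v).ne',
      Finsupp.add_apply, hs.factorization_pow, Finsupp.single_eq_same,
      Nat.factorization_eq_zero_of_not_dvd hv, add_zero]
  rw [part, hf, ho, Nat.mul_div_cancel_left _ (pow_pos hs.pos e), h.mul_pow,
    orderOf_dvd_iff_pow_eq_one.1 (dvd_pow_self (orderOf v)
      (Nat.totient_pos.2 (pow_pos hs.pos e)).ne'), mul_one]
  conv_rhs => rw [← pow_one u]
  rw [pow_eq_pow_iff_modEq, hu]
  exact Nat.ModEq.pow_totient co.symm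

theorem ord_part {s : ℕ} (hs : s.Prime) (x : G) : orderOf (part s x) = ordProj[s] (orderOf x) := by
  have h0 := (orderOf_pos x).ne'
  have co := Nat.coprime_ordCompl hs h0
  have e := Nat.ordProj_mul_ordCompl_eq_self (orderOf x) s
  have ht := (Nat.totient_pos.2 (Nat.ordProj_pos (orderOf x) s)).ne'
  have g : (orderOf x).gcd (ordCompl[s] (orderOf x) ^ (ordProj[s] (orderOf x)).totient) =
      ordCompl[s] (orderOf x) := by
    conv_lhs => enter [1]; rw [← e]
    rw [Nat.Coprime.gcd_mul_left_cancel _ ((co.pow_left _).pow_right _),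
      Nat.gcd_eq_left (dvd_pow_self _ ht)]
  rw [part, orderOf_pow' _ (pow_ne_zero _ (Nat.ordCompl_pos s h0).ne'), g]
  exact Nat.div_eq_of_eq_mul_left (Nat.ordCompl_pos s h0) e.symm

omit [Finite G] in
theorem p1_prime {x : G} (hx : x ≠ 1) : (p1 x).Prime := Nat.minFac_prime (mt orderOf_eq_one_iff.1 hx)

theorem p1_of_pow {x : G} {s e : ℕ} (hs : s.Prime) (h : orderOf x = s ^ (e + 1)) :
    p1 x = s ∧ p2 x = 1 := by
  have a : p1 x = s := by rw [p1, h, hs.pow_minFac (by omega)]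
  rw [p2, a, h, hs.factorization_pow, Finsupp.single_eq_same,
    Nat.div_self (pow_pos hs.pos _), Nat.minFac_one]
  exact ⟨rfl, rfl⟩

theorem pow_of_p2 {x : G} (hx : x ≠ 1) (h : p2 x = 1) : ∃ e, orderOf x = p1 x ^ (e + 1) := by
  have e := Nat.ordProj_mul_ordCompl_eq_self (orderOf x) (p1 x)
  rw [Nat.minFac_eq_one_iff.1 h, mul_one] at e
  cases k : (orderOf x).factorization (p1 x) with
  | zero => rw [k, pow_zero] at e; exact absurd (orderOf_eq_one_iff.1 e.symm) hx
  | succ n => exact ⟨n, by rw [← k, e]⟩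

theorem p12_of_mul {x : G} {r s e f : ℕ} (hr : r.Prime) (hs : s.Prime) (hrs : r < s)
    (h : orderOf x = r ^ (e + 1) * s ^ (f + 1)) : p1 x = r ∧ p2 x = s := by
  have a : p1 x = r := by
    have h1 : orderOf x ≠ 1 := fun k => hr.one_lt.ne' (Nat.dvd_one.1 (k ▸ h ▸
      (dvd_pow_self r (by omega)).mul_right _))
    have hp := Nat.minFac_prime h1
    have hl : (orderOf x).minFac ≤ r := Nat.minFac_le_of_dvd hr.two_le
      (h ▸ (dvd_pow_self r (by omega)).mul_right _)
    rcases (Nat.Prime.dvd_mul hp).1 ((Nat.minFac_dvd (orderOf x)).trans h.dvd) with k | k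
    · exact (Nat.prime_dvd_prime_iff_eq hp hr).1 (hp.dvd_of_dvd_pow k)
    · have := (Nat.prime_dvd_prime_iff_eq hp hs).1 (hp.dvd_of_dvd_pow k)
      omega
  refine ⟨a, ?_⟩
  rw [p2, a, h, Nat.factorization_mul (pow_ne_zero _ hr.ne_zero) (pow_ne_zero _ hs.ne_zero),
    Finsupp.add_apply, hr.factorization_pow, hs.factorization_pow, Finsupp.single_eq_same,
    Finsupp.single_eq_of_ne hrs.ne, add_zero, Nat.mul_div_cancel_left _ (pow_pos hr.pos _),
    hs.pow_minFac (by omega)]

/-- The shape of an element order with two primes. -/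
theorem ord_of_p2 (hN : NT G) {x : G} (h : p2 x ≠ 1) : (p1 x).Prime ∧ (p2 x).Prime ∧ p1 x < p2 x ∧
    ∃ e f, orderOf x = p1 x ^ (e + 1) * p2 x ^ (f + 1) := by
  have h0 := (orderOf_pos x).ne'
  have hx : x ≠ 1 := by rintro rfl; simp [p2] at h
  have hp := p1_prime hx
  have hm : ordCompl[p1 x] (orderOf x) ≠ 1 := mt Nat.minFac_eq_one_iff.2 h
  have hq : (p2 x).Prime := Nat.minFac_prime hm
  have hd : p2 x ∣ ordCompl[p1 x] (orderOf x) := Nat.minFac_dvd _
  have hn := Nat.not_dvd_ordCompl hp h0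
  have hne : p1 x ≠ p2 x := fun k => hn (k ▸ hd)
  have hdo := hd.trans (Nat.ordCompl_dvd _ _)
  refine ⟨hp, hq, lt_of_le_of_ne (Nat.minFac_le_of_dvd hq.two_le hdo) hne, ?_⟩
  have hpo : p1 x ∣ orderOf x := Nat.minFac_dvd _
  have hs : (orderOf x).primeFactors = {p1 x, p2 x} :=
    (eq_of_subset_of_card_le (by
      intro a ha
      rcases mem_insert.1 ha with rfl | ha
      · exact Nat.mem_primeFactors.2 ⟨hp, hpo, h0⟩
      · rw [mem_singleton.1 ha]; exact Nat.mem_primeFactors.2 ⟨hq, hdo, h0⟩)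
      (by rw [card_pair hne]; exact hN x)).symm
  have e := Nat.prod_factorization_pow_eq_self h0
  rw [Finsupp.prod, Nat.support_factorization, hs, prod_pair hne] at e
  obtain ⟨a, ha⟩ := Nat.exists_eq_succ_of_ne_zero (hp.factorization_pos_of_dvd h0 hpo).ne'
  obtain ⟨b, hb⟩ := Nat.exists_eq_succ_of_ne_zero (hq.factorization_pos_of_dvd h0 hdo).ne'
  exact ⟨a, b, by rw [← e, ha, hb]⟩

/-- An element whose order has two primes is the product of its two parts. -/
theorem part_mul_part {x : G} {r s e f : ℕ} (hr : r.Prime) (hs : s.Prime) (hrs : r ≠ s)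
    (h : orderOf x = r ^ e * s ^ f) : part r x * part s x = x ∧ Commute (part r x) (part s x) ∧
      orderOf (part r x) = r ^ e ∧ orderOf (part s x) = s ^ f := by
  have fa : ∀ {r s e f : ℕ}, r.Prime → s.Prime → r ≠ s → (r ^ e * s ^ f).factorization r = e :=
    fun hr hs hrs => by
      rw [Nat.factorization_mul (pow_ne_zero _ hr.ne_zero) (pow_ne_zero _ hs.ne_zero),
        Finsupp.add_apply, hr.factorization_pow, hs.factorization_pow, Finsupp.single_eq_same,
        Finsupp.single_eq_of_ne hrs, add_zero]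
  have o1 : orderOf (part r x) = r ^ e := by rw [ord_part hr, h, fa hr hs hrs]
  have o2 : orderOf (part s x) = s ^ f := by rw [ord_part hs, h, mul_comm, fa hs hr hrs.symm]
  refine ⟨?_, (Commute.refl x).pow_pow _ _, o1, o2⟩
  have co : (r ^ e).Coprime (s ^ f) := Nat.coprime_pow_primes _ _ hr hs hrs
  have f2 : (r ^ e * s ^ f).factorization s = f := by rw [mul_comm, fa hs hr hrs.symm]
  rw [part, part, ← pow_add, h, fa hr hs hrs, f2, Nat.mul_div_cancel_left _ (pow_pos hr.pos _),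
    Nat.mul_div_cancel _ (pow_pos hs.pos _)]
  conv_rhs => rw [← pow_one x]
  rw [pow_eq_pow_iff_modEq, h, ← Nat.modEq_and_modEq_iff_modEq_mul co]
  have z : ∀ {a : ℕ} (b : ℕ), 0 < b → a ^ b.totient ≡ 0 [MOD a] := fun b hb =>
    (Nat.modEq_zero_iff_dvd).2 (dvd_pow_self _ (Nat.totient_pos.2 hb).ne')
  exact ⟨(Nat.ModEq.pow_totient co.symm).add (z _ (pow_pos hs.pos _)),
    by simpa using (z _ (pow_pos hr.pos _)).add (Nat.ModEq.pow_totient co)⟩

/-- Kids in terms of elements. -/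
theorem kid_iff (hN : NT G) {i j : Cl G} {s : ℕ} : (dat G).Kid i j s ↔ p2 (rep i) = 1 ∧ s.Prime ∧
    s ≠ p1 (rep i) ∧ ∃ (w : G) (f : ℕ), orderOf w = s ^ (f + 1) ∧ Commute (rep i) w ∧
      IsConj (rep i * w) (rep j) := by
  have ne1 : ∀ {u : G} {r e : ℕ}, r.Prime → orderOf u = r ^ (e + 1) → u ≠ 1 := fun hr h k => by
    rw [k, orderOf_one] at h
    exact (Nat.one_lt_pow (by omega) hr.one_lt).ne h
  constructor
  · rintro ⟨h, hk⟩
    obtain ⟨hp, hq, hl, e, f, ho⟩ := ord_of_p2 hN h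
    obtain ⟨a, b, c, d⟩ := part_mul_part hp hq hl.ne ho
    have key : ∀ {u v : G} {r s e f : ℕ}, r.Prime → s.Prime → r ≠ s → Commute u v → u * v = rep j →
        orderOf u = r ^ (e + 1) → orderOf v = s ^ (f + 1) → cls u j = i → p2 (rep i) = 1 ∧ s.Prime ∧
        s ≠ p1 (rep i) ∧ ∃ (w : G) (f : ℕ), orderOf w = s ^ (f + 1) ∧ Commute (rep i) w ∧
        IsConj (rep i * w) (rep j) := fun {u v r s e f} hr hs hrs huv hx hu hv hi => by
      have hc := (cls_eq_iff (ne1 hr hu)).1 hi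
      obtain ⟨k1, k2⟩ := p1_of_pow hr ((ord_conj hc).symm.trans hu)
      obtain ⟨g, hg⟩ := isConj_iff.1 hc
      refine ⟨k2, hs, k1 ▸ hrs.symm, g * v * g⁻¹, f,
        (ord_conj (isConj_iff.2 ⟨g, rfl⟩)).symm.trans hv, ?_, ?_⟩
      · rw [← hg]; exact huv.map (MulAut.conj g)
      · rw [← hg, ← hx]; exact isConj_iff.2 ⟨g⁻¹, by group⟩
    rcases hk with ⟨hi, rfl⟩ | ⟨hi, rfl⟩
    · exact key hp hq hl.ne b a c d hi
    · exact key hq hp hl.ne' b.symm (b.eq ▸ a) d c hi
  · rintro ⟨h2, hs, hne, w, f, hw, hc, hj⟩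
    obtain ⟨e, he⟩ := pow_of_p2 (rep_ne i) h2
    have hp := p1_prime (rep_ne i)
    have ho : orderOf (rep j) = p1 (rep i) ^ (e + 1) * s ^ (f + 1) := by
      rw [← ord_conj hj, hc.orderOf_mul_eq_mul_orderOf_of_coprime
        (he ▸ hw ▸ Nat.coprime_pow_primes _ _ hp hs hne.symm), he, hw]
    have hu : IsConj (rep i) (part (p1 (rep i)) (rep j)) := by
      have := part_isConj (p1 (rep i)) hj
      rwa [part_mul hp hc he (hw ▸ fun k => hne.symm
        ((Nat.prime_dvd_prime_iff_eq hp hs).1 (hp.dvd_of_dvd_pow k)))] at this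
    have h1 : part (p1 (rep i)) (rep j) ≠ 1 := ne1 hp ((ord_conj hu).symm.trans he)
    rcases hne.lt_or_gt with hl | hl
    · obtain ⟨a, b⟩ := p12_of_mul hs hp hl (ho.trans (mul_comm _ _))
      exact ⟨fun k => hp.one_lt.ne' (b.symm.trans k), .inr
        ⟨by show cls (part (p2 _) _) _ = _; rw [b]; exact (cls_eq_iff h1).2 hu.symm, a.symm⟩⟩
    · obtain ⟨a, b⟩ := p12_of_mul hp hs hl ho
      exact ⟨fun k => hs.one_lt.ne' (b.symm.trans k), .inl
        ⟨by show cls (part (p1 _) _) _ = _; rw [a]; exact (cls_eq_iff h1).2 hu.symm, b.symm⟩⟩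

theorem cc_pos (x : G) : 0 < cc x := Nat.card_pos

theorem cc_dvd (x : G) : cc x ∣ Nat.card G := Subgroup.card_subgroup_dvd_card _

/-- Class sizes. -/
theorem card_class [Fintype G] (x : G) : #{y | IsConj x y} = Nat.card G / cc x := by
  have h := H23.card_isConj_mul_card_centralizer x
  rw [Nat.card_eq_fintype_card, Fintype.card_subtype] at h
  exact (Nat.div_eq_of_eq_mul_left (cc_pos x) h.symm).symm

/-- Sums of class functions. -/
theorem sum_class [Fintype G] (f : G → ℕ) (hf : ∀ x y, IsConj x y → f x = f y) :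
    ∑ x, f x = f 1 + ∑ i : Cl G, Nat.card G / cc (rep i) * f (rep i) := by
  rw [← add_sum_erase _ _ (mem_univ (1 : G))]
  congr 1
  by_cases h : Nonempty (Cl G)
  · obtain ⟨d⟩ := h
    rw [← sum_fiberwise_of_maps_to (g := fun x => cls x d) (t := univ) fun _ _ => mem_univ _]
    refine sum_congr rfl fun i _ => ?_
    rw [← card_class, ← smul_eq_mul, ← sum_const]
    refine sum_congr (ext fun y => ?_) fun y hy => (hf _ _ (mem_filter.1 hy).2).symm
    simp only [mem_filter, mem_erase, mem_univ, and_true, true_and]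
    exact ⟨fun k => ((cls_eq_iff k.1).1 k.2).symm, fun k =>
      have : y ≠ 1 := fun e => rep_ne i (isConj_one_left.1 (e ▸ k))
      ⟨this, (cls_eq_iff this).2 k.symm⟩⟩
  · rw [sum_eq_zero fun x hx => absurd ⟨(exists_rep (mem_erase.1 hx).1).choose⟩ h,
      sum_eq_zero fun i _ => absurd ⟨i⟩ h]

omit [Finite G] in
theorem card_cl [Finite G] : Fintype.card (Cl G) + 1 = Nat.card (ConjClasses G) := by
  have := Fintype.ofFinite (ConjClasses G)
  rw [Nat.card_eq_fintype_card, Fintype.card_subtype, filter_ne', card_erase_add_one (mem_univ _),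
    card_univ]

end H15.KG
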