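import Cfsg.Agent.H15.KGSl

/-! Tower KG: soundness of one move of the second stage. -/

set_option autoImplicit false

namespace H15.KG

open Classical

universe u

variable {ι : Type u} [Fintype ι] {D : Dat ι} {K : ℕ} {ty : ι → Ty}

/-- The lists `U`, `N` describe the classes in `un`; `A i` lists the placed classes seen by `i`. -/
def Good (D : Dat ι) (ty : ι → Ty) (A : ι → List ι) (U : List Ty) (N : List Sl) (un : List ι) :
    Prop :=
  ∃ (us : List ι) (zs : List (ι × Sl)), un.Perm (us ++ zs.map Prod.fst) ∧ U.Perm (us.map ty) ∧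
    N.Perm (zs.map Prod.snd) ∧ (∀ i ∈ us, ∀ j ∈ A i, ∀ r, ¬ D.Kid i j r) ∧
    ∀ z ∈ zs, RN D (A z.1) z.1 z.2

theorem Good.congr {A B : ι → List ι} {U : List Ty} {N : List Sl} {un : List ι}
    (h : Good D ty A U N un) (e : ∀ i ∈ un, ∀ j r, D.Kid i j r → (j ∈ A i ↔ j ∈ B i)) :
    Good D ty B U N un := by
  obtain ⟨us, zs, a, b, c, d, f⟩ := h
  exact ⟨us, zs, a, b, c, fun i hi j hj r k => d i hi j
    ((e i (a.mem_iff.2 (List.mem_append_left _ hi)) j r k).2 hj) r k, fun z hz => (f z hz).congr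
    (e _ (a.mem_iff.2 (List.mem_append_right _ (List.mem_map_of_mem hz))))⟩

/-- A class is either anonymous or named. -/
theorem Good.take {A : ι → List ι} {U : List Ty} {N : List Sl} {un un' : List ι} {x : ι}
    (h : Good D ty A U N un) (hx : un.Perm (x :: un')) :
    (ty x ∈ U ∧ (∀ j ∈ A x, ∀ r, ¬ D.Kid x j r) ∧
      ∀ U', U.Perm (ty x :: U') → Good D ty A U' N un') ∨
    ∃ s ∈ N, RN D (A x) x s ∧ ∀ N', N.Perm (s :: N') → Good D ty A U N' un' := by
  obtain ⟨us, zs, a, b, c, d, f⟩ := h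
  rcases List.mem_append.1 (a.mem_iff.1 (hx.mem_iff.2 (.head _))) with m | m
  · have e := List.perm_cons_erase m
    refine .inl ⟨b.mem_iff.2 (List.mem_map_of_mem m), d x m, fun U' hU => ⟨us.erase x, zs,
      ((hx.symm.trans a).trans (e.append_right _)).cons_inv,
      ((hU.symm.trans b).trans (e.map ty)).cons_inv, c,
      fun i hi => d i (List.mem_of_mem_erase hi), f⟩⟩
  · obtain ⟨z, hz, rfl⟩ := List.mem_map.1 m
    have e := List.perm_cons_erase hz
    refine .inr ⟨z.2, c.mem_iff.2 (List.mem_map_of_mem hz), f z hz, fun N' hN => ⟨us, zs.erase z,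
      (((hx.symm.trans a).trans ((e.map Prod.fst).append_left _)).trans List.perm_middle).cons_inv,
      b, ((hN.symm.trans c).trans (e.map Prod.snd)).cons_inv, d,
      fun i hi => f i (List.mem_of_mem_erase hi)⟩⟩

theorem Good.put {A : ι → List ι} {U : List Ty} {N : List Sl} {un un' : List ι} {x : ι} {s : Sl}
    (h : Good D ty A U N un') (hx : un.Perm (x :: un')) (hs : RN D (A x) x s) :
    Good D ty A U (s :: N) un := by
  obtain ⟨us, zs, a, b, c, d, f⟩ := h
  exact ⟨us, (x, s) :: zs, (hx.trans (a.cons x)).trans List.perm_middle.symm, b, c.cons s, d,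
    List.forall_mem_cons.2 ⟨hs, f⟩⟩

theorem Good.same (ht : D.TyOK ty) {A : ι → List ι} {U : List Ty} {N : List Sl} {un : List ι}
    (h : Good D ty A U N un) (x : ι) (pre : List Ty) (hp : ∀ b ∈ pre, b ∈ U) (hx : ty x ∉ pre) :
    same (ty x) pre = false := by
  obtain ⟨us, zs, -, b, -⟩ := h
  cases pre with
  | nil => rfl
  | cons y t =>
    obtain ⟨j, -, rfl⟩ := List.mem_map.1 (b.mem_iff.1 (hp y (.head _)))
    simp only [H15.KG.same, br, Nat.beq_eq, (ht.1 _).1, (ht.1 _).2.1]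
    split_ifs with k
    · exact Bool.eq_false_iff.2 fun l => hx (ht.2 x j k (Nat.beq_eq.mp l) ▸ .head _)
    · rfl

theorem att_spec (h : D.Ax K) (ht : D.TyOK ty) {A : ι → List ι} {U : List Ty} {N : List Sl}
    {un : List ι} (hg : Good D ty A U N un) (nd : un.Nodup) {i x : ι} {p r e f : ℕ} (hi : i ∈ un)
    (hp : D.p i = p) (hx : D.Kid i x r) (hA : x ∉ A i) (hc : D.c x = p ^ e * r ^ f)
    {k : List Ty → List Sl → Bool} (hk : att p r (p ^ e) (r ^ f) (D.c x) U N k = true) :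
    ∃ U' N', Good D ty (Function.update A i (x :: A i)) U' N' un ∧ k U' N' = true := by
  subst hp
  simp only [att, br] at hk
  split_ifs at hk with k1
  have e := List.perm_cons_erase hi
  have n' : i ∉ un.erase i := (List.nodup_cons.1 (e.nodup_iff.1 nd)).1
  have up : ∀ {U N}, Good D ty A U N (un.erase i) →
      Good D ty (Function.update A i (x :: A i)) U N (un.erase i) := fun g =>
    g.congr fun i' h' j _ _ => by rw [Function.update_of_ne (ne_of_mem_of_not_mem h' n')]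
  have hq := (kid_facts h hx).1
  rcases hg.take e with ⟨a, b, c⟩ | ⟨s, a, b, c⟩
  · obtain ⟨U', u, v⟩ := pick_spec hk a fun pre h1 h2 => by
      rw [if_pos (by rw [(ht.1 i).1, Nat.beq_eq]), if_pos (by rw [(ht.1 i).2.1, hq]; rfl),
        hg.same ht i pre h1 h2]
    obtain ⟨s', w, z⟩ := (RN.new h ht hq b).add h hx hA hc v
    exact ⟨_, _, (up (c U' u)).put e (by rwa [Function.update_self]), z⟩
  · obtain ⟨N', u, v⟩ := pick_spec k1 a fun pre _ _ => by
      rw [if_pos (by rw [b.hp, Nat.beq_eq]), if_pos (b.kidOK h hx hA)]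
    obtain ⟨s', w, z⟩ := b.add h hx hA hc v
    exact ⟨_, _, (up (c N' u)).put e (by rwa [Function.update_self]), z⟩

/-- The invariant of the second stage. -/
structure Inv (D : Dat ι) (ty : ι → Ty) (n rn rd lc fp : ℕ) (U : List Ty) (N : List Sl)
    (L : List Dn) (un ds : List ι) : Prop where
  good : Good D ty (fun _ => ds) U N un
  nd : (un ++ ds).Nodup
  all : ∀ i, i ∈ un ++ ds
  hD : List.Forall₂ D.RD' ds L
  len : un.length = n
  rd0 : 0 < rd
  R : (rn : ℚ) / rd = (un.map fun i => (1 : ℚ) / D.c i).sum + 1 / D.g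
  o1 : ∀ i ∈ un, lc ≤ D.c i
  o2 : ∀ j ∈ un, ∀ i r, D.Kid i j r → i ∈ un
  o3 : fp ≠ 0 → fp.Prime ∧ (∀ i, D.p i = fp → D.q i = 1 → D.c i = lc) ∧
    ∀ j ∈ un, D.q j ≠ 1 → lc < D.c j

/-- The continuation succeeds on a state satisfying the invariant. -/
def Next (D : Dat ι) (ty : ι → Ty) (n : ℕ)
    (ih : ℕ → ℕ → ℕ → ℕ → List Ty → List Sl → List Dn → Bool) : Prop :=
  ∃ rn rd lc fp U N L un ds, Inv D ty n rn rd lc fp U N L un ds ∧ ih rn rd lc fp U N L = true

variable {n rn rd lc fp : ℕ} {U : List Ty} {N : List Sl} {L : List Dn} {un ds : List ι}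
  {ih : ℕ → ℕ → ℕ → ℕ → List Ty → List Sl → List Dn → Bool}

theorem g_pos (h : D.Ax K) : (0 : ℚ) < D.g := by exact_mod_cast lt_of_lt_of_le (by norm_num) h.big

theorem Inv.lt (h : D.Ax K) (I : Inv D ty n rn rd lc fp U N L un ds) {x : ι} (hx : x ∈ un) :
    rd < rn * D.c x := by
  have a : (1 : ℚ) / D.c x ≤ (un.map fun i => (1 : ℚ) / D.c i).sum :=
    List.single_le_sum (fun y hy => by obtain ⟨j, -, rfl⟩ := List.mem_map.1 hy; positivity) _
      (List.mem_map_of_mem hx)
  have b : (1 : ℚ) / D.c x < rn / rd := by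
    have := one_div_pos.2 (g_pos h)
    rw [I.R]; linarith
  rw [div_lt_div_iff₀ (by exact_mod_cast c_pos h x) (by exact_mod_cast I.rd0), one_mul] at b
  exact_mod_cast b

theorem Inv.go (h : D.Ax K) (I : Inv D ty (n + 1) rn rd lc fp U N L un ds) {x : ι} {un' : List ι}
    (hx : un.Perm (x :: un')) {U' : List Ty} {N' : List Sl} {d : Dn} {f : ℕ}
    (hg : Good D ty (fun _ => x :: ds) U' N' un') (hd : D.RD' x d) (hm : ∀ i ∈ un, D.c x ≤ D.c i)
    (hk : ∀ j ∈ un, ∀ r, ¬ D.Kid x j r) (hf : f ≠ 0 → f.Prime ∧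
      (∀ i, D.p i = f → D.q i = 1 → D.c i = D.c x) ∧ ∀ j ∈ un, D.q j ≠ 1 → D.c x < D.c j)
    (e : go ih rn rd (D.c x) f U' N' (d :: L) = true) : Next D ty n ih := by
  have hl := I.lt h (hx.mem_iff.2 (.head _))
  simp only [H15.KG.go, frc_eq, br, Nat.ble_eq, nmul, nsub, ndiv, if_neg hl.not_ge] at e
  have p : (un ++ ds).Perm (un' ++ x :: ds) := (hx.append_right _).trans List.perm_middle.symm
  have s : ∀ i ∈ un', i ∈ un := fun i hi => hx.mem_iff.2 (.tail _ hi)
  have c0 := c_pos h x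
  have d0 := Nat.mul_pos I.rd0 c0
  have g0 := Nat.gcd_pos_of_pos_right (rn * D.c x - rd) d0
  refine ⟨_, _, _, _, _, _, _, un', x :: ds, ⟨hg, p.nodup_iff.1 I.nd, fun i => p.mem_iff.1 (I.all i),
    .cons hd I.hD, by simpa [I.len] using hx.length_eq.symm,
    Nat.div_pos (Nat.gcd_le_right _ d0) g0, ?_, fun i hi => hm i (s i hi), fun j hj i r k => ?_,
    fun z => ⟨(hf z).1, (hf z).2.1, fun j hj => (hf z).2.2 j (s j hj)⟩⟩, e⟩
  · have R := I.R
    rw [(hx.map _).sum_eq, List.map_cons, List.sum_cons] at R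
    have r0 : (rd : ℚ) ≠ 0 := by exact_mod_cast I.rd0.ne'
    have c1 : (D.c x : ℚ) ≠ 0 := by exact_mod_cast c0.ne'
    have g1 : (((rn * D.c x - rd).gcd (rd * D.c x) : ℕ) : ℚ) ≠ 0 := by exact_mod_cast g0.ne'
    rw [Nat.cast_div (Nat.gcd_dvd_left _ _) g1, Nat.cast_div (Nat.gcd_dvd_right _ _) g1,
      div_div_div_cancel_right₀ g1, Nat.cast_sub hl.le, ← sub_eq_iff_eq_add'.2 (R.trans (add_assoc _ _ _))]
    push_cast
    field_simp
  · exact (List.mem_cons.1 (hx.mem_iff.1 (I.o2 j (s j hj) i r k))).resolve_left fun z =>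
      hk j (s j hj) r (z ▸ k)

theorem ite_and {a b : Bool} (h : (if a = true then b else false) = true) : a = true ∧ b = true := by
  cases a <;> simp_all

theorem Inv.moves (h : D.Ax K) (ht : D.TyOK ty) (I : Inv D ty (n + 1) rn rd lc fp U N L un ds)
    {x : ι} (hx : x ∈ un) {W V f lo hi : ℕ} (hm : ∀ i ∈ un, D.c x ≤ D.c i)
    (hpre : D.q x = 1 → ∀ j ∈ un, D.q j ≠ 1 → D.c x < D.c j) (hlo : lo ≤ D.c x) (hhi : D.c x ≤ hi)
    (hs : D.q x = 1 → skp W V f (D.p x) = false) (hf : D.q x ≠ 1 → f = 0)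
    (e : moves ih rn rd W V f lo hi U N L = true) : Next D ty n ih := by
  simp only [H15.KG.moves, br, frc_eq, Nat.ble_eq, Nat.beq_eq, nmul, nadd, nmod, ndiv, sumL_eq] at e
  obtain ⟨e1, e⟩ := ite_and e
  have pe := List.perm_cons_erase hx
  have hp := h.pp x
  have xd : x ∉ ds := fun z => (List.nodup_append.1 I.nd).2.2 x hx x z rfl
  have nd := pe.nodup_iff.1 (List.nodup_append.1 I.nd).1
  by_cases hq : D.q x = 1
  · have hk : ∀ j ∈ un, ∀ r, ¬ D.Kid x j r := fun j hj r k =>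
      (hpre hq j hj k.1).not_ge (Nat.le_of_dvd (c_pos h x) (kid_facts h k).2.2.2.1)
    have hA : ∀ j r, D.Kid x j r → j ∈ ds := fun j r k =>
      (List.mem_append.1 (I.all j)).resolve_left fun z => hk j z r k
    have up : ∀ {U N}, Good D ty (fun _ => ds) U N (un.erase x) →
        Good D ty (fun _ => x :: ds) U N (un.erase x) := fun g => g.congr fun i _ j r k =>
      ⟨.tail _, fun z => (List.mem_cons.1 z).resolve_left fun w => k.1 (w ▸ hq)⟩
    have ff : fpr (D.p x) (D.c x) ≠ 0 → (fpr (D.p x) (D.c x)).Prime ∧ (∀ i, D.p i =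
        fpr (D.p x) (D.c x) → D.q i = 1 → D.c i = D.c x) ∧ ∀ j ∈ un, D.q j ≠ 1 → D.c x < D.c j := by
      simp only [fpr, br, Nat.beq_eq, nmul, nmod]
      split_ifs with z
      · exact fun w => absurd rfl w
      · exact fun _ => ⟨hp, (h.syl x hq fun w => z
          (Nat.mod_eq_zero_of_dvd (sq (D.p x) ▸ h.sq x hq w))).1, hpre hq⟩
    rcases I.good.take pe with ⟨a, b, c⟩ | ⟨s, a, b, c⟩
    · obtain ⟨U', u, v⟩ := pick_spec e a fun pre h1 h2 => by
        rw [I.good.same ht x pre h1 h2, if_neg nofun, (ht.1 x).2.1, if_pos hq, (ht.1 x).1, hs hq]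
      obtain ⟨m, hc⟩ := (RN.new h ht hq b).form h hA
      rw [(ht.1 x).2.1, if_pos hq, (ht.1 x).1] at v
      rw [mul_one] at hc
      have := pows_spec v hp.pos m (hc ▸ hhi)
      rw [← hc, if_pos hlo] at this
      exact I.go h pe (up (c U' u)) ⟨rfl, hq.symm, rfl, fun z => absurd z Bool.false_ne_true⟩ hm hk
        ff this
    · obtain ⟨N', u, v⟩ := pick_spec e1 a fun pre _ _ => by rw [b.hp, hs hq]
      obtain ⟨m, hc⟩ := b.form h hA
      rw [b.hp] at v
      have := pows_spec v hp.pos m (hc ▸ hhi)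
      rw [← hc, if_pos hlo, if_pos (b.frob h hA)] at this
      refine I.go h pe (up (c N' u)) ⟨rfl, hq.symm, rfl, fun z => ?_⟩ hm hk ff this
      obtain ⟨k, k1, k2⟩ := anyL_iff.1 z
      exact b.must h k1 fun w => by simp [w] at k2
  · obtain rfl := hf hq
    obtain ⟨hr, hl⟩ := (h.qq x).resolve_left hq
    obtain ⟨p1, p2, p3, p4, -⟩ := h.par x hq
    have kP : D.Kid (D.P x) x (D.q x) := ⟨hq, .inl ⟨rfl, rfl⟩⟩
    have kQ : D.Kid (D.Q x) x (D.p x) := ⟨hq, .inr ⟨rfl, rfl⟩⟩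
    have mem : ∀ {i r}, D.Kid i x r → i ∈ un.erase x := fun k => (List.mem_cons.1
      (pe.mem_iff.1 (I.o2 x hx _ _ k))).resolve_left fun z => hq (z ▸ (kid_facts h k).1)
    rcases I.good.take pe with ⟨a, -, c⟩ | ⟨s, -, b, -⟩
    swap
    · exact absurd b.hq hq
    obtain ⟨U', u, v⟩ := pick_spec e a fun pre h1 h2 => by
      rw [I.good.same ht x pre h1 h2, if_neg nofun, (ht.1 x).2.1, if_neg hq, if_pos rfl]
    rw [(ht.1 x).2.1, if_neg hq, (ht.1 x).1] at v
    obtain ⟨a, b, hc⟩ := h.smooth x hq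
    have td := h.tdvd x
    have co := (Nat.coprime_primes hp hr).2 hl.ne
    obtain ⟨a, rfl⟩ : ∃ a', a = a' + 1 := Nat.exists_eq_succ_of_ne_zero (by
      rintro rfl
      rw [pow_zero, one_mul] at hc
      exact hp.one_lt.ne' ((co.pow_right b).eq_one_of_dvd (hc ▸ (Dvd.intro _ rfl).trans td)))
    obtain ⟨b, rfl⟩ : ∃ a', b = a' + 1 := Nat.exists_eq_succ_of_ne_zero (by
      rintro rfl
      rw [pow_zero, mul_one] at hc
      exact hr.one_lt.ne' ((co.symm.pow_right _).eq_one_of_dvd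
        (hc ▸ (Dvd.intro_left _ rfl).trans td)))
    have v1 := pows_spec v hp.pos a ((Nat.le_div_iff_mul_le hr.pos).2 (le_trans (by
      rw [hc, ← pow_succ']
      exact Nat.mul_le_mul_left _ (Nat.le_self_pow (by omega) _)) hhi))
    rw [← pow_succ'] at v1
    have v2 := pows_spec v1 hr.pos b ((Nat.le_div_iff_mul_le (pow_pos hp.pos _)).2 (by
      rw [← pow_succ', mul_comm, ← hc]; exact hhi))
    rw [← pow_succ', ← hc, if_pos hlo] at v2
    have nd' := (List.nodup_cons.1 nd).2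
    obtain ⟨U1, N1, g1, w1⟩ := att_spec h ht (c U' u) nd' (mem kP) p1 kP xd hc v2
    have ne : D.Q x ≠ D.P x := fun z => hl.ne (by rw [← p1, ← p3, z])
    obtain ⟨U2, N2, g2, w2⟩ := att_spec h ht g1 nd' (mem kQ) p3 kQ
      (by rwa [Function.update_of_ne ne]) (hc.trans (mul_comm _ _)) w1
    refine I.go h pe (g2.congr fun i _ j r k => ?_)
      ⟨rfl, rfl, rfl, fun z => absurd z Bool.false_ne_true⟩ hm
      (fun j _ r k => hq (kid_facts h k).1) (fun z => absurd rfl z) w2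
    by_cases z : i = D.Q x
    · rw [z, Function.update_self, Function.update_of_ne ne]
    rw [Function.update_of_ne z]
    by_cases y : i = D.P x
    · rw [y, Function.update_self]
    rw [Function.update_of_ne y]
    refine ⟨.tail _, fun w => (List.mem_cons.1 w).resolve_left ?_⟩
    rintro rfl
    exact k.2.elim (fun t => y t.1.symm) fun t => z t.1.symm

end H15.KG
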