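import Cfsg.Agent.H15.KGMove

/-! Tower KG: soundness of the second stage. -/

set_option autoImplicit false

namespace H15.KG

open Classical

universe u

variable {ι : Type u} [Fintype ι] {D : Dat ι} {K : ℕ} {ty : ι → Ty}

theorem Good.prodW (ht : D.TyOK ty) {A : ι → List ι} {U : List Ty} {N : List Sl} {un : List ι}
    (h : Good D ty A U N un) : (U.map fun t => if t.q = 1 then 1 else t.p * t.q).prod =
      (un.map fun i => if D.q i = 1 then 1 else D.p i * D.q i).prod := by
  obtain ⟨us, zs, a, b, -, -, f⟩ := h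
  rw [(b.map _).prod_eq, (a.map _).prod_eq, List.map_map, List.map_append, List.prod_append,
    List.prod_eq_one (l := List.map _ (zs.map Prod.fst)) fun y hy => ?_, mul_one]
  · exact congrArg _ (List.map_congr_left fun i _ => by
      simp only [Function.comp, (ht.1 i).1, (ht.1 i).2.1])
  · obtain ⟨i, hi, rfl⟩ := List.mem_map.1 hy
    obtain ⟨z, hz, rfl⟩ := List.mem_map.1 hi
    exact if_pos (f z hz).hq

theorem Good.prodV (ht : D.TyOK ty) {A : ι → List ι} {U : List Ty} {N : List Sl} {un : List ι}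
    (h : Good D ty A U N un) : (U.map fun t => if t.q = 1 then t.p else 1).prod *
      (N.map Sl.p).prod = (un.map fun i => if D.q i = 1 then D.p i else 1).prod := by
  obtain ⟨us, zs, a, b, c, -, f⟩ := h
  rw [(b.map _).prod_eq, (c.map _).prod_eq, (a.map _).prod_eq, List.map_map, List.map_append,
    List.prod_append, List.map_map, List.map_map]
  congr 2
  · exact List.map_congr_left fun i _ => by simp only [Function.comp, (ht.1 i).1, (ht.1 i).2.1]
  · exact List.map_congr_left fun z hz => by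
      simp only [Function.comp, (f z hz).hp, if_pos (f z hz).hq]

theorem upw_pos {p lc l : ℕ} (hp : 0 < p) (h : 0 < l) : 0 < upw p lc l := by
  unfold upw
  generalize 40 = n
  induction n generalizing l with
  | zero => exact h
  | succ n ih =>
    simp only [frc_eq, br, Nat.ble_eq, nmul] at ih ⊢
    split_ifs with k
    exacts [h, ih (Nat.mul_pos h hp)]

theorem upm_pos {lc l : ℕ} (h : 0 < l) : 0 < upm lc l := by
  simp only [upm, frc_eq, br, Nat.ble_eq, nmul, ndiv, nsub, nadd]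
  split_ifs with k
  exacts [h, Nat.mul_pos (Nat.div_pos (by omega) h) h]

theorem rc_le {l c : ℕ} (h : 0 < l) (hc : l ≤ c) : (1 : ℚ) / c ≤ rc l / 1099511627776 := by
  have a := Nat.lt_mul_div_succ 1099511627776 h
  have b : 1099511627776 ≤ rc l * c := by
    simp only [rc, nadd, ndiv]
    exact a.le.trans (by rw [mul_comm]; exact Nat.mul_le_mul_left _ hc)
  rw [div_le_div_iff₀ (by exact_mod_cast h.trans_le hc) (by norm_num), one_mul]
  exact_mod_cast b

theorem sum_le_div {α : Type*} {l : List α} {f : α → ℚ} {g : α → ℕ} {B : ℚ}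
    (h : ∀ a ∈ l, f a ≤ g a / B) : (l.map f).sum ≤ ((l.map g).sum : ℕ) / B := by
  induction l with
  | nil => simp
  | cons a t ih =>
    rw [List.map_cons, List.map_cons, List.sum_cons, List.sum_cons, Nat.cast_add, add_div]
    exact add_le_add (h a (.head _)) (ih fun b hb => h b (.tail _ hb))

variable {n rn rd lc fp : ℕ} {U : List Ty} {N : List Sl} {L : List Dn} {un ds : List ι}
  {ih : ℕ → ℕ → ℕ → ℕ → List Ty → List Sl → List Dn → Bool}

theorem Inv.nx (h : D.Ax K) (I : Inv D ty n rn rd lc fp U N L un ds) {i : ι} (hi : i ∈ un) {s : Sl}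
    (hs : RN D ds i s) {W : ℕ} (hW : ∀ j ∈ un, D.q j ≠ 1 → D.p j * D.q j ∣ W) :
    0 < nx W (D.p i) lc (s.a * s.b) ∧ nx W (D.p i) lc (s.a * s.b) ≤ D.c i := by
  have hp := h.pp i
  have c0 := c_pos h i
  have hd : s.a * s.b ∣ D.c i := by
    obtain ⟨e, he⟩ := hs.hpa
    exact Nat.Coprime.mul_dvd_of_dvd_of_dvd
      (he ▸ (hp.coprime_iff_not_dvd.2 hs.hpb).pow_left e) hs.ha hs.hb
  have h0 := Nat.pos_of_dvd_of_pos hd c0
  simp only [H15.KG.nx, br, Nat.beq_eq, nmod]
  split_ifs with k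
  · exact ⟨upm_pos h0, upm_le hd (I.o1 i hi) c0⟩
  obtain ⟨e, he⟩ := hs.form h fun j r kj => (List.mem_append.1 (I.all j)).resolve_left fun z =>
    k (Nat.mod_eq_zero_of_dvd (Dvd.dvd.trans (by
      rcases (kid_facts h kj).2.2.2.2 with ⟨a, -⟩ | ⟨-, a⟩ <;> rw [← a]
      exacts [Dvd.intro _ rfl, Dvd.intro_left _ rfl]) (hW j z kj.1)))
  exact ⟨upw_pos hp.pos h0, he ▸ upw_le hp.pos e (he ▸ I.o1 i hi)⟩

theorem Inv.mass (h : D.Ax K) (ht : D.TyOK ty) (I : Inv D ty n rn rd lc fp U N L un ds) {W : ℕ}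
    (hW : ∀ j ∈ un, D.q j ≠ 1 → D.p j * D.q j ∣ W) :
    1099511627776 * rn ≤ mass W lc U N * rd := by
  obtain ⟨us, zs, a, b, c, d, f⟩ := I.good
  have R := I.R
  rw [(a.map _).sum_eq, List.map_append, List.sum_append, List.map_map] at R
  simp only [H15.KG.mass, br, Nat.beq_eq, nadd, nmul, sumL_eq, mx_eq]
  rw [(b.map _).sum_eq, (c.map _).sum_eq, List.map_map, List.map_map]
  have r0 : (0 : ℚ) < rd := by exact_mod_cast I.rd0
  have key : ∀ x y : ℕ, (rn : ℚ) / rd ≤ x / 1099511627776 + y / 1099511627776 +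
      rc 5616 / 1099511627776 → 1099511627776 * rn ≤ (x + y + rc 5616) * rd := fun x y z => by
    rw [← add_div, ← add_div, div_le_div_iff₀ r0 (by norm_num), mul_comm] at z
    exact_mod_cast z
  refine key _ _ (R.trans_le (add_le_add (add_le_add (sum_le_div fun i hi => ?_)
    (sum_le_div fun z hz => ?_)) (rc_le (by norm_num) h.big)))
  · have m := a.mem_iff.2 (List.mem_append_left _ hi)
    simp only [Function.comp, (ht.1 i).1, (ht.1 i).2.1]
    split_ifs with k
    · have := I.nx h m (RN.new h ht k (d i hi)) hW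
      simp only [mul_one] at this
      exact rc_le (lt_max_of_lt_left this.1) (max_le this.2 ((ht.1 i).2.2 k).2.2)
    · exact rc_le (upm_pos (Nat.pos_of_dvd_of_pos (h.tdvd i) (c_pos h i)))
        (upm_le (h.tdvd i) (I.o1 i m) (c_pos h i))
  · have := I.nx h (a.mem_iff.2 (List.mem_append_right _ (List.mem_map_of_mem hz))) (f z hz) hW
    simp only [Function.comp, (f z hz).hp]
    exact rc_le this.1 this.2

theorem Inv.hi (h : D.Ax K) (I : Inv D ty (n + 1) rn rd lc fp U N L un ds) {x : ι} (hx : x ∈ un)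
    (hm : ∀ i ∈ un, D.c x ≤ D.c i) : D.c x ≤ hiB n rn rd := by
  have c0 : (0 : ℚ) < D.c x := by exact_mod_cast c_pos h x
  have r0 : (0 : ℚ) < rd := by exact_mod_cast I.rd0
  have a : (un.map fun i => (1 : ℚ) / D.c i).sum ≤ (n + 1) / D.c x := by
    have := List.sum_le_card_nsmul (un.map fun i => (1 : ℚ) / D.c i) (1 / D.c x) fun y hy => by
      obtain ⟨j, hj, rfl⟩ := List.mem_map.1 hy
      exact one_div_le_one_div_of_le c0 (by exact_mod_cast hm j hj)
    rwa [List.length_map, I.len, nsmul_eq_mul, mul_one_div, Nat.cast_succ] at this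
  have n0 : 0 < rn := Nat.pos_of_mul_pos_right (I.rd0.trans (I.lt h hx))
  have b1 : D.c x ≤ rd * (n + 2) / rn := by
    have : (1 : ℚ) / D.g ≤ 1 / D.c x := one_div_le_one_div_of_le c0
      (by exact_mod_cast Nat.le_of_dvd (lt_of_lt_of_le (by norm_num) h.big) (h.cdvd x))
    have z : (rn : ℚ) / rd ≤ (n + 2) / D.c x := by
      rw [I.R, show ((n : ℚ) + 2) / D.c x = (n + 1) / D.c x + 1 / D.c x by ring]
      exact add_le_add a this
    rw [div_le_div_iff₀ r0 c0] at z
    rw [Nat.le_div_iff_mul_le n0, mul_comm, mul_comm rd]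
    exact_mod_cast z
  simp only [hiB, frc_eq, br, Nat.ble_eq, nmul, nadd, ndiv, nsub]
  split_ifs with k1 k2
  exacts [b1, b1, by
    have : (1 : ℚ) / D.g ≤ 1 / 5616 := one_div_le_one_div_of_le (by norm_num)
      (by exact_mod_cast h.big)
    have z : (rn : ℚ) / rd ≤ (n + 1) / D.c x + 1 / 5616 := I.R.trans_le (add_le_add a this)
    rw [div_add_div _ _ c0.ne' (by norm_num), div_le_div_iff₀ r0 (by positivity)] at z
    have z' : rn * (D.c x * 5616) ≤ ((n + 1) * 5616 + D.c x * 1) * rd := by exact_mod_cast z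
    rw [Nat.le_div_iff_mul_le (by omega), Nat.mul_sub, tsub_le_iff_right]
    exact le_of_eq_of_le (by ring) (z'.trans_eq (by ring))]

theorem Inv.node (h : D.Ax K) (ht : D.TyOK ty) (I : Inv D ty (n + 1) rn rd lc fp U N L un ds)
    (e : node ih n rn rd lc fp U N L = true) : Next D ty n ih := by
  simp only [H15.KG.node, br, frc_eq, Nat.ble_eq, Nat.beq_eq, nmul, nadd, nmod, ndiv, prodL_eq,
    mx_eq] at e
  rw [I.good.prodW ht, I.good.prodV ht] at e
  generalize hW : (un.map fun i => if D.q i = 1 then 1 else D.p i * D.q i).prod = W at e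
  generalize hV : (un.map fun i => if D.q i = 1 then D.p i else 1).prod = V at e
  by_cases k : V % fp = 0
  · rw [if_pos k] at e
    have f0 : fp ≠ 0 := by
      rintro rfl
      rw [Nat.mod_zero, ← hV, List.prod_eq_zero_iff] at k
      obtain ⟨i, -, z⟩ := List.mem_map.1 k
      split_ifs at z
      exact (h.pp i).ne_zero z
    obtain ⟨a, b, c⟩ := I.o3 f0
    obtain ⟨y, hy, z⟩ := (Prime.dvd_prod_iff a.prime).1 (hV ▸ Nat.dvd_of_mod_eq_zero k)
    obtain ⟨x, hx, rfl⟩ := List.mem_map.1 hy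
    have hq : D.q x = 1 := by
      by_contra w
      rw [if_neg w] at z
      exact a.one_lt.ne' (Nat.dvd_one.1 z)
    rw [if_pos hq, Nat.prime_dvd_prime_iff_eq a (h.pp x)] at z
    have hc := b x z.symm hq
    exact I.moves h ht hx (hc ▸ I.o1) (fun _ => hc ▸ c) hc.ge hc.le
      (fun _ => by simp [skp, br, ← z, f0]) (fun w => absurd hq w) e
  have W1 : ∀ j ∈ un, D.q j ≠ 1 → D.p j * D.q j ∣ W := fun j hj z =>
    hW ▸ List.dvd_prod (List.mem_map.2 ⟨j, hj, if_neg z⟩)
  rw [if_neg k, if_pos (I.mass h ht W1)] at e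
  obtain ⟨x, hx, hm⟩ : ∃ x ∈ un, ∀ i ∈ un, 2 * D.c x + (if D.q x = 1 then 1 else 0) ≤
      2 * D.c i + (if D.q i = 1 then 1 else 0) := by
    obtain ⟨x, a, b⟩ := un.toFinset.exists_min_image (fun i => 2 * D.c i +
      (if D.q i = 1 then 1 else 0)) (by
        rw [List.toFinset_nonempty_iff, ← List.length_pos_iff, I.len]; omega)
    exact ⟨x, List.mem_toFinset.1 a, fun i hi => b i (List.mem_toFinset.2 hi)⟩
  have m1 : ∀ i ∈ un, D.c x ≤ D.c i := fun i hi => by
    have := hm i hi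
    split_ifs at this <;> omega
  have m2 : D.q x = 1 → ∀ j ∈ un, D.q j ≠ 1 → D.c x < D.c j := fun a j hj b => by
    have := hm j hj
    rw [if_pos a, if_neg b] at this
    omega
  refine I.moves h ht hx m1 m2 (max_le ?_ (I.o1 x hx)) (I.hi h hx m1) (fun hq => ?_)
    (fun _ => rfl) e
  · exact Nat.div_lt_of_lt_mul (I.lt h hx)
  simp only [skp, br, Nat.beq_eq, nmul, nmod, if_true]
  split_ifs with k1 k2
  exacts [rfl, absurd (Nat.mod_eq_zero_of_dvd (by
    have hp := h.pp x
    obtain ⟨y, hy, z⟩ := (Prime.dvd_prod_iff hp.prime).1 (hW ▸ Nat.dvd_of_mod_eq_zero k1)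
    obtain ⟨j, hj, rfl⟩ := List.mem_map.1 hy
    have jq : D.q j ≠ 1 := fun w => hp.one_lt.ne' (Nat.dvd_one.1 (by rwa [if_pos w] at z))
    rw [if_neg jq] at z
    obtain ⟨p1, p2, p3, p4, -⟩ := h.par j jq
    obtain ⟨i, r, ki, hi⟩ : ∃ i r, D.Kid i j r ∧ D.p i = D.p x := by
      rcases (Nat.Prime.dvd_mul hp).1 z with z | z
      · exact ⟨_, _, ⟨jq, .inl ⟨rfl, rfl⟩⟩, p1.trans
          ((Nat.prime_dvd_prime_iff_eq hp (h.pp j)).1 z).symm⟩
      · exact ⟨_, _, ⟨jq, .inr ⟨rfl, rfl⟩⟩, p3.trans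
          ((Nat.prime_dvd_prime_iff_eq hp ((h.qq j).resolve_left jq).1).1 z).symm⟩
    have pe := List.perm_cons_erase hx
    have m : i ∈ un.erase x := (List.mem_cons.1 (pe.mem_iff.1 (I.o2 j hj i r ki))).resolve_left
      fun w => (m2 hq j hj jq).not_ge (Nat.le_of_dvd (c_pos h x) (w ▸ (kid_facts h ki).2.2.2.1))
    rw [← hV, (pe.map _).prod_eq, List.map_cons, List.prod_cons, if_pos hq]
    exact Nat.mul_dvd_mul_left _ (List.dvd_prod (List.mem_map.2
      ⟨i, m, by rw [if_pos (kid_facts h ki).1, hi]⟩)))) k2, rfl]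

theorem srch_sound (hF : JobFin'.{u}) (h : D.Ax K) (ht : D.TyOK ty) (n : ℕ)
    (e : Next D ty n (srch K n)) : D.Out K := by
  induction n with
  | zero =>
    obtain ⟨rn, rd, lc, fp, U, N, L, un, ds, I, e⟩ := e
    obtain rfl := List.length_eq_zero_iff.1 I.len
    have R := I.R
    have g0 := g_pos h
    rw [List.map_nil, List.sum_nil, zero_add, div_eq_div_iff (by exact_mod_cast I.rd0.ne') g0.ne',
      one_mul] at R
    have R' : rn * D.g = rd := by exact_mod_cast R
    have n0 : 0 < rn := Nat.pos_of_mul_pos_right (R' ▸ I.rd0)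
    have : rd / rn = D.g := by rw [← R', Nat.mul_div_cancel_left _ n0]
    refine hF ι D K h ds L I.nd I.all I.hD ?_
    rw [← this]
    exact (frc_eq (rd / rn) fun g => fin K g L).symm.trans e
  | succ n ih =>
    obtain ⟨rn, rd, lc, fp, U, N, L, un, ds, I, e⟩ := e
    exact ih (I.node h ht e)

theorem stage2_sound (hF : JobFin'.{u}) (hS : JobSt2.{u}) (h : D.Ax K) {T : List (ℕ × ℕ)}
    (hT : D.Pre T 0) (e : stage2 K T = true) : D.Out K := by
  obtain ⟨ty, U, us, ht, nd, all, pU, e⟩ := (hS ι D K h).2 T hT e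
  have u : us.toFinset = Finset.univ := Finset.eq_univ_of_forall fun i => List.mem_toFinset.2 (all i)
  refine srch_sound hF h ht (K - 1) ⟨1, 1, 5, 0, U, [], [], us, [], ⟨⟨us, [], by simp, pU, .nil,
    fun _ _ _ z => (nomatch z), fun _ z => (nomatch z)⟩, by simpa, by simpa, .nil, ?_, one_pos, ?_,
    fun i _ => h.five i, fun _ _ i _ _ => all i, fun z => absurd rfl z⟩, e⟩
  · rw [← List.toFinset_card_of_nodup nd, u, Finset.card_univ, ← h.card, Nat.add_sub_cancel]
  · rw [← List.sum_toFinset _ nd, u, h.sum, Nat.cast_one, div_one]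

end H15.KG
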