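import Cfsg.Agent.H15.KGSpec3

/-! Tower KG: soundness of the slots of the second stage. -/

set_option autoImplicit false

namespace H15.KG

open Classical Finset

universe u

variable {ι : Type u} [Fintype ι] {D : Dat ι} {K : ℕ}

/-- The slot `s` describes the class `i` and its kids in `A`. -/
structure RN (D : Dat ι) (A : List ι) (i : ι) (s : Sl) : Prop where
  hp : s.p = D.p i
  hq : D.q i = 1
  ha : s.a ∣ D.c i
  hpa : ∃ e, s.a = D.p i ^ e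
  hb : s.b ∣ D.c i
  hpb : ¬ D.p i ∣ s.b
  ks : ∃ ks : List ι, ks.Nodup ∧ (∀ j, j ∈ ks ↔ j ∈ A ∧ ∃ r, D.Kid i j r) ∧
    List.Forall₂ (fun j k => D.Kid i j k.1 ∧ D.c j = k.2) ks s.kids
  top : ∀ j ∈ A, ∀ r k, D.Kid i j r → r ^ k ∣ D.c j → r ^ k ∣ s.b

theorem c_pos (h : D.Ax K) (i : ι) : 0 < D.c i := lt_of_lt_of_le (by norm_num) (h.five i)

theorem kid_facts (h : D.Ax K) {i j : ι} {r : ℕ} (k : D.Kid i j r) : D.q i = 1 ∧ r.Prime ∧
    r ≠ D.p i ∧ D.c j ∣ D.c i ∧ (D.p j = D.p i ∧ D.q j = r ∨ D.p j = r ∧ D.q j = D.p i) := by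
  obtain ⟨a, b, c, d, e, f⟩ := h.par j k.1
  obtain ⟨hq, hl⟩ := (h.qq j).resolve_left k.1
  rcases k.2 with ⟨rfl, rfl⟩ | ⟨rfl, rfl⟩
  · exact ⟨b, hq, by omega, e, .inl ⟨a.symm, rfl⟩⟩
  · exact ⟨d, h.pp j, by omega, f, .inr ⟨rfl, c.symm⟩⟩

theorem kid_uniq (h : D.Ax K) {i j : ι} {r s : ℕ} (k : D.Kid i j r) (l : D.Kid i j s) : r = s := by
  obtain ⟨-, -, a, -, b⟩ := kid_facts h k
  obtain ⟨-, -, c, -, d⟩ := kid_facts h l
  omega

theorem RN.congr {A B : List ι} {i : ι} {s : Sl} (h : RN D A i s)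
    (e : ∀ j r, D.Kid i j r → (j ∈ A ↔ j ∈ B)) : RN D B i s := by
  obtain ⟨ks, a, b, c⟩ := h.ks
  exact ⟨h.hp, h.hq, h.ha, h.hpa, h.hb, h.hpb, ⟨ks, a, fun j => (b j).trans
    ⟨fun ⟨x, r, y⟩ => ⟨(e j r y).1 x, r, y⟩, fun ⟨x, r, y⟩ => ⟨(e j r y).2 x, r, y⟩⟩, c⟩,
    fun j hj r k hk => h.top j ((e j r hk).2 hj) r k hk⟩

theorem RN.new (h : D.Ax K) {ty : ι → Ty} (ht : D.TyOK ty) {A : List ι} {i : ι} (hq : D.q i = 1)
    (hA : ∀ j ∈ A, ∀ r, ¬ D.Kid i j r) : RN D A i ⟨D.p i, (ty i).a, 1, []⟩ :=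
  have ⟨a, b, _⟩ := (ht.1 i).2.2 hq
  ⟨rfl, hq, a, b, one_dvd _, fun k => (h.pp i).one_lt.ne' (Nat.dvd_one.1 k),
    ⟨[], .nil, fun j => ⟨nofun, fun ⟨x, r, y⟩ => absurd y (hA j x r)⟩, .nil⟩,
    fun j hj r _ k => absurd k (hA j hj r)⟩

/-- Once all kids are placed the centraliser order is known up to a power of `p`. -/
theorem RN.form (h : D.Ax K) {A : List ι} {i : ι} {s : Sl} (hs : RN D A i s)
    (hA : ∀ j r, D.Kid i j r → j ∈ A) : ∃ e, D.c i = s.a * s.b * D.p i ^ e := by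
  have hp := h.pp i
  have h0 := (c_pos h i).ne'
  have e := Nat.ordProj_mul_ordCompl_eq_self (D.c i) (D.p i)
  have h1 : s.b ∣ ordCompl[D.p i] (D.c i) :=
    Nat.Coprime.dvd_of_dvd_mul_left ((hp.coprime_iff_not_dvd.2 hs.hpb).symm.pow_right _)
      (e.symm ▸ hs.hb)
  have h2 : ordCompl[D.p i] (D.c i) ∣ s.b := (Nat.dvd_iff_prime_pow_dvd_dvd _ _).2 fun r k hr hk => by
    cases k with
    | zero => simp
    | succ k =>
      have : r ≠ D.p i := fun x => Nat.not_dvd_ordCompl hp h0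
        (x.symm.dvd.trans ((dvd_pow_self r k.succ_ne_zero).trans hk))
      obtain ⟨j, a, b⟩ := h.top i hs.hq r k hr this (hk.trans (Nat.ordCompl_dvd _ _))
      exact hs.top j (hA j r a) r _ a b
  obtain ⟨k, hk⟩ := hs.hpa
  have h3 := (hp.pow_dvd_iff_le_factorization h0).1 (hk ▸ hs.ha)
  obtain ⟨m, hm⟩ := Nat.exists_eq_add_of_le h3
  exact ⟨m, by rw [hk, Nat.dvd_antisymm h1 h2, mul_right_comm, ← pow_add, ← hm, e]⟩

theorem map_eq_of_forall₂ {α β γ : Type*} {R : α → β → Prop} {l : List α} {m : List β} {f : α → γ}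
    {g : β → γ} (h : List.Forall₂ R l m) (e : ∀ a b, R a b → f a = g b) : l.map f = m.map g := by
  induction h with
  | nil => rfl
  | cons a _ ih => rw [List.map_cons, List.map_cons, e _ _ a, ih]

theorem RN.frob (h : D.Ax K) {A : List ι} {i : ι} {s : Sl} (hs : RN D A i s)
    (hA : ∀ j r, D.Kid i j r → j ∈ A) :
    ((s.kids.map fun k => D.c i / k.2).sum + 1) % s.b = 0 := by
  obtain ⟨e, he⟩ := hs.form h hA
  obtain ⟨k, hk⟩ := hs.hpa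
  obtain ⟨ks, a, b, c⟩ := hs.ks
  have := h.frob i hs.hq s.b (k + e) (by rw [he, hk]; ring) hs.hpb
  rw [← map_eq_of_forall₂ c (f := fun j => D.c i / D.c j) fun _ _ x => by rw [x.2],
    ← List.sum_toFinset _ a, add_comm]
  refine Nat.mod_eq_zero_of_dvd (this.trans (dvd_of_eq ?_))
  congr 2
  ext j
  simp only [mem_filter, mem_univ, true_and, List.mem_toFinset, b]
  exact ⟨fun ⟨r, x⟩ => ⟨hA j r x, r, x⟩, fun x => x.2⟩

theorem RN.must (h : D.Ax K) {A : List ι} {i : ι} {s : Sl} (hs : RN D A i s) {k : ℕ × ℕ}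
    (hk : k ∈ s.kids) (h4 : k.2 % 4 ≠ 0) (h2 : D.p i = 2) : D.inv i := by
  obtain ⟨ks, -, -, c⟩ := hs.ks
  obtain ⟨j, -, hj, e⟩ : ∃ j ∈ ks, D.Kid i j k.1 ∧ D.c j = k.2 := by
    obtain ⟨n, hn, rfl⟩ := List.getElem_of_mem hk
    exact ⟨_, List.getElem_mem (c.length_eq ▸ hn), c.get (c.length_eq ▸ hn) hn⟩
  obtain ⟨a, -, b, -⟩ := h.par j hj.1
  obtain ⟨hq, hl⟩ := (h.qq j).resolve_left hj.1
  have := (h.pp j).two_le
  rcases hj.2 with ⟨rfl, -⟩ | ⟨rfl, -⟩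
  · exact h.must j hj.1 (a ▸ h2) (e ▸ mt Nat.mod_eq_zero_of_dvd h4)
  · omega

theorem RN.kidOK (h : D.Ax K) {A : List ι} {i x : ι} {s : Sl} {r : ℕ} (hs : RN D A i s)
    (hx : D.Kid i x r) (hA : x ∉ A) : kidOK s r (D.c x) = true := by
  obtain ⟨ks, a, b, c⟩ := hs.ks
  have m : ∀ k ∈ s.kids, k.1 = r → ∃ j, D.Kid i j r ∧ D.c j = k.2 := fun k hk e => by
    obtain ⟨n, hn, rfl⟩ := List.getElem_of_mem hk
    exact ⟨_, e ▸ c.get (c.length_eq ▸ hn) hn⟩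
  simp only [H15.KG.kidOK, br, Nat.ble_eq, Nat.beq_eq, nadd, nmul, nmod, allL_iff, sumL_eq]
  by_cases k : r ^ 2 ∣ D.c x
  · rw [if_pos (Nat.mod_eq_zero_of_dvd (sq r ▸ k)), allL_iff]
    intro y hy
    split_ifs with e
    · obtain ⟨j, u, v⟩ := m y hy e
      by_contra w
      have w : ¬ r ^ 2 ∣ D.c j := fun z => w (by
        rw [Nat.beq_eq, ← v]; exact Nat.mod_eq_zero_of_dvd (sq r ▸ z))
      exact w (((h.uni i j r u w).1 x hx) ▸ k)
    · rfl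
  obtain ⟨u1, u2⟩ := h.uni i x r hx k
  rw [if_neg fun z => k (sq r ▸ Nat.dvd_of_mod_eq_zero z), if_pos, Nat.ble_eq]
  · rw [← map_eq_of_forall₂ c (f := fun j => if D.Kid i j r then 1 else 0) fun j y z =>
      if_congr ⟨fun w => kid_uniq h z.1 w, fun w => w ▸ z.1⟩ rfl rfl, ← List.sum_toFinset _ a,
      ← card_filter]
    have : insert x {j ∈ ks.toFinset | D.Kid i j r} ⊆ univ.filter (D.Kid i · r) := fun j hj => by
      rcases mem_insert.1 hj with rfl | hj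
      exacts [mem_filter.2 ⟨mem_univ _, hx⟩, mem_filter.2 ⟨mem_univ _, (mem_filter.1 hj).2⟩]
    have := card_le_card this
    rw [card_insert_of_notMem fun z => hA ((b x).1 (List.mem_toFinset.1 (mem_filter.1 z).1)).1]
      at this
    omega
  · intro y hy
    split_ifs with e
    · obtain ⟨j, u, v⟩ := m y hy e
      rw [Nat.beq_eq, ← v, u1 j u]
    · rfl

theorem RN.add (h : D.Ax K) {A : List ι} {i x : ι} {s : Sl} {r e f : ℕ} (hs : RN D A i s)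
    (hx : D.Kid i x r) (hA : x ∉ A) (hc : D.c x = D.p i ^ e * r ^ f) {k : Sl → Bool}
    (hk : addKid s r (D.p i ^ e) (r ^ f) (D.c x) k = true) :
    ∃ s', RN D (x :: A) i s' ∧ k s' = true := by
  simp only [addKid, frc_eq, mx_eq, nmul, ndiv, lcm_eq] at hk
  obtain ⟨-, hr, hne, hd, -⟩ := kid_facts h hx
  have hp := h.pp i
  obtain ⟨ks, a, b, c⟩ := hs.ks
  obtain ⟨n, hn⟩ := hs.hpa
  have co : r.Coprime (D.p i) := (Nat.coprime_primes hr hp).2 hne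
  refine ⟨⟨s.p, max s.a (D.p i ^ e), s.b.lcm (r ^ f), (r, D.c x) :: s.kids⟩,
    ⟨hs.hp, hs.hq, ?_, ?_, Nat.lcm_dvd hs.hb ((hc ▸ Dvd.intro_left _ rfl).trans hd), ?_,
    ⟨x :: ks, List.nodup_cons.2 ⟨fun z => hA ((b x).1 z).1, a⟩, fun j => ?_, .cons ⟨hx, rfl⟩ c⟩,
    fun j hj t m ht hm => ?_⟩, hk⟩
  · rcases max_choice s.a (D.p i ^ e) with z | z <;> rw [z]
    exacts [hs.ha, (hc ▸ Dvd.intro _ rfl).trans hd]
  · rcases max_choice s.a (D.p i ^ e) with z | z <;> rw [z]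
    exacts [⟨n, hn⟩, ⟨e, rfl⟩]
  · intro z
    rcases (Nat.Prime.dvd_mul hp).1 (z.trans (Nat.lcm_dvd_mul _ _)) with z | z
    exacts [hs.hpb z, hne.symm ((Nat.prime_dvd_prime_iff_eq hp hr).1 (hp.dvd_of_dvd_pow z))]
  · simp only [List.mem_cons, b]
    exact ⟨fun z => z.elim (fun w => ⟨.inl w, r, w ▸ hx⟩) fun w => ⟨.inr w.1, w.2⟩,
      fun z => z.1.elim .inl fun w => .inr ⟨w, z.2⟩⟩
  · rcases List.mem_cons.1 hj with rfl | hj
    · obtain rfl := kid_uniq h ht hx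
      exact (Nat.Coprime.dvd_of_dvd_mul_left (co.pow _ _) (hc ▸ hm)).trans (Nat.dvd_lcm_right _ _)
    · exact (hs.top j hj t m ht hm).trans (Nat.dvd_lcm_left _ _)

end H15.KG
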