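import Cfsg.Agent.Base
import Cfsg.Prelude.Def_Sz
import Cfsg.Prelude.Def_Spor_Mathieu

/-! Tower KG (simple groups with 9, 10 or 11 conjugacy classes): definitions and jobs.
Proofs of the jobs: `blueprints/KG.md`. -/

set_option autoImplicit false

namespace H15.KG

open Classical Finset

universe u

/-- The numerical shadow of the non-identity classes of a group of order `g`: centraliser order
`c`, the primes `p < q` of the element order (`q = 1` for prime powers), the classes `P`, `Q` of the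
`p`-part and the `q`-part, and the involution flag. -/
structure Dat (ι : Type u) where
  g : ℕ
  c : ι → ℕ
  p : ι → ℕ
  q : ι → ℕ
  P : ι → ι
  Q : ι → ι
  inv : ι → Prop

namespace Dat

variable {ι : Type u} [Fintype ι] (D : Dat ι)

/-- `j` is a class of `{p i, s}`-elements (both primes occurring) whose `p i`-part lies in `i`. -/
def Kid (i j : ι) (s : ℕ) : Prop :=
  D.q j ≠ 1 ∧ (D.P j = i ∧ s = D.q j ∨ D.Q j = i ∧ s = D.p j)

/-- The number of classes of non-trivial `r`-elements. -/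
noncomputable def cnt (r : ℕ) : ℕ := #{i | D.p i = r ∧ D.q i = 1}

/-- What the existence of an element of order `a` gives. -/
def Avail (a : ℕ) : Prop :=
  a = 1 ∨ ∃ i e f, e ≤ D.cnt (D.p i) ∧ f ≤ D.cnt (D.q i) ∧ a = D.p i ^ e * D.q i ^ f ∧
    D.p i * D.q i ∣ a

/-- The number of involutions. -/
noncomputable def m : ℕ := ∑ i with D.inv i, D.g / D.c i

structure AxA (K : ℕ) : Prop where
  card : Fintype.card ι + 1 = K
  sum : ∑ i, (1 : ℚ) / D.c i + 1 / D.g = 1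
  five : ∀ i, 5 ≤ D.c i
  cdvd : ∀ i, D.c i ∣ D.g
  pp : ∀ i, (D.p i).Prime
  qq : ∀ i, D.q i = 1 ∨ (D.q i).Prime ∧ D.p i < D.q i
  tdvd : ∀ i, D.p i * D.q i ∣ D.c i
  par : ∀ j, D.q j ≠ 1 → D.p (D.P j) = D.p j ∧ D.q (D.P j) = 1 ∧ D.p (D.Q j) = D.q j ∧
    D.q (D.Q j) = 1 ∧ D.c j ∣ D.c (D.P j) ∧ D.c j ∣ D.c (D.Q j)
  smooth : ∀ j, D.q j ≠ 1 → ∃ e f, D.c j = D.p j ^ e * D.q j ^ f
  inv2 : ∀ i, D.inv i → D.p i = 2 ∧ D.q i = 1
  must : ∀ j, D.q j ≠ 1 → D.p j = 2 → ¬ 4 ∣ D.c j → D.inv (D.P j)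

structure AxB : Prop where
  four : 4 ∣ D.g
  sq : ∀ i, D.q i = 1 → D.p i ^ 2 ∣ D.g → D.p i ^ 2 ∣ D.c i
  top : ∀ i, D.q i = 1 → ∀ s k, s.Prime → s ≠ D.p i → s ^ (k + 1) ∣ D.c i →
    ∃ j, D.Kid i j s ∧ s ^ (k + 1) ∣ D.c j
  gtop : ∀ s k, s.Prime → s ^ (k + 1) ∣ D.g → ∃ i, D.p i = s ∧ D.q i = 1 ∧ s ^ (k + 1) ∣ D.c i
  itop : ∃ i, D.inv i ∧ D.g / D.c i % 2 = 1
  three : ∃ i j, D.q i = 1 ∧ D.q j = 1 ∧ 2 < D.p i ∧ D.p i < D.p j

def Uni : Prop := ∀ i j s, D.Kid i j s → ¬ s ^ 2 ∣ D.c j →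
  (∀ j', D.Kid i j' s → D.c j' = D.c j) ∧ #{j' | D.Kid i j' s} + 1 ≤ s

structure AxC : Prop where
  syl : ∀ i, D.q i = 1 → ¬ D.p i ^ 2 ∣ D.g → (∀ i', D.p i' = D.p i → D.q i' = 1 → D.c i' = D.c i) ∧
    ∃ a, 1 < a ∧ D.Avail a ∧ D.cnt (D.p i) * a + 1 = D.p i
  rat : ∀ i, D.q i = 1 → ∃ n a, n ≤ D.cnt (D.p i) ∧ D.Avail a ∧ n * a + 1 = D.p i

def Frob : Prop := ∀ i, D.q i = 1 → ∀ b e, D.c i = b * D.p i ^ e → ¬ D.p i ∣ b →
  b ∣ 1 + ∑ j with (∃ s, D.Kid i j s), D.c i / D.c j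

def Up (K : ℕ) : Prop := D.m * D.m ≤ D.m + (K - 1) * D.g

def Bs : Prop := ∀ i, D.inv i → ∃ j, D.q j = 1 ∧ 2 < D.p j ∧
  D.g / D.c i + D.p j * (D.g / D.c j) ≤ D.g / D.c i * (D.g / D.c i)

def Lo : Prop :=
  D.m + D.g * #{j | D.c j = D.p j ∧ (D.p j - 1) / D.cnt (D.p j) % 2 = 0} ≤ D.m * D.m

/-- All axioms. -/
structure Ax (K : ℕ) : Prop extends D.AxA K, D.AxB, D.AxC where
  big : 5616 ≤ D.g
  uni : D.Uni
  frob : D.Frob
  up : D.Up K
  bs : D.Bs
  lo : D.Lo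

/-- What the search leaves. -/
def Out (K : ℕ) : Prop :=
  D.g = 5760 ∨ D.g = 7920 ∨ (D.g = 6048 ∧ ∀ i, D.p i = 2 → D.q i = 1 → D.inv i) ∨
    ((∀ i, ¬ (D.p i = 2 ∧ D.q i = 3)) ∧ (D.g = 6048 ∨
      (D.g = 20160 ∧ (K = 10 ∨ ∃ i, D.p i = 2 ∧ D.q i = 1 ∧ ¬ D.inv i ∧ D.c i ≠ 16)) ∨
      (D.g = 29120 ∧ (K = 11 ∨ ∃ i, D.p i = 2 ∧ D.q i = 1 ∧ D.c i = 8)))) ∨
    ((∀ i j, D.inv i → D.inv j → i = j) ∧ (∃ i, D.p i = 2 ∧ D.q i = 3 ∧ D.c i = 6) ∧
      (D.g = 14520 ∨ D.g = 15600 ∨ D.g = 37056))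

end Dat

section
variable {G : Type u} [Group G]

/-- The order of the centraliser. -/
noncomputable abbrev cc (x : G) : ℕ := Nat.card (Subgroup.centralizer ({x} : Set G))

/-- The `s`-part of `x`. -/
noncomputable def part (s : ℕ) (x : G) : G :=
  x ^ (ordCompl[s] (orderOf x) ^ (ordProj[s] (orderOf x)).totient)

/-- The least prime of the order. -/
noncomputable def p1 (x : G) : ℕ := (orderOf x).minFac

/-- The second prime of the order, or `1`. -/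
noncomputable def p2 (x : G) : ℕ := (ordCompl[p1 x] (orderOf x)).minFac

variable (G) in
/-- The non-identity classes. -/
abbrev Cl : Type u := {C : ConjClasses G // C ≠ 1}

noncomputable instance [Finite G] : Fintype (Cl G) := Fintype.ofFinite _

/-- A representative. -/
noncomputable def rep (i : Cl G) : G := Quotient.out i.1

/-- The class of `x` (with default `d` for `x = 1`). -/
noncomputable def cls (x : G) (d : Cl G) : Cl G :=
  if h : ConjClasses.mk x = 1 then d else ⟨ConjClasses.mk x, h⟩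

variable (G) in
noncomputable def dat : Dat (Cl G) where
  g := Nat.card G
  c i := cc (rep i)
  p i := p1 (rep i)
  q i := p2 (rep i)
  P i := cls (part (p1 (rep i)) (rep i)) i
  Q i := cls (part (p2 (rep i)) (rep i)) i
  inv i := orderOf (rep i) = 2

variable (G) in
/-- No element order has three prime divisors. -/
def NT : Prop := ∀ x : G, (orderOf x).primeFactors.card ≤ 2

end

/-- Slot KG-NT. -/
def JobNT : Prop := ∀ (G : Type u) [Group G] [Finite G], (∀ x : G, 5 ≤ cc x) →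
  Nat.card (ConjClasses G) ≤ 11 → NT G

/-- Slot KG-A. -/
def JobA : Prop := ∀ (G : Type u) [Group G] [Finite G], (∀ x : G, 5 ≤ cc x) → NT G →
  (dat G).AxA (Nat.card (ConjClasses G))

/-- Slot KG-B. -/
def JobB : Prop := ∀ (G : Type u) [Group G] [Finite G] [IsSimpleGroup G], ¬ IsMulCommutative G →
  NT G → (dat G).AxB

/-- Slot KG-U. -/
def JobU : Prop := ∀ (G : Type u) [Group G] [Finite G], NT G → (dat G).Uni

/-- Slot KG-C. -/
def JobC : Prop := ∀ (G : Type u) [Group G] [Finite G] [IsSimpleGroup G], ¬ IsMulCommutative G →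
  NT G → (dat G).AxC

/-- Slot KG-F. -/
def JobF : Prop := ∀ (G : Type u) [Group G] [Finite G], NT G → (dat G).Frob

/-- Slot KG-I (two parts). -/
def JobUp : Prop := ∀ (G : Type u) [Group G] [Finite G], (dat G).Up (Nat.card (ConjClasses G))

def JobBs : Prop := ∀ (G : Type u) [Group G] [Finite G] [IsSimpleGroup G], ¬ IsMulCommutative G →
  (dat G).Bs

/-- Slot KG-L. -/
def JobLo : Prop := ∀ (G : Type u) [Group G] [Finite G], (∀ x : G, 5 ≤ cc x) → (dat G).Lo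

/-- Slot KG-A7. -/
def JobA7 : Prop := Nat.card (ConjClasses (alternatingGroup (Fin 7))) ≤ 9

/-- The three conclusions. -/
def Concl (G : Type u) [Group G] : Prop :=
  (Nat.card (ConjClasses G) = 9 → (∃ (F : Type) (_ : Field F) (_ : Fintype F), Fintype.card F = 8 ∧
      Nonempty (G ≃* Matrix.ProjectiveSpecialLinearGroup (Fin 2) F)) ∨
    Nonempty (G ≃* Matrix.ProjectiveSpecialLinearGroup (Fin 2) (ZMod 13)) ∨
    Nonempty (G ≃* ↥(alternatingGroup (Fin 7)))) ∧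
  (Nat.card (ConjClasses G) = 10 → Nonempty (G ≃* ↥Cfsg.Spor.M11) ∨
    ∃ (F : Type) (_ : Field F) (_ : Fintype F), Fintype.card F = 4 ∧
      Nonempty (G ≃* Matrix.ProjectiveSpecialLinearGroup (Fin 3) F)) ∧
  (Nat.card (ConjClasses G) = 11 →
    Nonempty (G ≃* Matrix.ProjectiveSpecialLinearGroup (Fin 2) (ZMod 17)) ∨
    ∃ (F : Type) (_ : Field F) (_ : Fintype F), Fintype.card F = 8 ∧
      Nonempty (G ≃* ↥(Cfsg.Lie.Sz F 4)))

/-- Slot KG-S: small orders. -/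
def JobS : Prop := JobA7 → ∀ (G : Type u) [Group G] [Finite G] [IsSimpleGroup G],
  ¬ IsMulCommutative G → Nat.card G < 5616 → Concl G

/-- Slot KG-N6: no element of order six. -/
def JobN6 : Prop := ∀ (G : Type u) [Group G] [Finite G] [IsSimpleGroup G], ¬ IsMulCommutative G →
  (∀ x : G, orderOf x ≠ 6) → Nat.card G ≠ 6048 ∧
    (Nat.card G = 20160 → ∃ (F : Type) (_ : Field F) (_ : Fintype F), Fintype.card F = 4 ∧
      Nonempty (G ≃* Matrix.ProjectiveSpecialLinearGroup (Fin 3) F)) ∧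
    (Nat.card G = 29120 → ∃ (F : Type) (_ : Field F) (_ : Fintype F), Fintype.card F = 8 ∧
      Nonempty (G ≃* ↥(Cfsg.Lie.Sz F 4)))

/-- Slot KG-L34. -/
def JobL34 : Prop := ∀ (F : Type) [Field F] [Fintype F], Fintype.card F = 4 →
  ∀ (x : Matrix.ProjectiveSpecialLinearGroup (Fin 3) F) (k : ℕ), orderOf x = 2 ^ (k + 2) → cc x = 16

/-- Slot KG-Sz. -/
def JobSz : Prop := ∀ (F : Type) [Field F] [Fintype F], Fintype.card F = 8 →
  ∀ (x : ↥(Cfsg.Lie.Sz F 4)) (k : ℕ), orderOf x = 2 ^ (k + 1) → cc x ≠ 8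

/-- Slot KG-X: the remaining orders. -/
def JobX : Prop := ∀ (G : Type u) [Group G] [Finite G] [IsSimpleGroup G], ¬ IsMulCommutative G →
  (5616 ≤ Nat.card G → ∀ x : G, 5 ≤ cc x) ∧ Nat.card G ≠ 5760 ∧
    (Nat.card G = 7920 → Nat.card (ConjClasses G) = 10 ∧ Nonempty (G ≃* ↥Cfsg.Spor.M11)) ∧
    (Nat.card G = 6048 → ∃ x : G, orderOf x = 4) ∧
    ((∀ x y : G, orderOf x = 2 → orderOf y = 2 → IsConj x y) → ∀ x : G, 6 ∣ orderOf x → cc x = 6 →
      Nat.card G ≠ 14520 ∧ Nat.card G ≠ 15600 ∧ Nat.card G ≠ 37056)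

end H15.KG
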