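import Cfsg.Agent.H15.KGSpec
import Cfsg.Agent.H15.KGAlg

/-! Tower KG: the soundness jobs of the search. -/

set_option autoImplicit false

namespace H15.KG

universe u

namespace Dat

variable {ι : Type u} (D : Dat ι)

/-- A finished entry describes the class `i`. -/
def RD (i : ι) (d : Dn) : Prop :=
  d.p = D.p i ∧ d.q = D.q i ∧ d.c = D.c i ∧ (d.must = true → D.inv i)

/-- The static entries of the second stage. -/
def TyOK (ty : ι → Ty) : Prop :=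
  (∀ i, (ty i).p = D.p i ∧ (ty i).q = D.q i ∧ (D.q i = 1 → (ty i).a ∣ D.c i ∧
    (∃ e, (ty i).a = D.p i ^ e) ∧ (ty i).lb ≤ D.c i)) ∧
  ∀ i j, D.p i = D.p j → D.q i = D.q j → ty i = ty j

/-- `T` lists, in decreasing order, the types of all classes but the `r` with the largest types. -/
def Pre (T : List (ℕ × ℕ)) (r : ℕ) : Prop :=
  ∃ xs ys : List ι, (xs ++ ys).Nodup ∧ (∀ i, i ∈ xs ++ ys) ∧ T = xs.map (fun i => (D.p i, D.q i)) ∧
    ys.length = r ∧ xs ≠ [] ∧ xs.Pairwise (fun i j => D.p j * D.q j ≤ D.p i * D.q i) ∧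
    ∀ x ∈ xs, ∀ y ∈ ys, D.p x * D.q x ≤ D.p y * D.q y

end Dat

/-- Slot KG-Fin. -/
def JobFin : Prop := ∀ (ι : Type u) [Fintype ι] (D : Dat ι) (K : ℕ), D.Ax K →
  ∀ (ds : List ι) (L : List Dn), ds.Nodup → (∀ i, i ∈ ds) → List.Forall₂ D.RD ds L →
    fin K D.g L = true → D.Out K

/-- Slot KG-St (first part). -/
def JobSt1 : Prop := ∀ (ι : Type u) [Fintype ι] (D : Dat ι) (K : ℕ), D.Ax K →
  ∀ (f : List (ℕ × ℕ) → Bool) (r n : ℕ) (T : List (ℕ × ℕ)), D.Pre T (n + r) →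
    stage1 f r n T = true → ∃ T', D.Pre T' r ∧ f T' = true

/-- Slot KG-St (second part). -/
def JobSt2 : Prop := ∀ (ι : Type u) [Fintype ι] (D : Dat ι) (K : ℕ), D.Ax K →
  D.Pre [(2, 1)] (K - 2) ∧ ∀ T, D.Pre T 0 → stage2 K T = true →
    ∃ (ty : ι → Ty) (U : List Ty) (us : List ι), D.TyOK ty ∧ us.Nodup ∧ (∀ i, i ∈ us) ∧
      U.Perm (us.map ty) ∧ srch K (K - 1) 1 1 5 0 U [] [] = true

end H15.KG
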