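import Cfsg.Agent.H15.KGSpec2

/-! Tower KG: the final test job, with the flag condition restricted to `2`-elements. -/

set_option autoImplicit false

namespace H15.KG

universe u

/-- A finished entry describes the class `i`. -/
def Dat.RD' {ι : Type u} (D : Dat ι) (i : ι) (d : Dn) : Prop :=
  d.p = D.p i ∧ d.q = D.q i ∧ d.c = D.c i ∧ (d.must = true → D.p i = 2 → D.inv i)

/-- Slot KG-Fin, final form. -/
def JobFin' : Prop := ∀ (ι : Type u) [Fintype ι] (D : Dat ι) (K : ℕ), D.Ax K →
  ∀ (ds : List ι) (L : List Dn), ds.Nodup → (∀ i, i ∈ ds) → List.Forall₂ D.RD' ds L →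
    fin K D.g L = true → D.Out K

end H15.KG
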