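import Cfsg.Agent.H15.KGAlg

/-! Tower KG: part of the search for 11 classes. -/

set_option autoImplicit false
set_option maxHeartbeats 400000

namespace H15.KG

def s11_3 : List ℕ := [2855891905577588707912500509965280975510309889]

theorem c11_3 : allL s11_3 (fun c => dec 8 c (stage1 (stage2 11) 0 2)) = true := by
  decide +kernel

def s11_4 : List ℕ := [2855891905577588707912500509965280975510311937]

theorem c11_4 : allL s11_4 (fun c => dec 8 c (stage1 (stage2 11) 0 2)) = true := by
  decide +kernel

def s11_9 : List ℕ := [2855891905577588707912500509965280974438669313, 2855891905577588707912500509965280974438675457,
  2855891905577588707912500509965280974438679553, 2855891905577588707912500509965280974438681601,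
  2855891905577588707912500509965280974438700033, 2855891905577588707912500509965280979805281281,
  2855891905577588707912500509965280986247738369, 2855891905577588707912500509967532777471480833,
  2855891905577588707912500509967532777471482881, 2855891905577588707912500509967532777471477765]

theorem c11_9 : allL s11_9 (fun c => dec 8 c (stage1 (stage2 11) 0 2)) = true := by
  decide +kernel

def s11_53 : List ℕ := [2855891905578886783365075436749414594050528257]

theorem c11_53 : allL s11_53 (fun c => dec 8 c (stage1 (stage2 11) 0 2)) = true := by
  decide +kernel

def s11_59 : List ℕ := [2855891905578886783365075436751666390645087233]

theorem c11_59 : allL s11_59 (fun c => dec 8 c (stage1 (stage2 11) 0 2)) = true := by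
  decide +kernel

def s11_64 : List ℕ := [2855891905578886783365077797934907825467694081]

theorem c11_64 : allL s11_64 (fun c => dec 8 c (stage1 (stage2 11) 0 2)) = true := by
  decide +kernel

def s11_68 : List ℕ := [2855891905578886783365077797931532324770421761]

theorem c11_68 : allL s11_68 (fun c => dec 8 c (stage1 (stage2 11) 0 2)) = true := by
  decide +kernel

def s11_79 : List ℕ := [2855891905578886785840957876502292884230253569, 2855891905578886785840957876502292884230255617,
  2855891905578886785840957876502292884230245381, 2855891905578886785840957876502292884230261761,
  2855891905578886785840957876502292884230244363, 2855891905578886785840957876502292884230265857,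
  2855891905578886785840957876502292884230245387, 2855891905578886785840957876502292884230280193,
  2855891905578886785840957876502292884230247435, 2855891905578886785840957876502292886377739265,
  2855891905578886785840957876502292886377729029, 2855891905578886785840957876502292886377745409]

theorem c11_79 : allL s11_79 (fun c => dec 8 c (stage1 (stage2 11) 0 2)) = true := by
  decide +kernel

def s11_84 : List ℕ := [2855891905578886785840954337038901037426023425, 2855891905578886785840954337038901037426018309]

theorem c11_84 : allL s11_84 (fun c => dec 8 c (stage1 (stage2 11) 0 2)) = true := by
  decide +kernel

def s11_104 : List ℕ := [2855893266710950618024075604345968712152521729, 2855893266710950618024075604345968712152516613,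
  2855893266710950618024075604345968712152525825, 2855893266710950618024075604345968712152527873,
  2855893266710950618024075604345968712152516615, 2855893266710950618024075604345968712152517637,
  2855893266710950618024075604345968712152534017, 2855893266710950618024075604345968712152517639,
  2855893266710950618024075604345968712152519687, 2855893266710950618024075604345968706788001797,
  2855893266710950618024075604345968706788011009, 2855893266710950618024075604345968706788013057,
  2855893266710950618024075604345968706788002821, 2855893266710950618024075604345968706788019201,
  2855893266710950618024075604345968706788031489, 2855893266710950618024075604345968716447493121,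
  2855893266710950618024075604345968716447495169, 2855893266710950618024075604345968716447484933]

theorem c11_104 : allL s11_104 (fun c => dec 8 c (stage1 (stage2 11) 0 2)) = true := by
  decide +kernel

end H15.KG
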