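import Cfsg.Agent.H15.KGc11a
import Cfsg.Agent.H15.KGc11b
import Cfsg.Agent.H15.KGc11c
import Cfsg.Agent.H15.KGc11d
import Cfsg.Agent.H15.KGc11e
import Cfsg.Agent.H15.KGc11f
import Cfsg.Agent.H15.KGc11g
import Cfsg.Agent.H15.KGc11h
import Cfsg.Agent.H15.KGc11i
import Cfsg.Agent.H15.KGc11j
import Cfsg.Agent.H15.KGc11k
import Cfsg.Agent.H15.KGc11l
import Cfsg.Agent.H15.KGc10a

/-! Tower KG: the tops of the search trees. -/

set_option autoImplicit false
set_option maxHeartbeats 400000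

namespace H15.KG

theorem top9 : stage1 (stage2 9) 0 7 [(2, 1)] = true := by decide +kernel

def ss10 : List (List ℕ) := [s10_0, s10_1, s10_2, s10_3, s10_4, s10_5, s10_6, s10_7, s10_8, s10_9,
  s10_10, s10_11, s10_12, s10_13, s10_14]

theorem top10 : stage1 (fun T => anyL ss10 fun S => coded 6 S T) 3 5 [(2, 1)] = true := by
  decide +kernel

theorem rest10 (T : List (ℕ × ℕ)) (h : anyL ss10 (fun S => coded 6 S T) = true) :
    stage1 (stage2 10) 0 3 T = true := by
  obtain ⟨S, hS, h⟩ := anyL_iff.1 h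
  refine coded_spec h (allL_iff.1 ?_)
  clear h
  revert S
  simp only [ss10, List.forall_mem_cons]
  exact ⟨c10_0, c10_1, c10_2, c10_3, c10_4, c10_5, c10_6, c10_7, c10_8, c10_9,
    c10_10, c10_11, c10_12, c10_13, c10_14, nofun⟩

def ss11 : List (List ℕ) := [s11_0, s11_1, s11_2, s11_3, s11_4, s11_5, s11_6, s11_7, s11_8, s11_9,
  s11_10, s11_11, s11_12, s11_13, s11_14, s11_15, s11_16, s11_17, s11_18, s11_19,
  s11_20, s11_21, s11_22, s11_23, s11_24, s11_25, s11_26, s11_27, s11_28, s11_29,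
  s11_30, s11_31, s11_32, s11_33, s11_34, s11_35, s11_36, s11_37, s11_38, s11_39,
  s11_40, s11_41, s11_42, s11_43, s11_44, s11_45, s11_46, s11_47, s11_48, s11_49,
  s11_50, s11_51, s11_52, s11_53, s11_54, s11_55, s11_56, s11_57, s11_58, s11_59,
  s11_60, s11_61, s11_62, s11_63, s11_64, s11_65, s11_66, s11_67, s11_68, s11_69,
  s11_70, s11_71, s11_72, s11_73, s11_74, s11_75, s11_76, s11_77, s11_78, s11_79,
  s11_80, s11_81, s11_82, s11_83, s11_84, s11_85, s11_86, s11_87, s11_88, s11_89,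
  s11_90, s11_91, s11_92, s11_93, s11_94, s11_95, s11_96, s11_97, s11_98, s11_99,
  s11_100, s11_101, s11_102, s11_103, s11_104, s11_105, s11_106, s11_107, s11_108, s11_109,
  s11_110, s11_111, s11_112]

theorem top11 : stage1 (fun T => anyL ss11 fun S => coded 8 S T) 2 7 [(2, 1)] = true := by
  decide +kernel

theorem rest11 (T : List (ℕ × ℕ)) (h : anyL ss11 (fun S => coded 8 S T) = true) :
    stage1 (stage2 11) 0 2 T = true := by
  obtain ⟨S, hS, h⟩ := anyL_iff.1 h
  refine coded_spec h (allL_iff.1 ?_)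
  clear h
  revert S
  simp only [ss11, List.forall_mem_cons]
  exact ⟨c11_0, c11_1, c11_2, c11_3, c11_4, c11_5, c11_6, c11_7, c11_8, c11_9,
    c11_10, c11_11, c11_12, c11_13, c11_14, c11_15, c11_16, c11_17, c11_18, c11_19,
    c11_20, c11_21, c11_22, c11_23, c11_24, c11_25, c11_26, c11_27, c11_28, c11_29,
    c11_30, c11_31, c11_32, c11_33, c11_34, c11_35, c11_36, c11_37, c11_38, c11_39,
    c11_40, c11_41, c11_42, c11_43, c11_44, c11_45, c11_46, c11_47, c11_48, c11_49,
    c11_50, c11_51, c11_52, c11_53, c11_54, c11_55, c11_56, c11_57, c11_58, c11_59,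
    c11_60, c11_61, c11_62, c11_63, c11_64, c11_65, c11_66, c11_67, c11_68, c11_69,
    c11_70, c11_71, c11_72, c11_73, c11_74, c11_75, c11_76, c11_77, c11_78, c11_79,
    c11_80, c11_81, c11_82, c11_83, c11_84, c11_85, c11_86, c11_87, c11_88, c11_89,
    c11_90, c11_91, c11_92, c11_93, c11_94, c11_95, c11_96, c11_97, c11_98, c11_99,
    c11_100, c11_101, c11_102, c11_103, c11_104, c11_105, c11_106, c11_107, c11_108, c11_109,
    c11_110, c11_111, c11_112, nofun⟩

end H15.KG
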