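import Cfsg.Agent.H36.O84Spec

/-! Tower O84 (S3384), item NODE. -/

set_option autoImplicit false
set_option maxHeartbeats 400000

namespace H15.O84

open Matrix H36.O84

theorem two_ne : (2 : ZMod 5) ≠ 0 := by decide
theorem five_eq : ((5 : ℕ) : ZMod 5) = 0 := by decide

theorem jobNODE : JobNODE := by
  intro Γ _ _ S hR hH A B c s hA hp hcT hcA hc1 hcl hBT hB hcen hs hsc
  classical
  haveI : Fact (Nat.Prime 5) := ⟨by norm_num⟩
  obtain ⟨f, hf, hfB⟩ := hH B hBT hB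
  obtain ⟨c0, rfl⟩ := hcT
  obtain ⟨c0, rfl⟩ := Multiplicative.ofAdd.surjective c0
  set t : V → Γ := fun a => S.τ (Multiplicative.ofAdd a) with ht
  have tadd : ∀ a b, t (a + b) = t a * t b := fun a b => by simp only [ht, ofAdd_add, map_mul]
  have tneg : ∀ a, t (-a) = (t a)⁻¹ := fun a => by simp only [ht, ofAdd_neg, map_inv]
  have tn : ∀ (k : ℕ) a, t ((k : ZMod 5) • a) = t a ^ k := fun k a => by
    simp only [ht, Nat.cast_smul_eq_nsmul, ofAdd_nsmul, map_pow]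
  have tinj : ∀ a b, t a = t b → a = b := fun a b h => Multiplicative.ofAdd.injective (S.inj h)
  have t0 : t 0 = 1 := by simp [ht]
  change t c0 ∈ A at hcA
  change t c0 ≠ 1 at hc1
  change s * t c0 * s⁻¹ = (t c0)⁻¹ at hsc
  have c0ne : c0 ≠ 0 := fun h => hc1 (by rw [h, t0])
  have sm : ∀ k : ZMod 5, k • c0 = 0 → k = 0 := fun k hk => (smul_eq_zero.1 hk).resolve_right c0ne
  have fc : f ⬝ᵥ c0 ≠ 0 := fun h => by
    have h1 := hcen s hs _ ((hfB c0).2 h)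
    change s * t c0 = t c0 * s at h1
    rw [h1, mul_inv_cancel_right, ← tneg] at hsc
    have h2 : (2 : ZMod 5) • c0 = 0 := by rw [two_smul]; nth_rw 1 [tinj _ _ hsc]; simp
    exact two_ne (sm 2 h2)
  obtain ⟨l, hl, hAK⟩ := S.u4 f A c0 hf (fun x hx a ha => hcen x hx _ ((hfB a).2 ha)) hp hcA hcl
    (fun h => hc1 (by rwa [h, Subgroup.mem_bot] at hcA))
  have hAe : A = S.K l := Subgroup.eq_of_le_of_card_ge hAK ((S.cardK l).trans hA)
  have c60 : Nat.card A = 60 := le_antisymm (hAe ▸ S.cardK l) hA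
  have hν : S.ν l ∈ A := hAe ▸ S.νK l
  have act : ∀ a, S.ν l * t a * (S.ν l)⁻¹ = t (r l *ᵥ a) := S.νA l
  have rk : ∀ a, f ⬝ᵥ a = 0 → r l *ᵥ a = a := fun a ha => tinj _ _ (by
    have h1 := hcen _ hν _ ((hfB a).2 ha)
    change S.ν l * t a = t a * S.ν l at h1
    rw [← act, h1, mul_inv_cancel_right])
  have cT : Nat.card S.T = 625 := by
    rw [Sys.T, ← Nat.card_congr (MonoidHom.ofInjective S.inj).toEquiv]
    simp [V, Nat.card_eq_fintype_card]
  have o5 : orderOf (t c0) = 5 := orderOf_eq_prime (by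
    rw [← tn, five_eq, zero_smul, t0]) hc1
  have hD : Subgroup.zpowers (t c0) = A ⊓ S.T := by
    refine Subgroup.eq_of_le_of_card_ge (Subgroup.zpowers_le.2 ⟨hcA, ⟨_, rfl⟩⟩) ?_
    have h1 := Subgroup.card_dvd_of_le (inf_le_left : A ⊓ S.T ≤ A)
    have h2 := Subgroup.card_dvd_of_le (inf_le_right : A ⊓ S.T ≤ S.T)
    rw [c60] at h1
    rw [cT] at h2
    rw [Nat.card_zpowers, o5]
    exact Nat.le_of_dvd (by norm_num) (Nat.dvd_gcd h1 h2)
  obtain ⟨k, hk⟩ : ∃ k : ZMod 5, r l *ᵥ c0 = k • c0 := by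
    have h1 : t (r l *ᵥ c0) ∈ Subgroup.zpowers (t c0) := by
      rw [hD]
      exact ⟨by rw [← act]; exact A.mul_mem (A.mul_mem hν hcA) (A.inv_mem hν), ⟨_, rfl⟩⟩
    obtain ⟨k, hk⟩ := (mem_powers_iff_mem_zpowers.2 h1)
    exact ⟨k, tinj _ _ (by rw [tn]; exact hk.symm)⟩
  have dec : ∀ a : V, ∃ (b : V) (μ : ZMod 5), f ⬝ᵥ b = 0 ∧ a = b + μ • c0 := fun a =>
    ⟨a - (f ⬝ᵥ a / f ⬝ᵥ c0) • c0, f ⬝ᵥ a / f ⬝ᵥ c0, by
      rw [dotProduct_sub, dotProduct_smul, smul_eq_mul, div_mul_cancel₀ _ fc, sub_self], by simp⟩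
  have kk : k * k = 1 := by
    have h1 : r l *ᵥ (r l *ᵥ c0) = c0 := by rw [mulVec_mulVec, hR.2.1, one_mulVec]
    rw [hk, mulVec_smul, hk, smul_smul] at h1
    exact sub_eq_zero.1 (sm _ (by rw [sub_smul, h1, one_smul, sub_self]))
  have k1 : k = -1 := by
    rcases mul_self_eq_one_iff.1 kk with rfl | h
    · exfalso
      refine hR.2.2 l (Matrix.ext_iff_mulVec.2 fun a => ?_)
      obtain ⟨b, μ, hb, rfl⟩ := dec a
      rw [mulVec_add, rk b hb, mulVec_smul, hk, one_smul, one_mulVec]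
    · exact h
  refine ⟨l, hAe, fun a => ?_, fun a => (hfB a).trans (hl a)⟩
  obtain ⟨b, μ, hb, rfl⟩ := dec a
  change s * t (b + μ • c0) * s⁻¹ = t (r l *ᵥ (b + μ • c0))
  have h1 := hcen _ hs _ ((hfB b).2 hb)
  change s * t b = t b * s at h1
  rw [mulVec_add, rk b hb, mulVec_smul, hk, k1, neg_one_smul, tadd, tadd, ← ZMod.natCast_zmod_val μ,
    tn, tn, tneg, ← hsc, conj_pow, ← mul_assoc, h1]
  group

end H15.O84
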