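import Cfsg.Agent.H93.OrS

/-! Ore tower in characteristic two: slot EX. -/

set_option autoImplicit false

namespace H15.Or
open H56 H60 H93.O2 H93.Or QuadraticMap Module

universe u

variable {F V : Type*} [Field F] [AddCommGroup V] [Module F V] [FiniteDimensional F V]
  {Q : QuadraticForm F V} {s t : O Q} {R : Submodule F V}

theorem iso (h2 : (2 : F) = 0) (ss : s * s = 1) {x y : V} (hx : x ∈ s.mov) (hy : y ∈ s.mov) :
    polar Q x y = 0 :=
  mem_perp'.1 (s.mov_le_perp_fix hx) y (mov_le_fix h2 (by rw [pow_two, ss]) hy)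

omit [FiniteDimensional F V] in
theorem adj (ss : s * s = 1) (x y : V) : polar Q (s x) y = polar Q x (s y) := by
  rw [O.polar_apply_left, inv_eq_of_mul_eq_one_left ss]

theorem exists_char (h2 : (2 : F) = 0) (hQ : Q.polarBilin.Nondegenerate)
    (hF : ∀ c : F, c = 0 ∨ c = 1) (ss : s * s = 1) :
    ∃ a ∈ s.mov, ∀ y, polar Q y (s y) = polar Q a y := by
  obtain ⟨a, ha⟩ := exists_polar_eq hQ
    { toFun := fun y => polar Q y (s y)
      map_add' := fun y z => by
        rw [map_add, polar_add_left, polar_add_right, polar_add_right, ← adj ss z y,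
          polar_comm Q (s z) y]
        linear_combination (polar Q y (s z)) * h2
      map_smul' := fun c y => by rcases hF c with rfl | rfl <;> simp }
  refine ⟨a, s.perp_fix hQ ▸ mem_perp'.2 fun y hy => (ha y).trans ?_, fun y => (ha y).symm⟩
  show polar Q y (s y) = 0
  rw [O.mem_fix.1 hy, polar_self', h2, zero_mul]

theorem inj (h2 : (2 : F) = 0) (tt : t * t = 1) (tm : t.mov ≤ R)
    (hf : ∀ x ∈ R, s x = x → t x = x → x = 0) {x : V} (hx : x ∈ t.mov) (e : s x - x = 0) : x = 0 :=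
  hf x (tm hx) (sub_eq_zero.1 e) (O.mem_fix.1 (mov_le_fix h2 (by rw [pow_two, tt]) hx))

theorem rk_le (h2 : (2 : F) = 0) (tt : t * t = 1) (tm : t.mov ≤ R)
    (hf : ∀ x ∈ R, s x = x → t x = x → x = 0) :
    t.rk ≤ s.rk ∧ (s.rk ≤ t.rk → ∀ a ∈ s.mov, ∃ x ∈ t.mov, s x - x = a) := by
  let f : t.mov →ₗ[F] s.mov := ((s.lin - LinearMap.id).rangeRestrict).comp t.mov.subtype
  have fi : Function.Injective f := (injective_iff_map_eq_zero f).2 fun x e =>
    Subtype.ext (inj h2 tt tm hf x.2 (congrArg Subtype.val e))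
  refine ⟨LinearMap.finrank_le_finrank_of_injective fi, fun h a ha => ?_⟩
  obtain ⟨x, e⟩ := (LinearMap.injective_iff_surjective_of_finrank_eq_finrank
    (le_antisymm (LinearMap.finrank_le_finrank_of_injective fi) h)).1 fi ⟨a, ha⟩
  exact ⟨x, x.2, congrArg Subtype.val e⟩

theorem sep (h2 : (2 : F) = 0) (hQ : Q.polarBilin.Nondegenerate) (tt : t * t = 1) (tm : t.mov ≤ R)
    (hf : ∀ x ∈ R, s x = x → t x = x → x = 0) {x : V} (hx : x ∈ t.mov)
    (e : ∀ y ∈ s.mov, polar Q y x = 0) : x = 0 :=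
  inj h2 tt tm hf hx (sub_eq_zero.2 (O.mem_fix.1 (s.perp_mov hQ ▸ mem_perp.2 e)))

theorem dual (h2 : (2 : F) = 0) (hQ : Q.polarBilin.Nondegenerate) (tt : t * t = 1) (tm : t.mov ≤ R)
    (hf : ∀ x ∈ R, s x = x → t x = x → x = 0) {x z z' : V} (hx : x ∈ t.mov) (hz : z ∈ t.mov)
    (hz' : z' ∈ t.mov) (n : x ∉ Submodule.span F {z, z'}) :
    ∃ w ∈ s.mov, polar Q w z = 0 ∧ polar Q w z' = 0 ∧ polar Q w x = 1 := by
  rw [← perp_perp hQ (Submodule.span F {z, z'}), mem_perp'] at n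
  push Not at n
  obtain ⟨y, hy, e⟩ := n
  obtain ⟨y, hy, e⟩ := exists_polar_eq_one_of_ne hy e
  obtain ⟨w, hw, k⟩ := exists_polar_eq_dual (Q := Q) s.mov t.mov LinearMap.id
    (fun x hx => sep h2 hQ tt tm hf hx) (Q.polarBilin y)
  obtain ⟨a, b⟩ := mem_perp_span_pair.1 hy
  exact ⟨w, hw, (k z hz).trans ((polar_comm Q y z).trans a),
    (k z' hz').trans ((polar_comm Q y z').trans b), (k x hx).trans ((polar_comm Q y x).trans e)⟩

theorem dual1 (h2 : (2 : F) = 0) (hQ : Q.polarBilin.Nondegenerate) (hF : ∀ c : F, c = 0 ∨ c = 1)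
    (tt : t * t = 1) (tm : t.mov ≤ R) (hf : ∀ x ∈ R, s x = x → t x = x → x = 0) {x z : V}
    (hx : x ∈ t.mov) (hz : z ∈ t.mov) (n0 : x ≠ 0) (n : x ≠ z) :
    ∃ w ∈ s.mov, polar Q w z = 0 ∧ polar Q w x = 1 := by
  obtain ⟨w, a, b, -, c⟩ := dual h2 hQ tt tm hf hx hz hz fun k => by
    rw [Set.pair_eq_singleton, Submodule.mem_span_singleton] at k
    obtain ⟨c, rfl⟩ := k
    rcases hF c with rfl | rfl
    exacts [n0 (zero_smul _ _), n (one_smul _ _)]
  exact ⟨w, a, b, c⟩

theorem jobEX : JobEX.{u} := fun T2 F V _ _ _ _ _ _ Q hQ c2 s t R a ss tt hR sm tm hf h6 ns nt hu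
    ha Qa => by
  have h2 : (2 : F) = 0 := CharTwo.two_eq_zero
  have hF : ∀ c : F, c = 0 ∨ c = 1 := fun c => or_iff_not_imp_left.2 fun k =>
    ((Nat.card_eq_two_iff' 0).1 c2).unique k one_ne_zero
  have hf' : ∀ x ∈ R, t x = x → s x = x → x = 0 := fun x hx a b => hf x hx b a
  obtain ⟨r1, on⟩ := rk_le h2 tt tm hf
  have r2 := (rk_le h2 ss sm hf').1
  have r3 : 3 ≤ t.rk := by
    let f : R →ₗ[F] s.mov × t.mov := (((s.lin - LinearMap.id).rangeRestrict).prod
      (t.lin - LinearMap.id).rangeRestrict).comp R.subtype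
    have := LinearMap.finrank_le_finrank_of_injective (f := f)
      ((injective_iff_map_eq_zero f).2 fun x e => Subtype.ext (hf x x.2
        (sub_eq_zero.1 (congrArg (fun p => p.1.1) e)) (sub_eq_zero.1 (congrArg (fun p => p.2.1) e))))
    rw [finrank_prod] at this
    unfold O.rk at *
    omega
  obtain ⟨p, pm, hp⟩ := exists_char h2 hQ hF ss
  obtain ⟨q, qm, hq⟩ := exists_char h2 hQ hF tt
  have p0 : p ≠ 0 := fun e => let ⟨y, k⟩ := ns; k (by rw [hp, e, polar_zero_left])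
  have q0 : q ≠ 0 := fun e => let ⟨y, k⟩ := nt; k (by rw [hq, e, polar_zero_left])
  obtain ⟨α, αm, hα⟩ := on r2 p pm
  have QI : ∀ w ∈ s.mov, Q w = polar Q w α := fun w hw => by
    obtain ⟨y, rfl⟩ := O.mem_mov.1 hw
    rw [Q_sub_eq h2, hp, ← hα, polar_sub_left, polar_sub_left, adj ss, polar_comm Q α,
      polar_comm Q α]
  have qα : q ≠ α := fun e => let ⟨y, k⟩ := hu; k (by
    rw [hq, e, polar_comm, ← QI _ (s.sub_mem_mov y), Q_sub_eq h2])
  have aR : ∀ x ∈ R, polar Q x a = 0 := ha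
  have aR' : ∀ x ∈ R, polar Q a x = 0 := mem_perp'.1 ha
  have sa : s a = a := O.mem_fix.1 (s.perp_mov hQ ▸ fun x hx => aR x (sm hx))
  have ta : a ∈ t.fix := t.perp_mov hQ ▸ fun x hx => aR x (tm hx)
  have a0 : a ∉ R := fun k => zero_ne_one (by rw [← Qa, hR.eq_zero k ha, map_zero])
  have t' : ∀ y, (t * refl Q a) y = t y - polar Q a y • a := fun y => by
    rw [O.mul_apply, refl_apply, Qa, inv_one, one_mul, map_sub, map_smul, O.mem_fix.1 ta]
  have tt' : t * refl Q a * (t * refl Q a) = 1 := by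
    rw [mul_assoc, ← mul_assoc (refl Q a), ← refl_comm ta, mul_assoc, refl_mul_self, mul_one, tt]
  have rk' : (t * refl Q a).rk = s.rk + 1 := by
    rw [(wall_mul_refl_of_notMem hQ t (Qa ▸ one_ne_zero) (mt (@tm a) a0)).1, le_antisymm r1 r2]
  have fx : ∀ y ∈ (t * refl Q a).fix, polar Q a y = 0 ∧ y ∈ t.fix := fun y hy => by
    rw [O.mem_fix, t'] at hy
    rcases hF (polar Q a y) with e | e <;> rw [e] at hy
    · exact ⟨e, O.mem_fix.2 (by rwa [zero_smul, sub_zero] at hy)⟩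
    · rw [one_smul, sub_eq_iff_eq_add, ← sub_eq_iff_eq_add'] at hy
      exact absurd (tm (hy ▸ t.sub_mem_mov y)) a0
  -- the vector `v`
  have hv : ∀ v ∈ t.mov, v + (1 + Q v) • a ∈ (t * refl Q a).mov ∧ Q (v + (1 + Q v) • a) = 1 ∧
      ∀ x ∈ R, polar Q x (v + (1 + Q v) • a) = polar Q x v := fun v vm => by
    refine ⟨(t * refl Q a).perp_fix hQ ▸ mem_perp'.2 fun y hy => ?_, ?_, fun x hx => ?_⟩
    · rw [polar_add_left, polar_smul_left, (fx y hy).1, smul_zero, add_zero]
      exact mem_perp'.1 (t.mov_le_perp_fix vm) y (fx y hy).2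
    · rw [Q_add, QuadraticMap.map_smul, polar_smul_right, aR v (tm vm), Qa]
      rcases hF (Q v) with e | e <;> rw [e] <;> simp [one_add_one_eq_two, h2]
    · rw [polar_add_right, polar_smul_right, aR x hx, smul_zero, add_zero]
  have tw : ∀ w ∈ s.mov, (t * refl Q a) w = t w := fun w wm => by
    rw [t', aR' w (sm wm), zero_smul, sub_zero]
  -- two solutions
  obtain ⟨w1, m1, e1, f1⟩ := dual1 h2 hQ hF tt tm hf qm αm q0 qα
  obtain ⟨w0, m0, e0, f0, n0⟩ : ∃ w ∈ s.mov, polar Q w α = 0 ∧ polar Q w q = 0 ∧ w ≠ 0 := by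
    obtain ⟨x, xm, n⟩ : ∃ x ∈ t.mov, x ∉ Submodule.span F {α, q} := by
      by_contra! k
      classical
      have := (Submodule.finrank_mono (show t.mov ≤ _ from k)).trans (finrank_span_le_card _)
      rw [Set.toFinset_insert, Set.toFinset_singleton] at this
      have := this.trans Finset.card_le_two
      unfold O.rk at r3
      omega
    obtain ⟨w, b, c, d, e⟩ := dual h2 hQ tt tm hf xm αm qm n
    exact ⟨w, b, c, d, fun k => zero_ne_one (by rw [← e, k, polar_zero_left])⟩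
  have two : ∀ P : V → Prop, (∀ x ∈ s.mov, ∀ y ∈ s.mov, P x → P y → x = y) →
      ∃ w ∈ s.mov, polar Q w α = 0 ∧ polar Q w q = 1 ∧ ¬ P w := fun P hP => by
    by_cases k : P w1
    · exact ⟨w1 + w0, add_mem m1 m0, by rw [polar_add_left, e1, e0, add_zero],
        by rw [polar_add_left, f1, f0, add_zero],
        fun l => n0 (left_eq_add.1 (hP _ m1 _ (add_mem m1 m0) k l))⟩
    · exact ⟨w1, m1, e1, f1, k⟩
  rcases hF (polar Q p α) with c | c
  · obtain ⟨w, wm, e, f, n⟩ := two (p = ·) fun _ _ _ _ a b => a.symm.trans b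
    obtain ⟨v, vm, g, k⟩ := dual1 h2 hQ hF ss sm hf' pm wm p0 n
    obtain ⟨v1, v2, v3⟩ := hv v vm
    refine T2 F V Q hQ s _ _ w ss tt' rk' v1 v2 (by rw [hp, v3 p (sm pm), polar_comm, k]) wm
      ((QI w wm).trans e) (by rw [v3 w (sm wm), polar_comm, g])
      (by rw [tw w wm, hq, polar_comm, f]) (.inl ?_)
    let β : LinearMap.BilinForm F t.mov := Q.polarBilin.compl₁₂ t.mov.subtype
      ((s.lin - LinearMap.id - (Q.polarBilin p).smulRight p).comp t.mov.subtype)
    have hβ : ∀ x y, β x y = polar Q x (s y - y - polar Q p y • p) := fun _ _ => rfl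
    rw [← le_antisymm r1 r2]
    refine H54.even_finrank_of_isAlt (B := β)
      (LinearMap.BilinForm.Nondegenerate.ofSeparatingRight fun y hy => Subtype.ext ?_) fun x => ?_
    · have z := sep h2 hQ ss sm hf' (sub_mem (s.sub_mem_mov y) (s.mov.smul_mem (polar Q p y) pm))
        fun x hx => hy ⟨x, hx⟩
      rcases hF (polar Q p y) with l | l <;> rw [l] at z
      · exact inj h2 tt tm hf y.2 (by rwa [zero_smul, sub_zero] at z)
      · have := inj h2 tt tm hf (sub_mem y.2 αm) (by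
          rw [one_smul, ← hα] at z; rw [← z, map_sub]; abel)
        rw [sub_eq_zero.1 this, c] at l
        exact absurd l zero_ne_one
    · rw [hβ, polar_sub_right, polar_sub_right, polar_smul_right, hp, polar_self', h2, polar_comm Q x]
      rcases hF (polar Q p x) with l | l <;> simp [l]
  · obtain ⟨w, wm, e, f, n⟩ := two (fun w => q - α = t w - w) fun x hx y hy a b =>
      sub_eq_zero.1 (inj h2 ss sm hf' (sub_mem hx hy) (by
        rw [map_sub, sub_sub_sub_comm, ← a, ← b, sub_self]))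
    obtain ⟨v1, v2, v3⟩ := hv α αm
    refine T2 F V Q hQ s _ _ w ss tt' rk' v1 v2 (by rw [hp, v3 p (sm pm), c]) wm
      ((QI w wm).trans e) (by rw [v3 w (sm wm), e]) (by rw [tw w wm, hq, polar_comm, f])
      (.inr ⟨?_, ?_⟩)
    · obtain ⟨y, ym, g, k⟩ := dual1 h2 hQ hF ss sm hf' wm pm
        (fun z => zero_ne_one (by rw [← f, z, polar_zero_left]))
        fun z => zero_ne_one (by rw [← c, ← z, e])
      refine ⟨y, by rw [v3 y (tm ym), iso h2 tt ym αm], ?_, by
        rw [hp, polar_comm, g, k, one_pow]; exact zero_ne_one⟩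
      rw [← adj ss, v3 _ (by simpa using add_mem (sm (s.sub_mem_mov y)) (tm ym)), adj ss,
        sub_eq_iff_eq_add.1 hα, polar_add_right, g, iso h2 tt ym αm, add_zero]
    · obtain ⟨y, ym, g, k⟩ := dual1 h2 hQ hF tt tm hf (sub_mem qm αm) (t.sub_mem_mov w)
        (sub_ne_zero.2 qα) n
      have yw := iso h2 ss ym wm
      refine ⟨y, yw, by rwa [polar_sub_right, yw, sub_zero, ← tw w wm] at g, ?_⟩
      rw [polar_sub_right, sub_eq_iff_eq_add] at k
      rw [tw y ym, hq, v3 y (sm ym), polar_comm, k]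
      rcases hF (polar Q y α) with l | l <;> simp [l]

end H15.Or
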