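/- PN tower (S3399), item FOUR. -/
import Cfsg.Agent.H42.PnSpec

set_option autoImplicit false
set_option linter.unusedSectionVars false
set_option maxHeartbeats 400000

namespace H15.PN
open Equiv MulAction Pointwise H2.Ln H42.PN

section
variable {α : Type} [Fintype α] [DecidableEq α]

theorem t4_of {G : Subgroup (Perm α)} (h3 : T3 G Finset.univ) {a a' b : α} (nd : [a, a', b].Nodup)
    (htr : ∀ c ∉ [a, a', b], ∀ c' ∉ [a, a', b], ∃ g ∈ fx G {a, a', b}, g c = c') :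
    T4 G Finset.univ := by
  intro x _ y _ z _ w _ x' _ y' _ z' _ w' _ e e'
  have u := Finset.mem_univ (α := α)
  obtain ⟨g, hg, g1, g2, g3⟩ := h3 x (u _) y (u _) z (u _) a (u _) a' (u _) b (u _)
    (by simp at e ⊢; grind) nd
  obtain ⟨g', hg', k1, k2, k3⟩ := h3 x' (u _) y' (u _) z' (u _) a (u _) a' (u _) b (u _)
    (by simp at e' ⊢; grind) nd
  have c1 : g w ∉ [a, a', b] := by
    rw [← g1, ← g2, ← g3]
    simp at e ⊢
    grind
  have c2 : g' w' ∉ [a, a', b] := by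
    rw [← k1, ← k2, ← k3]
    simp at e' ⊢
    grind
  obtain ⟨h, hh, e2⟩ := htr _ c1 _ c2
  obtain ⟨hG, hf⟩ := mem_fx.1 hh
  have f1 := hf a (by simp)
  have f2 := hf a' (by simp)
  have f3 := hf b (by simp)
  refine ⟨g'⁻¹ * h * g, G.mul_mem (G.mul_mem (G.inv_mem hg') hG) hg, ?_, ?_, ?_, ?_⟩
  · rw [Perm.mul_apply, Perm.mul_apply, g1, f1, Perm.inv_eq_iff_eq, k1]
  · rw [Perm.mul_apply, Perm.mul_apply, g2, f2, Perm.inv_eq_iff_eq, k2]
  · rw [Perm.mul_apply, Perm.mul_apply, g3, f3, Perm.inv_eq_iff_eq, k3]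
  · rw [Perm.mul_apply, Perm.mul_apply, e2, Perm.inv_eq_iff_eq]

theorem fx_fx (G : Subgroup (Perm α)) (a a' b : α) :
    fx (fx G {a, a'}) {b} = fx G {a, a', b} := by
  ext x
  simp only [mem_fx, Finset.mem_insert, Finset.mem_singleton, forall_eq_or_imp, forall_eq]
  tauto

theorem fx_inv (G : Subgroup (Perm α)) (U : Finset α) :
    ∀ g ∈ fx G U, ∀ c ∈ Uᶜ, g c ∈ Uᶜ := by
  intro g hg c hc
  rw [Finset.mem_compl] at hc ⊢
  intro h
  have := (mem_fx.1 hg).2 _ h
  exact hc (by rwa [← g.injective this])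

theorem le_fx {G K : Subgroup (Perm α)} (h : K ≤ G) {U : Finset α} (hU : U ⊆ fp K) :
    K ≤ fx G U := fun k hk => mem_fx.2 ⟨h hk, fun _ ha => mem_fp.1 (hU ha) k hk⟩

theorem fx_le (G : Subgroup (Perm α)) (U : Finset α) : fx G U ≤ G := fun _ h => (mem_fx.1 h).1

theorem card_compl_inter {U F : Finset α} (h : U ⊆ F) : (Uᶜ ∩ F).card + U.card = F.card := by
  rw [Finset.inter_comm, ← Finset.sdiff_eq_inter_compl, Finset.card_sdiff_add_card_eq_card h]
end

theorem jobFour : Tw → All1 → Sq1 → Sq2 → PA → PB → PC → Four := by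
  intro tw all1 sq1 sq2 pa pb pc α _ _ G K quo cx
  have h4 := cx.four
  have hh := cx.half
  obtain ⟨a, ha, -⟩ := ex_out (fp K) [] (by rw [List.length_nil]; omega)
  obtain ⟨a', ha', n1⟩ := ex_out (fp K) [a] (by simp; omega)
  obtain ⟨b, hb, n2⟩ := ex_out (fp K) [a, a'] (by simp; omega)
  have nd : [a, a', b].Nodup := by simp at n1 n2 ⊢; grind
  have hU : ({a, a', b} : Finset α) ⊆ fp K := by
    intro x hx
    simp only [Finset.mem_insert, Finset.mem_singleton] at hx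
    rcases hx with rfl | rfl | rfl <;> assumption
  have hU2 : ({a, a'} : Finset α) ⊆ fp K := by
    intro x hx
    simp only [Finset.mem_insert, Finset.mem_singleton] at hx
    rcases hx with rfl | rfl <;> assumption
  have cU : ({a, a', b} : Finset α).card = 3 := by
    rw [Finset.card_eq_three]
    exact ⟨a, a', b, by simp at nd; grind, by simp at nd; grind, by simp at nd; grind, rfl⟩
  have hKL : K ≤ fx G {a, a', b} := le_fx cx.le hU
  have hP : Pro (fx G {a, a', b}) K := cx.pro.mono (fx_le _ _)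
  have mΘ : ∀ c, c ∈ ({a, a', b} : Finset α)ᶜ ↔ c ∉ [a, a', b] := by intro c; simp
  have hi := fx_inv G ({a, a', b} : Finset α)
  have c1 : (({a, a', b} : Finset α)ᶜ).card + 3 = Fintype.card α := by
    rw [← cU, Finset.card_compl_add_card]
  have c2 := card_compl_inter hU
  rw [cU] at c2
  generalize ({a, a', b} : Finset α)ᶜ = Θ at mΘ hi c1 c2
  have hm : ∀ u ∈ Θ, ¬ orb (fx G {a, a', b}) u ⊆ fp K := by
    intro u hu h
    refine sq2 α G K cx (sq1 α G K cx a ha a' ha' b hb u ?_ h)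
    have := (mΘ u).1 hu
    simp at this nd ⊢
    grind
  have hlt : ∀ u ∈ Θ, (orb (fx G {a, a', b}) u).card < Fintype.card α := fun u hu =>
    (Finset.card_le_card (orb_sub hi hu)).trans_lt (by omega)
  have d1 : ∀ u ∈ Θ, 2 * (orb (fx G {a, a', b}) u ∩ fp K).card + 1 ≤
      (orb (fx G {a, a', b}) u).card := fun u hu => cx.loc.orb hKL hP (hlt u hu) (hm u hu)
  have tw' : ∀ u ∈ Θ, (orb (fx G {a, a', b}) u).card =
      2 * (orb (fx G {a, a', b}) u ∩ fp K).card + 1 →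
      T2 (fx G {a, a', b}) (orb (fx G {a, a', b}) u) := fun u hu e =>
    tw α _ K _ _ cx.loc quo ⟨hKL, hP, orb_inv, orb_tr, Finset.not_subset.1 (hm u hu)⟩ (hlt u hu) e
  by_cases h1 : ∃ u ∈ Θ, Θ ⊆ orb (fx G {a, a', b}) u
  · obtain ⟨u, -, h⟩ := h1
    exact t4_of cx.t3 nd fun c hc c' hc' => orb_tr c (h ((mΘ c).2 hc)) c' (h ((mΘ c').2 hc'))
  exfalso
  push Not at h1
  by_cases h2 : ∀ u ∈ Θ, (orb (fx G {a, a', b}) u).card =
      2 * (orb (fx G {a, a', b}) u ∩ fp K).card + 1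
  · obtain ⟨u, hu⟩ : Θ.Nonempty := Finset.card_pos.1 (by omega)
    have hs : Sit (fx G {a, a'}) K ({a, a'} : Finset α)ᶜ := by
      refine ⟨le_fx cx.le hU2, cx.pro.mono (fx_le _ _), fx_inv _ _, fun c hc c' hc' => ?_, ?_⟩
      · have v := Finset.mem_univ (α := α)
        obtain ⟨g, hg, g1, g2, g3⟩ := cx.t3 a (v _) a' (v _) c (v _) a (v _) a' (v _) c' (v _)
          (by simp at hc nd ⊢; grind) (by simp at hc' nd ⊢; grind)
        refine ⟨g, mem_fx.2 ⟨hg, ?_⟩, g3⟩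
        simp [g1, g2]
      · obtain ⟨c, hc, hc'⟩ := Finset.not_subset.1 (hm u hu)
        exact ⟨c, Finset.mem_compl.2 fun h => hc' (hU2 h), hc'⟩
    have mΔ : ∀ c, c ∈ ({a, a'} : Finset α)ᶜ → c ≠ b → c ∈ Θ := by
      intro c hc e
      rw [mΘ]
      simp at hc ⊢
      grind
    have hu' := (mΘ u).1 hu
    have := all1 α _ K _ _ cx.loc hs (Finset.card_le_univ _) b (by simp at nd ⊢; grind) hb
      (fun v hv e O hO => by
        rw [fx_fx] at hO ⊢
        subst hO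
        have hv' := mΔ v hv e
        exact ⟨hm v hv', h2 v hv', tw' v hv' (h2 v hv')⟩)
      u (by simp at hu' ⊢; grind) (by simp at hu'; grind)
    rw [fx_fx] at this
    refine h1 u hu fun c hc => ?_
    have hc' := (mΘ c).1 hc
    have h5 : c ∈ ({a, a'} : Finset α)ᶜ := by simp at hc' ⊢; grind
    rw [← this, Finset.mem_insert] at h5
    exact h5.resolve_left (by simp at hc'; grind)
  push Not at h2
  obtain ⟨u₂, hu₂, e₂⟩ := h2
  have s₂ := orb_sub hi hu₂
  have i₂ := sdiff_orb_inv hi u₂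
  obtain ⟨p1, p2⟩ := card_split s₂ (fp K)
  obtain ⟨u₁, hu₁⟩ : (Θ \ orb (fx G {a, a', b}) u₂).Nonempty :=
    Finset.sdiff_nonempty.2 (h1 u₂ hu₂)
  have hu₁' := (Finset.mem_sdiff.1 hu₁).1
  have s₁ := orb_sub i₂ hu₁
  obtain ⟨q1, q2⟩ := card_split s₁ (fp K)
  have r1 := d1 u₁ hu₁'
  have r2 := d1 u₂ hu₂
  have hE := cx.loc.sum hKL hP _ (sdiff_orb_inv i₂ u₁) (by omega)
    (fun v hv => hm v (Finset.mem_sdiff.1 (Finset.mem_sdiff.1 hv).1).1)
  have hE' : (Θ \ orb (fx G {a, a', b}) u₂) \ orb (fx G {a, a', b}) u₁ = ∅ := by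
    refine hE.resolve_right fun h => ?_
    omega
  rw [hE'] at q1 q2
  simp only [Finset.card_empty, Finset.empty_inter, add_zero] at q1 q2
  have hsub := Finset.sdiff_eq_empty_iff_subset.1 hE'
  have e1 : (orb (fx G {a, a', b}) u₁).card =
      2 * (orb (fx G {a, a', b}) u₁ ∩ fp K).card + 1 := by omega
  have two : Two G K a a' b (orb (fx G {a, a', b}) u₁) (orb (fx G {a, a', b}) u₂) :=
    { toCx := cx, nd := nd, ha := ha, ha' := ha', hb := hb, o1 := ⟨u₁, rfl⟩, o2 := ⟨u₂, rfl⟩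
      dj := Finset.disjoint_left.2 fun c h => (Finset.mem_sdiff.1 (s₁ h)).2
      cov := fun c => by
        rw [← mΘ]
        refine ⟨fun h => h.elim (fun h => (Finset.mem_sdiff.1 (s₁ h)).1) fun h => s₂ h, fun h => ?_⟩
        by_cases h' : c ∈ orb (fx G {a, a', b}) u₂
        · exact Or.inr h'
        · exact Or.inl (hsub (Finset.mem_sdiff.2 ⟨h, h'⟩))
      d1 := e1, d2 := by omega, mv := hm u₁ hu₁', t2 := tw' u₁ hu₁' e1 }
  obtain ⟨Q, hQ⟩ := pa α G K a a' b _ _ two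
  exact pc α G K a a' b _ _ Q two hQ (pb α G K a a' b _ _ Q two hQ)

end H15.PN
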