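import Cfsg.Agent.H70.R3Spec
import Cfsg.Agent.H18.PiCore

/-! Tower R3 (S4881), item LatA: bounds for the primitive prime divisors of `p ^ m - 1`. -/

set_option autoImplicit false
set_option maxHeartbeats 400000

namespace H15.R3

open Cfsg H28 H90 H34.TL H70.R3 Module Subgroup MulAction

universe u

theorem jobLatA : JobLatA.{u} := by
  intro hBig hExp hRank G V _ _ _ _ _ _ p m v₁ v₂ A E _ _ _ k h hm hF hd hfr h3 hχ r e hr he
  haveI := h.nontrivial
  haveI := Fact.mk hr.prime
  haveI := hfr.max.normal
  obtain ⟨D⟩ := hfr.fd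
  set C := centralizer (A : Set G) with hC
  have hk : C.index ∣ k := D.index_centralizer_dvd h.prime hfr.card
  have hmr : m < r := hr.lt h.prime.pos (by omega)
  have km : ∀ k' e' : ℕ, 3 ≤ e' → 0 < k' → k' * e' = 2 * m → k' < m := fun k' e' h1 h2 h3 => by
    nlinarith
  have nd : ¬ r ∣ C.index := fun h1 => by
    have := Nat.le_of_dvd hfr.pos (h1.trans hk)
    have := km k _ h3 hfr.pos hfr.mul
    omega
  have cop : ∀ j, r ^ j ∣ p ^ m - 1 → r ^ j ∣ Nat.card C := fun j hj => by
    have h1 := hj.trans hd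
    rw [← C.card_mul_index] at h1
    exact (((Nat.Prime.coprime_iff_not_dvd hr.prime).2 nd).pow_left j).dvd_of_dvd_mul_right h1
  have N0 : ∀ N : Subgroup G, N.Normal → IsPGroup r N → N = ⊥ := by
    intro N _ hN
    by_contra h0
    haveI : Nontrivial N := (Subgroup.nontrivial_iff_ne_bot N).2 h0
    haveI := hN.center_nontrivial
    haveI : ((center N).map N.subtype).Normal := inferInstance
    haveI : IsMulCommutative ((center N).map N.subtype) := inferInstance
    obtain ⟨k', e', h1, h2, h4, h5⟩ := hF.dvd ((center N).map N.subtype)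
    rw [card_map_of_injective N.subtype_injective] at h5
    obtain ⟨j, hj0, hj⟩ := (hN.to_subgroup (center N)).nontrivial_iff_card.1 inferInstance
    exact hr.min k' h2 (km k' e' h1 h2 h4) ((hj ▸ dvd_pow_self r hj0.ne').trans h5)
  have N1 : ∀ N : Subgroup C, N.Normal → IsPGroup r N → N = ⊥ := by
    intro N _ hN
    have h1 := N0 ((pCore r C).map C.subtype) inferInstance ((H18.isPGroup_pCore r).map _)
    rw [map_eq_bot_iff_of_injective _ C.subtype_injective] at h1
    exact eq_bot_iff.2 (h1 ▸ H18.le_pCore hN)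
  obtain ⟨P⟩ : Nonempty (Sylow r C) := inferInstance
  refine ⟨not_lt.1 fun hlt => ?_, fun c hc => ?_⟩
  · have h1 := N1 P (hBig C _ r hχ hlt P) P.isPGroup'
    have h2 := P.pow_dvd_card_of_pow_dvd_card (cop 1 (by simpa using hr.dvd))
    rw [h1, card_bot, pow_one, Nat.dvd_one] at h2
    exact hr.prime.one_lt.ne' h2
  · have h1 := hRank G V p m r c ((P : Subgroup C).map C.subtype) h.prime hm h.card hr
      (P.isPGroup'.map _) (by
        rintro _ ⟨g, hg, rfl⟩
        obtain ⟨j, hj⟩ := (IsPGroup.iff_orderOf.1 P.isPGroup') ⟨g, hg⟩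
        rw [orderOf_mk] at hj
        have : orderOf g ∣ r ^ c := by
          rw [hj]
          rcases j with _ | j
          · simp
          · have h2 := (hExp C _ r j g hr.prime hχ N1 hj).trans_le hc
            exact pow_dvd_pow r ((Nat.pow_lt_pow_iff_right hr.prime.one_lt).1 h2)
        rw [← map_pow, orderOf_dvd_iff_pow_eq_one.1 this, map_one])
    rw [card_map_of_injective C.subtype_injective] at h1
    exact (Nat.pow_dvd_pow_iff_le_right hr.prime.one_lt).1
      ((P.pow_dvd_card_of_pow_dvd_card (cop e he)).trans h1)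

end H15.R3
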