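import Cfsg.Agent.H53.SimXASpec
import Cfsg.Agent.H30.SimNC
import Cfsg.Agent.H6.SimQSL

/-! S3694, tower SIM, slot XA-A4b. -/

set_option autoImplicit false
set_option maxHeartbeats 400000

namespace H15.XAA4b

open Subgroup Cfsg H98 Matrix H0.Sim H53.XA
open scoped commutatorElement

theorem quasi_comm {G K : Type*} [Group G] [Group K] (C : Subgroup G) (φ : C ≃* K)
    (h : IsQuasisimple (commutator K)) : IsQuasisimple (⁅C, C⁆ : Subgroup G) := by
  let f : K →* G := C.subtype.comp φ.symm.toMonoidHom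
  have hf : Function.Injective f := C.subtype_injective.comp φ.symm.injective
  have hr : (⊤ : Subgroup K).map f = C := by
    ext x
    constructor
    · rintro ⟨k, -, rfl⟩
      exact (φ.symm k).2
    · intro hx
      exact ⟨φ ⟨x, hx⟩, trivial, by simp [f]⟩
  have e : (commutator K).map f = ⁅C, C⁆ := by
    rw [_root_.commutator_def, Subgroup.map_commutator, hr]
  exact H14.quasi_of_mulEquiv h
    (((commutator K).equivMapOfInjective f hf).trans (MulEquiv.subgroupCongr e))

theorem conj_comm {G : Type*} [Group G] {C : Subgroup G} {y : G}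
    (h : ∀ x ∈ C, y * x * y⁻¹ ∈ C) : ∀ x ∈ (⁅C, C⁆ : Subgroup G), y * x * y⁻¹ ∈ (⁅C, C⁆ : Subgroup G) := by
  intro x hx
  have h1 : C.map (MulAut.conj y).toMonoidHom ≤ C := by
    rintro _ ⟨c, hc, rfl⟩
    exact h c hc
  have h2 : (⁅C, C⁆ : Subgroup G).map (MulAut.conj y).toMonoidHom ≤ ⁅C, C⁆ := by
    rw [Subgroup.map_commutator]
    exact Subgroup.commutator_mono h1 h1
  exact h2 ⟨x, hx, rfl⟩

theorem job : JA4b := by
  intro rp red ns a4a card n F _ _ q p Θ H Q E g e x heE ee hae hI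
  have fq : Fq F true q := x.par.card
  have hF : Fintype.card F = q ^ 2 := by simpa [Fq] using fq
  obtain ⟨hrk, ⟨φ⟩⟩ := a4a n F q e fq ee hae
  have hn2 := x.par.two
  have hn3 : n ≠ 2 := fun h => by simpa using (x.par.n2 h).1
  have hq := (card F true q fq).1
  have hq4 : 4 ≤ Fintype.card F := by rw [hF]; nlinarith
  have qs := H6.SimQSL.jobQSL e.rank F (by omega) (fun h => by omega)
  obtain ⟨hE, -, -, ⟨y, hy, hys⟩, -, -⟩ := rp n F true q p Θ H Q E g x
  obtain ⟨hcm, -, -, -⟩ := red n F true q E fq hE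
  have hyS : (y : Mt n F) ∈ Sp E := Submodule.subset_span ⟨y, hy, rfl⟩
  have hye : (y : Mt n F) * e = e * y := (hcm _ hyS _ heE).2
  have hsc : ¬ Sc e := by
    rintro ⟨c, hc⟩
    haveI : Nonempty (Fin n) := ⟨⟨0, by omega⟩⟩
    have h1 : c * c = c := by
      have := ee
      rw [hc, ← map_mul] at this
      exact (Matrix.scalar_inj).1 this
    by_cases h0 : c = 0
    · rw [hc, h0, map_zero, Matrix.rank_zero] at hrk
      omega
    · have h2 : c = 1 := mul_left_cancel₀ h0 (h1.trans (mul_one c).symm)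
      rw [hc, h2, map_one, Matrix.rank_one, Fintype.card_fin] at hrk
      omega
  have hns : ∃ s ∈ Sg n F true q, ¬ St s ({e, 1 - e} : Set (Mt n F)) := by
    refine ns n F true q _ x.par ⟨y, hE.le hy, hys, ?_⟩ ⟨e, by simp, hsc⟩
    rintro m (rfl | rfl)
    · exact hye
    · rw [mul_sub, sub_mul, hye, mul_one, one_mul]
  have hmp := x.mp _ hI hns
  have hLH : (⁅Cz true q e, Cz true q e⁆ : Subgroup (GL (Fin n) F)) ≤ H := by
    intro s hs
    have hsC : s ∈ Cz true q e := Subgroup.commutator_le_self _ hs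
    have hsd : s ∈ (Matrix.GeneralLinearGroup.det : GL (Fin n) F →* Fˣ).ker := by
      refine (Subgroup.commutator_le.2 ?_ : _ ≤ _) hs
      intro a _ b _
      rw [MonoidHom.mem_ker, map_commutatorElement, commutatorElement_eq_one_iff_mul_comm]
      exact mul_comm _ _
    refine hmp s ⟨hsC.1, hsd⟩ ?_
    have h1 : (s : Mt n F) * e * ((s⁻¹ : GL (Fin n) F) : Mt n F) = e := by
      rw [hsC.2, mul_assoc, Units.mul_inv, mul_one]
    rintro m (rfl | rfl)
    · exact Or.inl h1
    · right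
      show _ = _
      rw [mul_sub, sub_mul, h1, mul_one, Units.mul_inv]
  have key : ∀ y ∈ Q, ∀ c ∈ Cz true q e, y * c * y⁻¹ ∈ Cz true q e := by
    intro y hy c hc
    have hyH : y ∈ H := x.QH hy
    refine ⟨mul_mem (mul_mem (x.HG hyH) hc.1) (inv_mem (x.HG hyH)), ?_⟩
    have hst := Cf0.st x.toCf0 hI (inv_mem hyH) e (Or.inl rfl)
    rw [inv_inv] at hst
    have hc' : (c : Mt n F) * (((y⁻¹ : GL (Fin n) F) : Mt n F) * e * y) =
        (((y⁻¹ : GL (Fin n) F) : Mt n F) * e * y) * c := by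
      rcases hst with h | h
      · rw [h]; exact hc.2
      · rw [Set.mem_singleton_iff.1 h, mul_sub, sub_mul, hc.2, mul_one, one_mul]
    have h2 : ∀ a : Mt n F, (y : Mt n F) * (((y⁻¹ : GL (Fin n) F) : Mt n F) * a) = a := fun a => by
      rw [← mul_assoc, Units.mul_inv, one_mul]
    have h3 := congrArg (fun a => (y : Mt n F) * a * ((y⁻¹ : GL (Fin n) F) : Mt n F)) hc'
    simp only [mul_assoc, Units.mul_inv, mul_one, h2] at h3
    simp only [Units.val_mul, mul_assoc]
    exact h3
  refine H30.SimNC.jobNC n F true q p Θ H Q E _ x.toCf0 hLH (quasi_comm _ φ qs) ?_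
  intro y hy
  rw [Subgroup.mem_normalizer_iff]
  intro h
  refine ⟨fun hh => conj_comm (key y hy) h hh, fun hh => ?_⟩
  have := conj_comm (key y⁻¹ (inv_mem hy)) _ hh
  simpa [mul_assoc] using this

end H15.XAA4b
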